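import Cfsg.Agent.ISP.Kill

/-! # The enumeration of the candidates `(i, Q)` -/

set_option autoImplicit false

namespace Cfsg.Agent.ISP

open Cfsg.Agent.Misc.Zsig

def ek (i : ℕ) : ℕ := if i % 2 = 1 then 2 * i else if i % 4 = 2 then i / 2 else i

theorem ek_spec {i : ℕ} (hi : 3 ≤ i) : 3 ≤ ek i ∧ (∀ j, Even j → (ek i ∣ j ↔ i ∣ j)) ∧
    (∀ j, Odd j → ((ek i ∣ 2 * j ∧ ¬ ek i ∣ j) ↔ i ∣ j)) := by
  unfold ek
  split_ifs with h1 h2
  · have hco : Nat.Coprime 2 i := Nat.coprime_two_left.2 (Nat.odd_iff.2 h1)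
    refine ⟨by omega, fun j hj => ?_, fun j hj => ?_⟩
    · exact ⟨fun e => (Dvd.intro_left 2 rfl).trans e,
        fun e => hco.mul_dvd_of_dvd_of_dvd hj.two_dvd e⟩
    · constructor
      · exact fun e => Nat.dvd_of_mul_dvd_mul_left two_pos e.1
      · refine fun e => ⟨Nat.mul_dvd_mul_left 2 e, fun e' => ?_⟩
        obtain ⟨u, hu⟩ := hj
        have := (Dvd.intro i rfl : 2 ∣ 2 * i).trans e'
        omega
  · obtain ⟨c, rfl⟩ : ∃ c, i = c * 2 := ⟨i / 2, by omega⟩
    rw [Nat.mul_div_cancel _ two_pos]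
    have hco : Nat.Coprime c 2 := Nat.coprime_two_right.2 (Nat.odd_iff.2 (by omega))
    refine ⟨by omega, fun j hj => ?_, fun j hj => ?_⟩
    · exact ⟨fun e => hco.mul_dvd_of_dvd_of_dvd e hj.two_dvd, fun e => (Dvd.intro 2 rfl).trans e⟩
    · constructor
      · rintro ⟨e, e'⟩
        exact absurd (hco.dvd_of_dvd_mul_left e) e'
      · rintro ⟨v, hv⟩
        exfalso
        obtain ⟨u, hu⟩ := hj
        have : j = 2 * (c * v) := by rw [hv]; ring
        omega
  · obtain ⟨d, rfl⟩ : ∃ d, i = 4 * d := ⟨i / 4, by omega⟩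
    refine ⟨hi, fun j _ => Iff.rfl, fun j hj => ?_⟩
    obtain ⟨u, hu⟩ := hj
    constructor
    · rintro ⟨⟨v, hv⟩, -⟩
      exfalso
      have : 2 * j = 4 * (d * v) := by rw [hv]; ring
      omega
    · rintro ⟨v, hv⟩
      exfalso
      have : j = 4 * (d * v) := by rw [hv]; ring
      omega

/-- The signed value and the cyclotomic index. -/
def eQ (ε : Bool) (a : ℕ) : ℤ := if ε then a else -a
def eK (ε : Bool) (i : ℕ) : ℕ := if ε then i else ek i

theorem e_ppd {ε : Bool} {a i r c : ℕ} (ha : 1 < a) (hi : 3 ≤ i) (h : IsPPD a (eK ε i) r)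
    (hc : r ^ c ∣ a ^ eK ε i - 1) : Od (eQ ε a) r i ∧ (r : ℤ) ^ c ∣ eQ ε a ^ i - 1 := by
  have cast : ∀ j : ℕ, ((a ^ j - 1 : ℕ) : ℤ) = (a : ℤ) ^ j - 1 := fun j => by
    rw [Nat.cast_sub (Nat.one_le_pow _ _ (by omega))]; push_cast; rfl
  have hc' : (r : ℤ) ^ c ∣ (a : ℤ) ^ eK ε i - 1 := by
    rw [← cast]; exact_mod_cast hc
  cases ε
  · simp only [eK, eQ, Bool.false_eq_true, if_false] at h hc' ⊢
    obtain ⟨h3, he, ho⟩ := ek_spec hi
    refine ⟨nz_od_neg h.1 (nz_od_of_ppd ha (by omega) h) h3 he ho, ?_⟩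
    rcases Nat.even_or_odd i with e | e
    · rw [e.neg_pow]
      obtain ⟨u, hu⟩ := (he i e).2 dvd_rfl
      refine hc'.trans ?_
      conv_rhs => rw [hu, pow_mul]
      simpa using sub_dvd_pow_sub_pow ((a : ℤ) ^ ek i) 1 u
    · have e2 : ek i = 2 * i := by unfold ek; rw [if_pos (Nat.odd_iff.1 e)]
      rw [e2] at h hc'
      rw [e.neg_pow, show -(a : ℤ) ^ i - 1 = -((a : ℤ) ^ i + 1) by ring, dvd_neg]
      rw [show (a : ℤ) ^ (2 * i) - 1 = ((a : ℤ) ^ i + 1) * ((a : ℤ) ^ i - 1) by ring] at hc'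
      have hp : Prime (r : ℤ) := Nat.prime_iff_prime_int.1 h.1
      refine hp.pow_dvd_of_dvd_mul_right c (fun e' => h.2.2 i (by omega) (by omega) ?_) hc'
      rw [← cast] at e'; exact_mod_cast e'
  · simp only [eK, eQ, if_true] at h hc' ⊢
    exact ⟨nz_od_of_ppd ha (by omega) h, hc'⟩

theorem eK_ge {ε : Bool} {i : ℕ} (hi : 3 ≤ i) : 3 ≤ eK ε i := by
  cases ε
  · exact (ek_spec hi).1
  · exact hi

theorem e_mod {Q : ℤ} {r i : ℕ} (hr : r.Prime) (hi : 3 ≤ i) (h : Od Q r i) : r % i = 1 := by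
  have h1 := h.nz_not_dvd_Q hr (by omega)
  have h2 : IsCoprime Q r :=
    ((Prime.coprime_iff_not_dvd (Nat.prime_iff_prime_int.1 hr)).2 h1).symm
  have h3 := (h (r - 1)).1 (Int.ModEq.pow_card_sub_one_eq_one hr h2).symm.dvd
  obtain ⟨u, hu⟩ := h3
  have := hr.two_le
  rw [show r = 1 + i * u by omega, Nat.add_mul_mod_self_left, Nat.mod_eq_of_lt (by omega)]

def eM (m : ℕ) : ℕ := m * (2 ^ kv 2 m - 1)
def eR (m i : ℕ) : ℕ := (kT.filter fun t => m % t == 0 && t % i == 1).prod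
def eD (m i : ℕ) : ℕ := Nat.gcd (eM m) (eR m i ^ 250)
def eok (m : ℕ) : Bool :=
  kex 2 m && kT.prod ^ 60 % m == 0 && decide (0 < eM m) && decide (eM m < 2 ^ 250)

variable {W : ℕ → Prop} {p n m : ℕ}

theorem e_mem {r : ℕ} (h : eok m = true) (hr : r.Prime) (hm : r ∣ m) : r ∈ kT := by
  simp only [eok, Bool.and_eq_true, beq_iff_eq] at h
  have h1 := hr.dvd_of_dvd_pow (hm.trans (Nat.dvd_of_mod_eq_zero h.1.1.2))
  obtain ⟨t, ht, h2⟩ := (Prime.dvd_prod_iff hr.prime).1 h1
  rwa [(Nat.prime_dvd_prime_iff_eq hr (kT_prime ht)).1 h2]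

theorem e_core {ε : Bool} {a i : ℕ} (hL : LS W p n (eQ ε a)) (hN : NT W m) (ha : 1 < a)
    (hi : i = n ∨ i = n - 1) (hv : ∀ r : ℕ, r.Prime → Od (eQ ε a) r i → ¬ W (2 * r))
    (h : eok m = true) : phi (eK ε i) a ∣ eK ε i * eD m i := by
  have hn := hL.hn
  have hi3 : 3 ≤ i := by omega
  have hk := eK_ge (ε := ε) hi3
  refine (Nat.dvd_iff_prime_pow_dvd_dvd _ _).2 fun r c hr hc => ?_
  rcases Nat.eq_zero_or_pos c with rfl | c0
  · simp
  have hd : r ∣ phi (eK ε i) a := (dvd_pow_self r c0.ne').trans hc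
  by_cases hrk : r ∣ eK ε i
  · have : c = 1 := by
      by_contra hne
      exact not_sq_dvd_phi (by omega) ha hr hrk ((pow_dvd_pow r (by omega)).trans hc)
    subst this
    rw [pow_one]
    exact hrk.mul_right _
  · obtain ⟨ho, h2⟩ := e_ppd ha hi3 (isPPD_of_not_dvd (by omega) ha hr hd hrk)
      (hc.trans (phi_dvd ha))
    have hr2 := ho.nz_ne_two hr (by omega)
    have hW := hL.nz_W ho hr (by omega) (by omega) h2
    have hm := hN.toolB r hr hr2 (hN.dvd _ _ hW (dvd_pow_self r c0.ne')) (hv r hr ho)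
    have hmem := e_mem h hr hm
    simp only [eok, Bool.and_eq_true, decide_eq_true_eq] at h
    have hM : r ^ c ∣ eM m := hN.toolB' r c _ hr hr2 hW (hv r hr ho) (kex_sound h.1.1.1)
    have hc250 : c ≤ 250 := by
      have h1 := (Nat.le_of_dvd h.1.2 hM).trans_lt h.2
      have h2 : 2 ^ c ≤ r ^ c := Nat.pow_le_pow_left hr.two_le c
      exact ((Nat.pow_lt_pow_iff_right one_lt_two).1 (h2.trans_lt h1)).le
    have hR : r ∣ eR m i := List.dvd_prod (List.mem_filter.2 ⟨hmem, by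
      simp [Nat.mod_eq_zero_of_dvd hm, e_mod hr hi3 ho]⟩)
    exact Dvd.dvd.mul_left (Nat.dvd_gcd hM ((pow_dvd_pow r hc250).trans (pow_dvd_pow_of_dvd hR _))) _

/-- `a` is not a prime power. -/
def enp (a : ℕ) : Bool := kT.any fun t => a % t == 0 && t ^ 70 % a != 0 && decide (a < 2 ^ 70)

theorem enp_sound {ε : Bool} {a : ℕ} (hL : LS W p n (eQ ε a)) (h : enp a = true) : False := by
  simp only [enp, List.any_eq_true, Bool.and_eq_true, beq_iff_eq, bne_iff_ne, ne_eq,
    decide_eq_true_eq] at h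
  obtain ⟨t, ht, ⟨h1, h2⟩, h3⟩ := h
  obtain ⟨f, -, e⟩ := hL.hQ
  have ea : (eQ ε a).natAbs = a := by cases ε <;> simp [eQ]
  rw [ea] at e
  have pt := kT_prime ht
  have : t = p := (Nat.prime_dvd_prime_iff_eq pt hL.pp).1
    (pt.dvd_of_dvd_pow (e ▸ Nat.dvd_of_mod_eq_zero h1))
  subst this
  refine h2 (Nat.mod_eq_zero_of_dvd (e ▸ pow_dvd_pow t ?_))
  have h4 : 2 ^ f ≤ t ^ f := Nat.pow_le_pow_left pt.two_le f
  exact ((Nat.pow_lt_pow_iff_right one_lt_two).1 (h4.trans_lt (e ▸ h3))).le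

/-- The test of one candidate. -/
def ecand (m i : ℕ) (ε : Bool) (a : ℕ) : Bool :=
  kB' (eQ ε a) m i (kprim (eQ ε a) i) (kstrip m 60 (kprim (eQ ε a) i)) || enp a ||
    ((decide (i < 4) || kill i (eQ ε a) m) && kill (i + 1) (eQ ε a) m)

theorem ecand_sound {ε : Bool} {a i : ℕ} (hL : LS W p n (eQ ε a)) (hN : NT W m)
    (hi : i = n ∨ i = n - 1) (hv : ∀ r : ℕ, r.Prime → Od (eQ ε a) r i → ¬ W (2 * r))
    (h : ecand m i ε a = true) : Fin8 n (eQ ε a) m := by
  have hn := hL.hn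
  simp only [ecand, Bool.or_eq_true, Bool.and_eq_true, decide_eq_true_eq] at h
  rcases h with (h | h) | ⟨h1, h2⟩
  · exact (kB'_sound hL hN hi hv h).elim
  · exact (enp_sound hL h).elim
  · rcases hi with rfl | hi
    · exact kill_sound hL hN (h1.resolve_left (by omega))
    · obtain rfl : n = i + 1 := by omega
      exact kill_sound hL hN h2

/-- `f (acc * d)` for all divisors `d` of `N` with primes in the list. -/
def allD (f : ℕ → Bool) (N : ℕ) : List ℕ → ℕ → Bool
  | [], acc => f acc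
  | t :: ps, acc => N % t ^ (kv t N + 1) != 0 &&
      (List.range (kv t N + 1)).all fun j => allD f N ps (acc * t ^ j)

theorem allD_sound {f : ℕ → Bool} {N : ℕ} : ∀ (ps : List ℕ) (acc d : ℕ), (∀ t ∈ ps, t.Prime) →
    d ≠ 0 → d ∣ N → (∀ r, r.Prime → r ∣ d → r ∈ ps) → allD f N ps acc = true → f (acc * d) = true
  | [], acc, d, _, _, _, h3, h => by
    have : d = 1 := Nat.eq_one_iff_not_exists_prime_dvd.2 fun r hr hd => by simpa using h3 r hr hd
    simpa [this, allD] using h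
  | t :: ps, acc, d, h0, h1, h2, h3, h => by
    have pt := h0 t (by simp)
    obtain ⟨j, d', hd', rfl⟩ := Nat.exists_eq_pow_mul_and_not_dvd h1 t pt.ne_one
    simp only [allD, Bool.and_eq_true, bne_iff_ne, ne_eq, List.all_eq_true, List.mem_range] at h
    have hj : j < kv t N + 1 := by
      by_contra hj
      exact h.1 (Nat.mod_eq_zero_of_dvd ((pow_dvd_pow t (by omega)).trans
        ((Dvd.intro _ rfl).trans h2)))
    rw [← mul_assoc]
    refine allD_sound ps _ d' (fun s hs => h0 s (by simp [hs])) (fun e => h1 (by simp [e]))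
      ((Dvd.intro_left _ rfl).trans h2) (fun r hr hd => ?_) (h.2 j hj)
    rcases List.mem_cons.1 (h3 r hr (hd.mul_left _)) with e | e
    · exact absurd (e ▸ hd) hd'
    · exact e

/-- Integer square root by bisection. -/
def esq (d : ℕ) : ℕ → ℕ → ℕ
  | 0, s => s
  | k + 1, s => if (s + 2 ^ k) * (s + 2 ^ k) ≤ d then esq d k (s + 2 ^ k) else esq d k s

def eq2 (k a : ℕ) : ℕ := if k = 3 then a * a + a + 1 else if k = 4 then a * a + 1 else a * a - a + 1

def equad' (m i : ℕ) (ε : Bool) (d s : ℕ) : Bool :=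
  decide (s * s ≤ d) && decide (d < (s + 1) * (s + 1)) &&
  (eq2 (eK ε i) s != d || decide (s < 2) || ecand m i ε s) &&
  (eq2 (eK ε i) (s + 1) != d || decide (s < 1) || ecand m i ε (s + 1))

def equad (m i : ℕ) (ε : Bool) (d : ℕ) : Bool := equad' m i ε d (esq d 40 0)

theorem phi_eq2 {k a : ℕ} (ha : 1 < a) (hk : k = 3 ∨ k = 4 ∨ k = 6) : phi k a = eq2 k a := by
  have h := phi_cast k ha
  rcases hk with rfl | rfl | rfl
  · rw [Polynomial.cyclotomic_three] at h
    simp only [eq2, if_true]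
    zify; rw [h]; simp; ring
  · have := phi_mul_of_dvd (n := 2) (r := 2) (a := a) Nat.prime_two dvd_rfl
    rw [phi_two] at this
    simp only [eq2]
    rw [show (4 : ℕ) = 2 * 2 from rfl, this]; simp [sq]
  · rw [Polynomial.cyclotomic_six] at h
    have h2 : a ≤ a * a := Nat.le_mul_self a
    simp only [eq2]
    rw [if_neg (by norm_num), if_neg (by norm_num)]
    zify [h2]; rw [h]; simp; ring

theorem equad_sound {i a d : ℕ} {ε : Bool} (ha : 1 < a) (hd : eq2 (eK ε i) a = d)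
    (h : equad m i ε d = true) : ecand m i ε a = true := by
  unfold equad at h
  generalize esq d 40 0 = s at h
  simp only [equad', Bool.and_eq_true, Bool.or_eq_true, decide_eq_true_eq, bne_iff_ne, ne_eq] at h
  obtain ⟨⟨⟨h1, h2⟩, h3⟩, h4⟩ := h
  have h2' : a ≤ a * a := Nat.le_mul_self a
  have l1 : (a - 1) * (a - 1) < d ∧ d < (a + 1) * (a + 1) := by
    obtain ⟨b, rfl⟩ : ∃ b, a = b + 1 := ⟨a - 1, by omega⟩
    rw [← hd, eq2, Nat.add_sub_cancel]
    split_ifs
    · constructor <;> nlinarith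
    · constructor <;> nlinarith
    · have : (b + 1) * (b + 1) - (b + 1) = b * b + b := by
        rw [Nat.sub_eq_iff_eq_add h2']; ring
      rw [this]; constructor <;> nlinarith
  have l2 : a - 1 < s + 1 := Nat.mul_self_lt_mul_self_iff.1 (l1.1.trans h2)
  have l3 : s < a + 1 := Nat.mul_self_lt_mul_self_iff.1 (h1.trans_lt l1.2)
  rcases (by omega : a = s ∨ a = s + 1) with rfl | rfl
  · rcases h3 with (h | h) | h
    exacts [absurd hd h, by omega, h]
  · rcases h4 with (h | h) | h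
    exacts [absurd hd h, by omega, h]

def etot (k : ℕ) : ℕ := ((List.range k).filter fun a => Nat.gcd k a == 1).length

theorem etot_eq (k : ℕ) : etot k = k.totient := by
  rw [Nat.totient_eq_card_coprime, etot]
  simp only [Finset.card, Finset.filter, Finset.range, Multiset.range, Multiset.filter_coe,
    Multiset.coe_card]
  congr 1

def ebd (N e : ℕ) : ℕ → ℕ → ℕ
  | 0, b => b
  | f + 1, b => if N ≤ b ^ e then b else ebd N e f (b + 1)

def erange (m i : ℕ) (ε : Bool) (N e b : ℕ) : Bool :=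
  decide (N ≤ b ^ e) && (List.range' 2 (b - 1)).all fun a => ecand m i ε a

def eone (m i : ℕ) (ε : Bool) : Bool :=
  eR m i == 1 ||
  (if eK ε i = 3 ∨ eK ε i = 4 ∨ eK ε i = 6 then
    kT.prod ^ 250 % (eK ε i * eD m i) == 0 && allD (equad m i ε) (eK ε i * eD m i) kT 1
  else erange m i ε (eK ε i * eD m i) (etot (eK ε i)) (ebd (eK ε i * eD m i) (etot (eK ε i)) 400 1))

def enum (m : ℕ) : Bool :=
  eok m && (List.range' 3 68).all fun i => eone m i true && eone m i false

theorem enum_sound {Q : ℤ} (hL : LS W p n Q) (hN : NT W m) (h : enum m = true) : Fin8 n Q m := by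
  have hn := hL.hn
  have h2 := hL.nz_two_le
  obtain ⟨ε, a, rfl⟩ : ∃ ε a, Q = eQ ε a := by
    obtain ⟨a, rfl | rfl⟩ := Int.eq_nat_or_neg Q
    exacts [⟨true, a, rfl⟩, ⟨false, a, rfl⟩]
  have ha : 1 < a := by
    have : (eQ ε a).natAbs = a := by cases ε <;> simp [eQ]
    omega
  obtain ⟨i, hi, e1, e2, hv⟩ := hL.nz_valid
  have hi3 : 3 ≤ i := by omega
  simp only [enum, Bool.and_eq_true, List.all_eq_true, List.mem_range'_1] at h
  obtain ⟨hok, h⟩ := h
  obtain ⟨r, hr, ho⟩ := nz_od h2 hi3 e1 e2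
  have hm : r ∣ m := hN.toolB r hr (ho.nz_ne_two hr (by omega))
    (by simpa using hL.nz_W (c := 1) ho hr (by omega) (by omega) (by simpa using (ho i).2 dvd_rfl))
    (hv r hr ho)
  have hmem := e_mem hok hr hm
  have hmod := e_mod hr hi3 ho
  have hR : r ∣ eR m i := List.dvd_prod (List.mem_filter.2 ⟨hmem, by
    simp [Nat.mod_eq_zero_of_dvd hm, hmod]⟩)
  have hi70 : i < 3 + 68 := by
    have h71 : r ≤ 71 := by
      revert hmem; simp only [kT, List.mem_cons, List.not_mem_nil, or_false]; omega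
    have := hr.two_le
    by_contra hc
    rcases Nat.lt_or_ge r i with h1 | h1
    · rw [Nat.mod_eq_of_lt h1] at hmod; omega
    · obtain rfl : i = r := by omega
      simp at hmod
  have hone : eone m i ε = true := by
    cases ε
    exacts [(h i ⟨hi3, hi70⟩).2, (h i ⟨hi3, hi70⟩).1]
  have hcore := e_core hL hN ha hi hv hok
  refine ecand_sound hL hN hi hv ?_
  simp only [eone, Bool.or_eq_true, beq_iff_eq] at hone
  rcases hone with hone | hone
  · rw [hone] at hR
    exact absurd (Nat.dvd_one.1 hR) hr.ne_one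
  split_ifs at hone with hk
  · simp only [Bool.and_eq_true, beq_iff_eq] at hone
    have := allD_sound kT 1 _ (fun t ht => kT_prime ht) (phi_pos _ ha).ne' hcore
      (fun s hs hd => ?_) hone.2
    · rw [one_mul] at this
      exact equad_sound ha (phi_eq2 ha hk).symm this
    · have h1 := hs.dvd_of_dvd_pow ((hd.trans hcore).trans (Nat.dvd_of_mod_eq_zero hone.1))
      obtain ⟨t, ht, h2⟩ := (Prime.dvd_prod_iff hs.prime).1 h1
      rwa [(Nat.prime_dvd_prime_iff_eq hs (kT_prime ht)).1 h2]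
  · simp only [erange, Bool.and_eq_true, decide_eq_true_eq, List.all_eq_true, List.mem_range'_1]
      at hone
    have hk3 := eK_ge (ε := ε) hi3
    have hpos : 0 < eK ε i * eD m i := by
      simp only [eok, Bool.and_eq_true, decide_eq_true_eq] at hok
      exact Nat.mul_pos (by omega) (Nat.gcd_pos_of_pos_left _ hok.1.2)
    have l1 := ((lt_phi (n := eK ε i) (by omega) ha).trans_le (Nat.le_of_dvd hpos hcore)).trans_le
      hone.1
    rw [← etot_eq] at l1
    have l2 := lt_of_pow_lt_pow_left₀ _ (Nat.zero_le _) l1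
    exact hone.2 a ⟨ha, by omega⟩

end Cfsg.Agent.ISP
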