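import Cfsg.Agent.ISP.Defs

set_option autoImplicit false

namespace Cfsg.Agent.ISP

/-- `S` (simple, spectrum inside that of `U₆(2)`, order divisible by 7) acts on the nontrivial elementary abelian 3-group `V`,
and a `3'`-element with a nontrivial fixed point has `3 · order` in the spectrum of `U₆(2)`. -/
structure HB (S V : Type*) [Group S] [CommGroup V] [MulDistribMulAction S V] : Prop where
  simp : IsSimpleGroup S
  hw : ∀ m, Om S m → W62 m
  exp : ∀ v : V, v ^ 3 = 1
  nt : Nontrivial V
  fix : ∀ (g : S) (v : V), ¬ 3 ∣ orderOf g → v ≠ 1 → g • v = v → W62 (3 * orderOf g)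
  faith : ∀ g : S, (∀ v : V, g • v = v) → g = 1

end Cfsg.Agent.ISP
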