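import Cfsg.Agent.ISP.Defs
import Cfsg.Agent.ISP.HBDefs

set_option autoImplicit false

namespace Cfsg.Agent.ISP

variable {S V : Type*} [Group S] [Finite S] [CommGroup V] [Finite V] [MulDistribMulAction S V]

/-- An involution `t` commuting with `x` of order 5 inverts `C_V(x)`: `v · t v` is fixed by `t x` (order 10) and `W62 30` fails. -/
theorem HB.inv (h : HB S V) {t x : S} (ht : orderOf t = 2) (hx : orderOf x = 5) (hc : Commute t x)
    {v : V} (hv : x • v = v) : t • v = v⁻¹ := by
  have h1 : orderOf (t * x) = 10 := by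
    rw [hc.orderOf_mul_eq_mul_orderOf_of_coprime (by rw [ht, hx]; norm_num), ht, hx]
  have h2 : t * t = 1 := by rw [← sq, ← ht, pow_orderOf_eq_one]
  by_contra e
  have h3 := h.fix (t * x) (v * t • v) (by rw [h1]; norm_num)
    (fun e' => e (eq_inv_of_mul_eq_one_right e')) (by
      rw [smul_mul', mul_smul, hv, smul_smul, mul_assoc, ← hc.eq, ← mul_assoc, h2, one_mul, hv,
        mul_comm])
  rw [h1] at h3
  revert h3
  unfold W62
  norm_num

theorem HB.ord5 (h : HB S V) {D : Subgroup S} (hD : Nat.card D = 25) {x : S} (hx : x ∈ D)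
    (h1 : x ≠ 1) : orderOf x = 5 := by
  have h2 := orderOf_dvd_natCard (⟨x, hx⟩ : D)
  rw [Subgroup.orderOf_mk, hD, show 25 = 5 ^ 2 from rfl, Nat.dvd_prime_pow Nat.prime_five] at h2
  obtain ⟨k, hk, e⟩ := h2
  interval_cases k
  · exact (h1 (orderOf_eq_one_iff.1 e)).elim
  · exact e
  · have := h.hw _ ⟨x, e⟩
    revert this
    unfold W62
    norm_num

/-- A subgroup `D` of order 25 (elementary abelian: no element of order 25) satisfies `V = ⟨C_V(x) : x ∈ D - 1⟩`:
(for `v`, `∏_{lines L} ∏_{d ∈ L} d v = v^5 · ∏_{d ∈ D} d v`, and `5` is prime to `3`). -/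
theorem HB.gen (h : HB S V) (D : Subgroup S) (hD : Nat.card D = 25) (U : Subgroup V)
    (hU : ∀ x ∈ D, x ≠ 1 → ∀ v : V, x • v = v → v ∈ U) : U = ⊤ := by
  classical
  have := Fintype.ofFinite D
  refine eq_top_iff.2 fun v _ => ?_
  have h1 : ∏ x ∈ Finset.univ.erase (1 : D), (v * (x : S) • v * ((x ^ 2 : D) : S) • v *
      ((x ^ 3 : D) : S) • v * ((x ^ 4 : D) : S) • v) ∈ U :=
    U.prod_mem fun x hx => by
      have h2 : (x : S) ≠ 1 := fun e => Finset.ne_of_mem_erase hx (Subtype.ext e)
      have h3 : (x : S) ^ 5 = 1 := by rw [← h.ord5 hD x.2 h2, pow_orderOf_eq_one]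
      refine hU x x.2 h2 _ ?_
      simp only [smul_mul', smul_smul, SubgroupClass.coe_pow, ← pow_succ', ← sq, h3, one_smul]
      rw [mul_comm]
      simp only [mul_assoc]
  obtain ⟨a, ha⟩ : ∃ a : D, a ≠ 1 := by
    have : Nontrivial D := Finite.one_lt_card_iff_nontrivial.1 (by omega)
    exact exists_ne 1
  have h2 : ∏ x : D, (x : S) • v ∈ U := hU a a.2 (fun e => ha (Subtype.ext e)) _ (by
    rw [Finset.smul_prod']
    exact Fintype.prod_equiv (Equiv.mulLeft a) _ _ fun x => by simp [mul_smul])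
  have h3 : ∀ i : ℕ, (Nat.card D).Coprime i → ∏ x : D, ((x ^ i : D) : S) • v ∈ U := fun i hi => by
    rwa [Fintype.prod_equiv (powCoprime hi) (fun x : D => ((x ^ i : D) : S) • v)
      (fun x : D => (x : S) • v) fun x => rfl]
  have h4 := U.mul_mem (U.mul_mem (U.mul_mem h2 (h3 2 (by rw [hD]; norm_num)))
    (h3 3 (by rw [hD]; norm_num))) (h3 4 (by rw [hD]; norm_num))
  have h5 := Finset.mul_prod_erase Finset.univ (fun x : D => v * (x : S) • v * ((x ^ 2 : D) : S) • v *
      ((x ^ 3 : D) : S) • v * ((x ^ 4 : D) : S) • v) (Finset.mem_univ 1)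
  have h6 := U.mul_mem h1 (U.inv_mem h4)
  rw [eq_inv_mul_iff_mul_eq.2 h5] at h6
  simp only [Finset.prod_mul_distrib, Finset.prod_const, Finset.card_univ,
    ← Nat.card_eq_fintype_card, hD, one_pow, OneMemClass.coe_one, one_smul] at h6
  have h7 : v = (v ^ 20) ^ 2 := by
    rw [← pow_mul, show 20 * 2 = 3 * 13 + 1 from rfl, pow_succ, pow_mul, h.exp, one_pow, one_mul]
  rw [h7]
  refine U.pow_mem ?_ 2
  convert h6 using 1
  generalize ∏ x : D, (x : S) • v = A
  generalize ∏ x : D, ((x ^ 2 : D) : S) • v = B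
  generalize ∏ x : D, ((x ^ 3 : D) : S) • v = C
  generalize ∏ x : D, ((x ^ 4 : D) : S) • v = E
  apply Additive.ofMul.injective
  simp only [ofMul_mul, ofMul_inv, ofMul_pow]
  module

/-- (B1) No involution centralises a subgroup of order 25: by `gen` and `inv` it would invert `V`, so commute with everything
by faithfulness, and be central in the simple group `S` (which has order divisible by 50). -/
theorem HB.b1 (h : HB S V) (D : Subgroup S) (hD : Nat.card D = 25) {t : S} (ht : orderOf t = 2)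
    (hc : ∀ d ∈ D, Commute t d) : False := by
  have h1 := h.gen D hD
    { carrier := {v | t • v = v⁻¹}
      one_mem' := by simp
      mul_mem' := fun {a b} ha hb => by
        simp only [Set.mem_setOf_eq] at *
        rw [smul_mul', ha, hb, mul_inv]
      inv_mem' := fun {a} ha => by
        simp only [Set.mem_setOf_eq] at *
        rw [smul_inv', ha] }
    fun x hx h1 v hv => h.inv ht (h.ord5 hD hx h1) (hc x hx) hv
  have h2 : ∀ v : V, t • v = v⁻¹ := fun v => (h1.ge (Subgroup.mem_top v) : _)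
  have h3 : ∀ g : S, g * t = t * g := fun g => inv_mul_eq_one.1 (h.faith _ fun v => by
    rw [mul_smul, inv_smul_eq_iff, mul_smul, mul_smul, h2, h2, smul_inv'])
  have := h.simp
  have h4 : (Subgroup.zpowers t).Normal := ⟨fun n hn g => by
    obtain ⟨k, rfl⟩ := hn
    rw [show g * t ^ k = t ^ k * g from (Commute.zpow_right (h3 g) k).eq, mul_inv_cancel_right]
    exact ⟨k, rfl⟩⟩
  have h5 := Subgroup.card_subgroup_dvd_card D
  rcases h4.eq_bot_or_eq_top with e | e
  · rw [Subgroup.zpowers_eq_bot] at e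
    simp [e] at ht
  · rw [← Subgroup.card_top (G := S), ← e, Nat.card_zpowers, ht, hD] at h5
    omega

theorem hb1_uniq (hc : Nat.card S = 44352000) (P Q : Sylow 5 S) (H : Subgroup S) (hP : P ≤ H)
    (hQ : Q ≤ H) (h : Nat.card H ∣ 1125) : P = Q := by
  have : Fact (Nat.Prime 5) := ⟨Nat.prime_five⟩
  have h1 : Nat.card P = 125 := by
    rw [P.card_eq_multiplicity, hc, show 44352000 = 5 ^ 3 * 354816 from rfl,
      Nat.factorization_mul (by norm_num) (by norm_num), Nat.Prime.factorization_pow Nat.prime_five]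
    simp [Nat.factorization_eq_zero_of_not_dvd (show ¬ 5 ∣ 354816 by norm_num)]
  have h2 := (P.subtype hP : Subgroup H).card_mul_index
  rw [Sylow.coe_subtype, Nat.card_congr (Subgroup.subgroupOfEquivOfLe hP).toEquiv, h1] at h2
  have h3 := (P.subtype hP).card_dvd_index
  rw [Sylow.coe_subtype] at h3
  have h4 := card_sylow_modEq_one 5 H
  rw [← h2, show 1125 = 125 * 9 from rfl, Nat.mul_dvd_mul_iff_left (by norm_num)] at h
  have h5 := h3.trans h
  have h6 := Nat.le_of_dvd (by norm_num) h5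
  have h7 : Nat.card (Sylow 5 H) = 1 := by
    unfold Nat.ModEq at h4
    generalize Nat.card (Sylow 5 H) = n at *
    interval_cases n <;> omega
  have := (Nat.card_eq_one_iff_unique.1 h7).1
  exact Sylow.subtype_injective (hP := hP) (hQ := hQ) (Subsingleton.elim _ _)

/-- (B2) `|S| = |HS|`, `x` of order 5 with `C_V(x) ≠ 1`: then `C_S(x)` has a unique Sylow 5-subgroup, in the form: two
5-subgroups of order 125 of `C(x)` are equal. A Sylow 2 of `C(x)` has exponent 2 (no 20) and no two distinct involutions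
(`inv`: the product would both invert and fix `C_V(x)`), so `4 ∤ |C(x)|`; `7, 11 ∤ |C(x)|`; so `|C(x)| ∣ 125·18`. If even, `C(x)`
has a normal subgroup of index 2; a group of order dividing `125·9` has normal Sylow 5. (Or: `n₅ ∈ {1, 6}`, and `6` is excluded.) -/
theorem HB.b2 (h : HB S V) (hc : Nat.card S = 44352000) {x : S} (hx : orderOf x = 5) {v : V}
    (hv1 : v ≠ 1) (hv : x • v = v) (P Q : Sylow 5 S) (hP : ∀ g ∈ (P : Subgroup S), Commute g x)
    (hQ : ∀ g ∈ (Q : Subgroup S), Commute g x) : P = Q := by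
  have : Fact (Nat.Prime 5) := ⟨Nat.prime_five⟩
  set C := Subgroup.centralizer ({x} : Set S) with hC
  have hcm : ∀ g : C, Commute (g : S) x := fun g => Subgroup.mem_centralizer_singleton_iff.1 g.2
  have hw : ∀ g : C, (orderOf g).Coprime 5 → W62 (orderOf g * 5) := fun g hg => by
    have := Om.of_commute (hcm g) (by rwa [Subgroup.orderOf_coe, hx])
    rw [Subgroup.orderOf_coe, hx] at this
    exact h.hw _ this
  have hp : ∀ r : ℕ, r.Prime → r.Coprime 5 → r ∣ Nat.card C → W62 (r * 5) := fun r hr h5 hd => by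
    obtain ⟨g, rfl⟩ := Om.of_prime hr hd
    exact hw g h5
  have h7 : ¬ 7 ∣ Nat.card C := fun e => by
    have := hp 7 (by norm_num) (by norm_num) e
    revert this; unfold W62; norm_num
  have h11 : ¬ 11 ∣ Nat.card C := fun e => by
    have := hp 11 (by norm_num) (by norm_num) e
    revert this; unfold W62; norm_num
  have h4 : ¬ 2 ^ 2 ∣ Nat.card C := fun e => by
    obtain ⟨T, hT⟩ := Sylow.exists_subgroup_card_pow_prime 2 e
    have key : ∀ g : T, g ≠ 1 → ((g : C) : S) • v = v⁻¹ := fun g hg => by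
      have h1 := orderOf_dvd_natCard g
      rw [hT, Nat.dvd_prime_pow Nat.prime_two] at h1
      obtain ⟨k, hk, e'⟩ := h1
      interval_cases k
      · exact (hg (orderOf_eq_one_iff.1 e')).elim
      · exact h.inv (by rw [Subgroup.orderOf_coe, Subgroup.orderOf_coe, e']; rfl) hx (hcm _) hv
      · have := hw g (by rw [Subgroup.orderOf_coe, e']; norm_num)
        rw [Subgroup.orderOf_coe, e'] at this
        revert this; unfold W62; norm_num
    have := Fintype.ofFinite T
    obtain ⟨a, b, c, hab, hac, hbc⟩ := Fintype.two_lt_card_iff.1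
      (show 2 < Fintype.card T by rw [← Nat.card_eq_fintype_card, hT]; norm_num)
    have e1 := key (a⁻¹ * b) (mt inv_mul_eq_one.1 hab)
    have e2 := key (b⁻¹ * c) (mt inv_mul_eq_one.1 hbc)
    have e3 := key (a⁻¹ * b * (b⁻¹ * c)) (by rw [mul_assoc, mul_inv_cancel_left]; exact mt inv_mul_eq_one.1 hac)
    rw [Subgroup.coe_mul, Subgroup.coe_mul, mul_smul, e2, smul_inv', e1, inv_inv] at e3
    have e4 := h.exp v
    rw [pow_succ, sq, mul_eq_one_iff_eq_inv.2 e3, one_mul] at e4
    exact hv1 e4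
  have hd : Nat.card C ∣ 2 * 1125 := by
    have h1 := Subgroup.card_subgroup_dvd_card C
    rw [hc, show 44352000 = 11 * (7 * (2 ^ 9 * 1125)) from rfl] at h1
    have h2 := ((Nat.Prime.coprime_iff_not_dvd (by norm_num)).2 h7).symm.dvd_of_dvd_mul_left
      (((Nat.Prime.coprime_iff_not_dvd (by norm_num)).2 h11).symm.dvd_of_dvd_mul_left h1)
    by_cases h3 : 2 ∣ Nat.card C
    · obtain ⟨m, hm⟩ := h3
      have h5 : ¬ 2 ∣ m := fun e => h4 (hm ▸ Nat.mul_dvd_mul_left 2 e)
      rw [hm] at h2 ⊢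
      exact Nat.mul_dvd_mul_left 2 ((((Nat.Prime.coprime_iff_not_dvd Nat.prime_two).2 h5).symm.pow_right
        9).dvd_of_dvd_mul_left ((Dvd.intro_left 2 rfl).trans h2))
    · exact ((((Nat.Prime.coprime_iff_not_dvd Nat.prime_two).2 h3).symm.pow_right
        9).dvd_of_dvd_mul_left h2).mul_left 2
  have hPC : (P : Subgroup S) ≤ C := fun g hg => Subgroup.mem_centralizer_singleton_iff.2 (hP g hg)
  have hQC : (Q : Subgroup S) ≤ C := fun g hg => Subgroup.mem_centralizer_singleton_iff.2 (hQ g hg)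
  by_cases h2 : 2 ∣ Nat.card C
  swap
  · exact hb1_uniq hc P Q C hPC hQC
      (((Nat.Prime.coprime_iff_not_dvd Nat.prime_two).2 h2).symm.dvd_of_dvd_mul_left hd)
  obtain ⟨T⟩ : Nonempty (Sylow 2 C) := inferInstance
  have hT : Nat.card T = 2 := by
    obtain ⟨k, hk⟩ := IsPGroup.iff_card.1 T.isPGroup'
    have h1 := T.pow_dvd_card_of_pow_dvd_card (n := 1) (by simpa using h2)
    have h3 := Subgroup.card_subgroup_dvd_card (T : Subgroup C)
    have h5 : k < 2 := by
      by_contra e
      exact h4 ((pow_dvd_pow 2 (not_lt.1 e)).trans (hk ▸ h3))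
    interval_cases k
    · exact absurd (h1.trans (dvd_of_eq hk)) (by norm_num)
    · exact hk
  have hK := (isCyclic_of_prime_card hT).isComplement' ((Nat.minFac_eq_two_iff _).2 h2)
  generalize (MonoidHom.transferSylow T _) = f at hK
  have h5 := hK.card_mul
  have h6 : f.ker.index = 2 := hK.symm.index_eq_card.trans hT
  have key : ∀ R : Sylow 5 S, (R : Subgroup S) ≤ C → (R : Subgroup S) ≤ f.ker.map C.subtype :=
    fun R hR g hg => by
      obtain ⟨k, hk⟩ := IsPGroup.iff_orderOf.1 R.isPGroup' ⟨g, hg⟩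
      refine ⟨⟨g, hR hg⟩, ?_, rfl⟩
      have h8 : (orderOf (⟨g, hR hg⟩ : C)).Coprime 2 := by
        rw [Subgroup.orderOf_mk, ← Subgroup.orderOf_mk g hg]
        exact hk ▸ Nat.Coprime.pow_left k (by norm_num)
      obtain ⟨m, hm⟩ := exists_pow_eq_self_of_coprime h8.symm
      rw [← hm]
      have h9 := f.ker.pow_index_mem ⟨g, hR hg⟩
      rw [h6] at h9
      exact f.ker.pow_mem h9 m
  refine hb1_uniq hc P Q _ (key P hPC) (key Q hQC) ?_
  rw [Subgroup.card_map_of_injective C.subtype_injective]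
  have h9 : Nat.card (T : Subgroup C) = 2 := hT
  rw [← h5, h9, mul_comm] at hd
  exact Nat.dvd_of_mul_dvd_mul_left two_pos hd

end Cfsg.Agent.ISP
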