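import Cfsg.Agent.ISP.Defs
import Cfsg.Agent.ISP.HB1

set_option autoImplicit false

namespace Cfsg.Agent.ISP

variable {S V : Type*} [Group S] [Finite S] [CommGroup V] [Finite V] [MulDistribMulAction S V]

/-- `v ↦ ∏_{i<5} a^i v` -/
def hb2N (V : Type*) [CommGroup V] [MulDistribMulAction S V] (a : S) : V →* V :=
  ∏ i ∈ Finset.range 5, MulDistribMulAction.toMonoidHom V (a ^ i)

omit [Finite S] [Finite V] in
theorem hb2N_apply (a : S) (v : V) : hb2N V a v = ∏ i ∈ Finset.range 5, a ^ i • v := by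
  simp [hb2N]

omit [Finite S] [Finite V] in
theorem hb2N_conj (g a : S) (v : V) : hb2N V a (g • v) = g • hb2N V (g⁻¹ * a * g) v := by
  rw [hb2N_apply, hb2N_apply, Finset.smul_prod']
  refine Finset.prod_congr rfl fun i _ => ?_
  rw [smul_smul, smul_smul, show g⁻¹ * a * g = g⁻¹ * a * g⁻¹⁻¹ by rw [inv_inv], conj_pow]
  congr 1
  group

omit [Finite S] [Finite V] in
theorem hb2N_comm {g a : S} (h : Commute g a) (v : V) : hb2N V a (g • v) = g • hb2N V a v := by
  rw [hb2N_conj, mul_assoc, ← h.eq, inv_mul_cancel_left]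

omit [Finite S] [Finite V] in
theorem hb2N_fix {a : S} (h : a ^ 5 = 1) (v : V) : a • hb2N V a v = hb2N V a v := by
  rw [hb2N_apply, Finset.smul_prod']
  have h1 := Finset.prod_range_succ (fun i => a ^ i • v) 5
  have h2 := Finset.prod_range_succ' (fun i => a ^ i • v) 5
  rw [h1, h, pow_zero] at h2
  rw [mul_right_cancel h2]
  exact Finset.prod_congr rfl fun i _ => by rw [smul_smul, pow_succ']

omit [Finite S] [Finite V] in
theorem hb2N_pow {a : S} {v : V} (h : a • v = v) : hb2N V a v = v ^ 5 := by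
  rw [hb2N_apply, Finset.prod_congr rfl fun i _ =>
    (MulAction.stabilizer S v).pow_mem (x := a) h i, Finset.prod_const, Finset.card_range]

theorem hb2_nc {g d : S} (hg : g ^ 5 = 1) (hd : orderOf d = 5)
    (h : g⁻¹ * d * g ∈ Subgroup.zpowers d) : Commute g d := by
  obtain ⟨k, hk⟩ := (mem_powers_iff_mem_zpowers.2 h : _ ∈ Submonoid.powers d)
  have hk : d ^ k = g⁻¹ * d * g := hk
  have h1 : ∀ n : ℕ, d ^ k ^ n = (g ^ n)⁻¹ * d * g ^ n := fun n => by
    induction n with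
    | zero => simp
    | succ n ih =>
      rw [pow_succ, pow_mul, ih, show (g ^ n)⁻¹ * d * g ^ n = (g ^ n)⁻¹ * d * (g ^ n)⁻¹⁻¹ by rw [inv_inv],
        conj_pow, hk]
      group
  have h2 : d ^ k ^ 5 = d ^ k := pow_eq_pow_iff_modEq.2 (by
    rw [hd, Nat.ModEq, Nat.pow_mod]
    have := Nat.mod_lt k (by norm_num : 0 < 5)
    interval_cases k % 5 <;> rfl)
  rw [h1, hg, hk, inv_one, one_mul, mul_one, mul_assoc, eq_inv_mul_iff_mul_eq] at h2
  exact h2

/-- The module argument. `D` of order 25 (elementary abelian), `t` an involution inverting `D`, `x` of order 5 commuting with `t`,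
normalising but not centralising `D`, and `d₁ ∈ D - 1` not commuting with `x` such that `D` acts nontrivially on `C_V(d₁)`.
Contradiction. `x` fixes one line `D₀` of `D` and permutes the other five `D_j = ⟨x^j d₁ x^{-j}⟩` cyclically.
`W = {v ∈ C_V(d₁) : ∏_{d ∈ D} d v = 1} ≠ 1` (contains `v⁻¹ · d v`), `t`-invariant. For `v ∈ W`, `s(v) = ∏_j x^j v` is fixed by `x`, so
`t s(v) = s(v)⁻¹` (`HB.inv`), and `t s(v) = s(t v)`; `s` is injective on `W`: apply `π = ∏_{d ∈ D₁} d`, which is the 5th power on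
`W` and kills `x^j W` for `j ≠ 0` (there `π^5 = ∏_{d ∈ D}`, as `D = D₁ D_j`). So `t` inverts `W`; `t d t⁻¹ = d⁻¹` gives `d² = 1` on `W`,
so `D` is trivial on `W`, so `v^25 = 1`, `W = 1`. -/
theorem HB.mod (h : HB S V) (D : Subgroup S) (hD : Nat.card D = 25) {t x d₁ : S}
    (ht : orderOf t = 2) (hx : orderOf x = 5) (htx : Commute t x)
    (htD : ∀ d ∈ D, t * d * t⁻¹ = d⁻¹) (hxD : x ∈ Subgroup.normalizer (D : Set S))
    (hd : d₁ ∈ D) (hdx : ¬ Commute x d₁) {d : S} (hdD : d ∈ D) {v : V} (hv : d₁ • v = v)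
    (hdv : d • v ≠ v) : False := by
  have p5 : ∀ a ∈ D, a ^ 5 = 1 := fun a ha => by
    have h1 : orderOf a ∣ 5 ^ 2 := (D.orderOf_dvd_natCard ha).trans hD.dvd
    obtain ⟨k, hk, e⟩ := (Nat.dvd_prime_pow (by norm_num)).1 h1
    refine orderOf_dvd_iff_pow_eq_one.1 ?_
    have := h.hw _ ⟨a, e⟩
    interval_cases k
    · simp [e]
    · simp [e]
    · simp [W62] at this
  have cm : ∀ a ∈ D, ∀ b ∈ D, Commute a b := fun a ha b hb => by
    have h1 := htD _ (D.mul_mem ha hb)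
    rw [show t * (a * b) * t⁻¹ = t * a * t⁻¹ * (t * b * t⁻¹) by group, htD a ha, htD b hb, ← mul_inv_rev] at h1
    exact (inv_injective h1).symm
  have x5 : x ^ 5 = 1 := hx ▸ pow_orderOf_eq_one x
  haveI : Fact (Nat.Prime 5) := ⟨by norm_num⟩
  have o1 : orderOf d₁ = 5 := orderOf_eq_prime (p5 _ hd) fun e => hdx (e ▸ Commute.one_right x)
  have e1 : ∀ y : V, y ^ 5 = 1 → y = 1 := fun y hy => by
    have := h.exp y
    calc y = (y ^ 3) ^ 2 * (y ^ 5)⁻¹ := by group
      _ = 1 := by rw [this, hy]; simp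
  have ti : ∀ a ∈ D, t⁻¹ * a * t = a⁻¹ := fun a ha => by
    have := htD _ (D.inv_mem ha)
    rw [inv_inv] at this
    calc t⁻¹ * a * t = t⁻¹ * (t * a⁻¹ * t⁻¹) * t := by rw [this]
      _ = a⁻¹ := by group
  have nc : ∀ j, 0 < j → j < 5 → (x ^ j)⁻¹ * d₁ * x ^ j ∈ D ∧
      (x ^ j)⁻¹ * d₁ * x ^ j ∉ Subgroup.zpowers d₁ := fun j j0 j5 => by
    refine ⟨(Subgroup.mem_normalizer_iff''.1 (pow_mem hxD j) d₁).1 hd, fun k => hdx ?_⟩
    have h1 := hb2_nc (by rw [← pow_mul, mul_comm, pow_mul, x5, one_pow]) o1 k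
    obtain ⟨m, hm⟩ := exists_pow_eq_self_of_coprime (x := x) (n := j) (by
      rw [hx]; interval_cases j <;> norm_num)
    exact hm ▸ h1.pow_left m
  let P : V → Prop := fun w => d₁ • w = w ∧ ∀ c ∈ D, c ∉ Subgroup.zpowers d₁ → hb2N V c w = 1
  have Pt : ∀ w, P w → t • w = w⁻¹ := fun w hw => by
    have h1 : P (w * t • w) := ⟨by
      rw [smul_mul', hw.1, smul_smul, show d₁ * t = t * (t⁻¹ * d₁ * t) by group, ti _ hd, mul_smul,
        inv_smul_eq_iff.2 hw.1.symm], fun c hc hc' => by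
      rw [map_mul, hw.2 c hc hc', hb2N_conj, ti c hc, hw.2 _ (D.inv_mem hc) (by simpa using hc'), smul_one,
        mul_one]⟩
    have h2 : hb2N V x (w * t • w) = 1 := by
      rw [map_mul, hb2N_comm htx, h.inv ht hx htx (hb2N_fix x5 w), mul_inv_cancel]
    have h3 := congrArg (hb2N V d₁) h2
    rw [hb2N_apply x, map_prod, map_one, Finset.prod_eq_single 0 (fun j hj j0 => by
      have := nc j (Nat.pos_of_ne_zero j0) (Finset.mem_range.1 hj)
      rw [hb2N_conj, h1.2 _ this.1 this.2, smul_one]) (by simp), pow_zero, one_smul, hb2N_pow h1.1] at h3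
    exact eq_inv_of_mul_eq_one_right (e1 _ h3)
  have h1 : P (v⁻¹ * d • v) := ⟨by
    rw [smul_mul', smul_inv', hv, smul_smul, (cm _ hd _ hdD).eq, mul_smul, hv], fun c hc hc' => by
    have k1 : Subgroup.zpowers d₁ ⊔ Subgroup.zpowers c ≤ D :=
      sup_le (Subgroup.zpowers_le_of_mem hd) (Subgroup.zpowers_le_of_mem hc)
    have k2 : Nat.card (Subgroup.zpowers d₁ ⊔ Subgroup.zpowers c : Subgroup S) ∣ 5 ^ 2 :=
      (Subgroup.card_dvd_of_le k1).trans hD.dvd
    obtain ⟨k, hk, e⟩ := (Nat.dvd_prime_pow (by norm_num)).1 k2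
    have k3 : D = Subgroup.zpowers d₁ ⊔ Subgroup.zpowers c := by
      refine (Subgroup.eq_of_le_of_card_ge k1 ?_).symm
      by_contra n
      have k4 := Subgroup.eq_of_le_of_card_ge (le_sup_left : Subgroup.zpowers d₁ ≤ _ ⊔ Subgroup.zpowers c) (by
        rw [Nat.card_zpowers, o1, e]
        rw [e, hD] at n
        interval_cases k <;> simp_all)
      exact hc' (k4 ▸ Subgroup.mem_sup_right (Subgroup.mem_zpowers c))
    have k5 : D ≤ MulAction.stabilizer S (hb2N V c v) := k3 ▸ sup_le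
      (Subgroup.zpowers_le_of_mem (by
        rw [MulAction.mem_stabilizer_iff, ← hb2N_comm (cm _ hd _ hc), hv]))
      (Subgroup.zpowers_le_of_mem (hb2N_fix (p5 c hc) v))
    rw [map_mul, map_inv, hb2N_comm (cm _ hdD _ hc), k5 hdD, inv_mul_cancel]⟩
  generalize hw : v⁻¹ * d • v = w at h1
  obtain ⟨hc, hc'⟩ := nc 1 one_pos (by norm_num)
  generalize (x ^ 1)⁻¹ * d₁ * x ^ 1 = c at hc hc'
  have h2 := Pt (c • w) ⟨by rw [smul_smul, (cm _ hd _ hc).eq, mul_smul, h1.1], fun b hb hb' => by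
    rw [hb2N_comm (cm _ hc _ hb), h1.2 b hb hb', smul_one]⟩
  rw [smul_smul, show t * c = t * c * t⁻¹ * t by group, htD c hc, mul_smul, Pt w h1, smul_inv', inv_inj,
    inv_smul_eq_iff, smul_smul] at h2
  have h3 : c • w = w := by
    have := (MulAction.stabilizer S w).pow_mem (x := c * c) h2.symm 3
    rwa [show (c * c) ^ 3 = c ^ 5 * c by rw [← pow_two, ← pow_mul, ← pow_succ], p5 c hc, one_mul] at this
  have h4 := h1.2 c hc hc'
  rw [hb2N_pow h3] at h4
  exact hdv (inv_mul_eq_one.1 (hw.trans (e1 w h4))).symm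

end Cfsg.Agent.ISP
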