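import Cfsg.Agent.ISP.Defs
import Cfsg.Agent.ISP.HB2

set_option autoImplicit false

namespace Cfsg.Agent.ISP

variable {S V : Type*} [Group S] [Finite S] [CommGroup V] [Finite V] [MulDistribMulAction S V]

theorem hb3_exp (h : HB S V) (g : S) : g ^ 27720 = 1 := by
  rw [← orderOf_dvd_iff_pow_eq_one]
  rcases h.hw _ ⟨g, rfl⟩ with e | e | e | e | e | e | e <;> exact e.trans (by norm_num)

theorem hb3_30 (h : HB S V) {g : S} (h5 : 5 ∣ orderOf g) : g ^ 30 = 1 := by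
  rw [← orderOf_dvd_iff_pow_eq_one]
  rcases h.hw _ ⟨g, rfl⟩ with e | e | e | e | e | e | e
  all_goals first | exact e.trans (by decide) | exact absurd (h5.trans e) (by decide)

theorem hb3_five (h : HB S V) {g : S} (hg : g ^ 125 = 1) : g ^ 5 = 1 := by
  rw [← orderOf_dvd_iff_pow_eq_one] at hg ⊢
  have := Nat.dvd_gcd hg (orderOf_dvd_iff_pow_eq_one.2 (hb3_exp h g))
  norm_num at this
  exact this

theorem hb3_odd (h : HB S V) (D : Subgroup S) (hD : Nat.card D = 25) {u : S} (hu : u ^ 8 = 1)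
    (hc : ∀ d ∈ D, Commute u d) : u = 1 := by
  by_contra h1
  by_cases h2 : u ^ 2 = 1
  · exact h.b1 D hD (orderOf_eq_prime h2 h1) hc
  by_cases h4 : u ^ 4 = 1
  · exact h.b1 D hD (t := u ^ 2) (orderOf_eq_prime (by rw [← pow_mul]; exact h4) h2)
      fun d hd => (hc d hd).pow_left 2
  · exact h.b1 D hD (t := u ^ 4) (orderOf_eq_prime (by rw [← pow_mul]; exact hu) h4)
      fun d hd => (hc d hd).pow_left 4

theorem hb3_two {D : Subgroup S} {a b : S} (ha : ∀ d ∈ D, a * d * a⁻¹ = d⁻¹)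
    (hb : ∀ d ∈ D, b * d * b⁻¹ = d⁻¹) : ∀ d ∈ D, Commute (a * b) d := by
  intro d hd
  have h1 := ha _ (D.inv_mem hd)
  rw [inv_inv, ← hb d hd] at h1
  calc a * b * d = a * (b * d * b⁻¹) * a⁻¹ * (a * b) := by group
    _ = d * (a * b) := by rw [h1]

theorem hb3_fin (h : HB S V) (D : Subgroup S) (hD : Nat.card D = 25) {g x d₁ d : S} {v : V}
    (hg : ∀ d ∈ D, g * d * g⁻¹ = d⁻¹) (hx5 : x ^ 5 = 1) (hxD : x ∈ Subgroup.normalizer (D : Set S))
    (hd : d₁ ∈ D) (hdx : ¬ Commute x d₁) (hdD : d ∈ D) (hv : d₁ • v = v) (hdv : d • v ≠ v) :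
    False := by
  have : Fact (Nat.Prime 5) := ⟨by norm_num⟩
  obtain ⟨t, ht, ht8⟩ : ∃ t : S, (∀ d ∈ D, t * d * t⁻¹ = d⁻¹) ∧ t ^ 8 = 1 := by
    refine ⟨g * (g * g) ^ 1732, fun d hd => ?_, ?_⟩
    · have := ((hb3_two hg hg d hd).pow_left 1732).eq
      calc _ = g * ((g * g) ^ 1732 * d * ((g * g) ^ 1732)⁻¹) * g⁻¹ := by group
        _ = _ := by rw [this, mul_inv_cancel_right, hg d hd]
    · rw [← sq, ← pow_mul, ← pow_succ', ← pow_mul]
      exact hb3_exp h g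
  have htt : t * t = 1 := hb3_odd h D hD (by rw [← sq, ← pow_mul, mul_comm, pow_mul, ht8, one_pow])
    (hb3_two ht ht)
  have ht1 : t ≠ 1 := by
    rintro rfl
    have h1 := ht d₁ hd
    rw [one_mul, inv_one, mul_one, eq_inv_iff_mul_eq_one, ← sq] at h1
    have h2 : d₁ ^ 25 = 1 := by
      have := pow_card_eq_one' (x := (⟨d₁, hd⟩ : D))
      rw [hD] at this
      exact congrArg Subtype.val this
    rw [show 25 = 2 * 12 + 1 by norm_num, pow_succ, pow_mul, h1, one_pow, one_mul] at h2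
    exact hdx (h2 ▸ Commute.one_right x)
  have hx1 : ∀ d ∈ D, x * d * x⁻¹ ∈ D := fun d hd => (Subgroup.mem_normalizer_iff.1 hxD d).1 hd
  have hx2 : ∀ d ∈ D, x⁻¹ * d * x ∈ D := fun d hd => by
    simpa using (Subgroup.mem_normalizer_iff.1 (inv_mem hxD) d).1 hd
  have ht' : ∀ d ∈ D, x * t * x⁻¹ * d * (x * t * x⁻¹)⁻¹ = d⁻¹ := by
    intro d hd
    calc _ = x * (t * (x⁻¹ * d * x) * t⁻¹) * x⁻¹ := by group
      _ = _ := by rw [ht _ (hx2 d hd)]; group
  have hs := hb3_two ht' ht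
  generalize hs' : x * t * x⁻¹ * t = s at hs
  have hs1 : s ^ 3465 = 1 := hb3_odd h D hD (by rw [← pow_mul]; exact hb3_exp h s)
    fun d hd => (hs d hd).pow_left _
  have hti : t⁻¹ = t := inv_eq_of_mul_eq_one_right htt
  have hs2 : t * s⁻¹ * t⁻¹ = s := by
    rw [← hs']
    simp only [mul_inv_rev, hti, inv_inv, ← mul_assoc, htt, one_mul]
  have hs3 : t * (s ^ 1733)⁻¹ * t⁻¹ = s ^ 1733 := by rw [← inv_pow, ← conj_pow, hs2]
  have hs4 : s ^ 1733 * t * (s ^ 1733)⁻¹ = x * t * x⁻¹ := by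
    calc _ = s ^ 1733 * (t * (s ^ 1733)⁻¹ * t⁻¹) * t := by group
      _ = s ^ 3465 * s * t := by rw [hs3, ← pow_add, ← pow_succ]
      _ = _ := by rw [hs1, one_mul, ← hs', mul_assoc, htt, mul_one]
  have hc : ∀ d ∈ D, Commute (s ^ 1733) d := fun d hd => (hs d hd).pow_left _
  generalize s ^ 1733 = c at hs4 hc
  have hty : Commute t (c⁻¹ * x) := by
    calc t * (c⁻¹ * x) = c⁻¹ * (c * t * c⁻¹) * x := by group
      _ = c⁻¹ * x * t := by rw [hs4]; group
  have hyN : c⁻¹ * x ∈ Subgroup.normalizer (D : Set S) :=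
    mul_mem (inv_mem (Subgroup.centralizer_le_normalizer _
      (Subgroup.mem_centralizer_iff.2 fun d hd => (hc d hd).eq.symm))) hxD
  have hn : ∀ n : ℕ, x ^ n * d₁ * (x ^ n)⁻¹ ∈ D ∧
      (c⁻¹ * x) ^ n * d₁ * ((c⁻¹ * x) ^ n)⁻¹ = x ^ n * d₁ * (x ^ n)⁻¹ := by
    intro n
    induction n with
    | zero => simpa using hd
    | succ n ih =>
      have e : x ^ (n + 1) * d₁ * (x ^ (n + 1))⁻¹ = x * (x ^ n * d₁ * (x ^ n)⁻¹) * x⁻¹ := by group
      refine ⟨e ▸ hx1 _ ih.1, ?_⟩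
      rw [e, pow_succ' (c⁻¹ * x)]
      have := (hc _ (hx1 _ ih.1)).eq
      calc _ = c⁻¹ * (x * ((c⁻¹ * x) ^ n * d₁ * ((c⁻¹ * x) ^ n)⁻¹) * x⁻¹ * c) := by
            simp only [mul_inv_rev, inv_inv, mul_assoc]
        _ = _ := by rw [ih.2, ← this, inv_mul_cancel_left]
  generalize c⁻¹ * x = y at hty hyN hn
  have hx0 : x ≠ 1 := by
    rintro rfl
    exact hdx (Commute.one_left _)
  have h5 : 5 ∣ orderOf y := by
    by_contra h5
    have h1 := (hn (orderOf y)).2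
    rw [pow_orderOf_eq_one, one_mul, inv_one, mul_one, eq_mul_inv_iff_mul_eq] at h1
    obtain ⟨m, hm⟩ := exists_pow_eq_self_of_coprime (x := x) (n := orderOf y) (by
      rw [orderOf_eq_prime hx5 hx0]
      exact ((Nat.Prime.coprime_iff_not_dvd (by norm_num)).2 h5).symm)
    exact hdx (hm ▸ (Commute.symm h1).pow_left m)
  have h6 : ¬ Commute (y ^ 6) d₁ := by
    intro e
    have h1 := (hn 6).2
    rw [e.eq, mul_inv_cancel_right, pow_succ x 5, hx5, one_mul, eq_mul_inv_iff_mul_eq] at h1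
    exact hdx (Commute.symm h1)
  refine h.mod D hD (x := y ^ 6) (orderOf_eq_prime (by rw [sq, htt]) ht1)
    (orderOf_eq_prime (by rw [← pow_mul]; exact hb3_30 h h5) fun e => h6 (e ▸ Commute.one_left _))
    (hty.pow_right 6) ht (pow_mem hyN 6) hd h6 hdD hv hdv

theorem hb3_card (hc : Nat.card S = 44352000) (P : Sylow 5 S) : Nat.card (P : Subgroup S) = 125 := by
  have : Fact (Nat.Prime 5) := ⟨by norm_num⟩
  have h1 : 3 ≤ Nat.factorization 44352000 5 :=
    (Nat.Prime.pow_dvd_iff_le_factorization (by norm_num) (by norm_num)).1 (by norm_num)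
  have h2 : ¬ 4 ≤ Nat.factorization 44352000 5 := fun h =>
    absurd ((Nat.Prime.pow_dvd_iff_le_factorization (by norm_num) (by norm_num)).2 h) (by norm_num)
  rw [P.card_eq_multiplicity, hc, show Nat.factorization 44352000 5 = 3 by omega]
  norm_num

theorem hb3_syl (hc : Nat.card S = 44352000) (P Q : Sylow 5 S) (H : Subgroup S)
    (hP : (P : Subgroup S) ≤ H) (hQ : (Q : Subgroup S) ≤ H)
    (hr : ∀ g ∈ H, orderOf g ≠ 2 ∧ orderOf g ≠ 7 ∧ orderOf g ≠ 11) : P = Q := by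
  have : Fact (Nat.Prime 5) := ⟨by norm_num⟩
  have key : ∀ r : ℕ, r.Prime → (∀ g ∈ H, orderOf g ≠ r) → (Nat.card H).Coprime r := by
    intro r hr h
    have := Fact.mk hr
    refine ((Nat.Prime.coprime_iff_not_dvd hr).2 fun hd => ?_).symm
    obtain ⟨g, hg⟩ := exists_prime_orderOf_dvd_card' r hd
    exact h g g.2 (by rw [Subgroup.orderOf_coe, hg])
  have h1 : Nat.card H ∣ 1125 * (2 ^ 9 * (7 * 11)) := by
    have := H.card_subgroup_dvd_card
    rw [hc] at this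
    exact this
  have h2 : Nat.card H ∣ 1125 := Nat.Coprime.dvd_of_dvd_mul_right
    (Nat.Coprime.mul_right ((key 2 (by norm_num) fun g hg => (hr g hg).1).pow_right 9)
      (Nat.Coprime.mul_right (key 7 (by norm_num) fun g hg => (hr g hg).2.1)
        (key 11 (by norm_num) fun g hg => (hr g hg).2.2))) h1
  have h3 : Nat.card ((P.subtype hP : Sylow 5 H) : Subgroup H) = 125 := by
    rw [Sylow.coe_subtype, Nat.card_congr (Subgroup.subgroupOfEquivOfLe hP).toEquiv, hb3_card hc]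
  have h4 := ((P.subtype hP : Sylow 5 H) : Subgroup H).card_mul_index
  rw [h3] at h4
  rw [← h4] at h2
  have h5 : Nat.card (Sylow 5 H) ∣ 9 := (Sylow.card_dvd_index (P.subtype hP)).trans
    (Nat.dvd_of_mul_dvd_mul_left (by norm_num : 0 < 125) h2)
  have h6 := card_sylow_modEq_one 5 H
  have h7 : Nat.card (Sylow 5 H) = 1 := by
    have h8 := Nat.le_of_dvd (by norm_num) h5
    generalize Nat.card (Sylow 5 H) = n at h5 h6 h8
    unfold Nat.ModEq at h6
    interval_cases n <;> omega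
  have : Subsingleton (Sylow 5 H) := (Nat.card_eq_one_iff_unique.1 h7).1
  exact Sylow.subtype_injective (hP := hP) (hQ := hQ) (Subsingleton.elim _ _)

theorem hb3_mid {A B K : Subgroup S} {n : ℕ} (hA : Nat.card A = 5 ^ n) (hB : Nat.card B = 5 ^ (n + 1))
    (h1 : A ≤ K) (h2 : K ≤ B) {a : S} (ha : a ∈ K) (ha' : a ∉ A) : K = B := by
  obtain ⟨k, hk, e⟩ := (Nat.dvd_prime_pow (by norm_num : Nat.Prime 5)).1
    (hB ▸ Subgroup.card_dvd_of_le h2)
  rcases Nat.lt_or_ge k (n + 1) with h | h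
  · refine absurd ?_ ha'
    rw [Subgroup.eq_of_le_of_card_ge h1 (by
      rw [e, hA]; exact Nat.pow_le_pow_right (by norm_num) (by omega))]
    exact ha
  · exact Subgroup.eq_of_le_of_card_ge h2 (by rw [e, hB, le_antisymm hk h])

theorem hb3_pa {P D : Subgroup S} (hP : Nat.card P = 125) (hD : Nat.card D = 25) (hDP : D ≤ P)
    (h5 : ∀ g ∈ P, g ^ 5 = 1) (hn : ¬ ∀ g ∈ P, ∀ d ∈ D, Commute g d) :
    ∃ z ∈ D, orderOf z = 5 ∧ (∀ g ∈ P, Commute g z) ∧
      ∀ g ∈ P, ∀ d ∈ P, g * d * g⁻¹ * d⁻¹ ∈ Subgroup.zpowers z := by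
  have : Fact (Nat.Prime 5) := ⟨by norm_num⟩
  have hp : IsPGroup 5 P := IsPGroup.of_card (n := 3) hP
  have : Nontrivial P := Finite.one_lt_card_iff_nontrivial.1 (by omega)
  have := hp.center_nontrivial
  obtain ⟨⟨z, hz⟩, hz1⟩ := exists_ne (1 : Subgroup.center P)
  have hz0 : z ≠ 1 := fun e => hz1 (Subtype.ext e)
  have hzc : ∀ g ∈ P, Commute g z := fun g hg =>
    congrArg Subtype.val (Subgroup.mem_center_iff.1 hz ⟨g, hg⟩)
  have hz5 : orderOf z = 5 := orderOf_eq_prime (Subtype.ext (h5 z z.2)) hz0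
  have hDc : ∀ a ∈ D, ∀ b ∈ D, Commute a b := fun a ha b hb => congrArg Subtype.val
    (IsPGroup.commutative_of_card_eq_prime_sq (p := 5) (G := D) hD ⟨a, ha⟩ ⟨b, hb⟩)
  refine ⟨z, ?_, by rw [Subgroup.orderOf_coe, hz5], hzc, fun g hg d hd => ?_⟩
  · by_contra hzD
    have := hb3_mid (n := 2) (K := P ⊓ Subgroup.centralizer (D : Set S)) hD hP
      (le_inf hDP fun a ha => Subgroup.mem_centralizer_iff.2 fun b hb => (hDc b hb a ha).eq)
      inf_le_left ⟨z.2, Subgroup.mem_centralizer_iff.2 fun b hb => (hzc b (hDP hb)).eq⟩ hzD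
    refine hn fun g hg d hd => ?_
    rw [← this] at hg
    exact (Subgroup.mem_centralizer_iff.1 hg.2 d hd).symm
  · have : (Subgroup.zpowers z).Normal :=
      ⟨fun n hn g => by
        rw [Subgroup.mem_center_iff.1 (Subgroup.zpowers_le.2 hz hn) g, mul_inv_cancel_right]
        exact hn⟩
    have h1 : Nat.card (P ⧸ Subgroup.zpowers z) = 5 ^ 2 := by
      have := Subgroup.card_eq_card_quotient_mul_card_subgroup (Subgroup.zpowers z)
      rw [hP, Nat.card_zpowers, hz5] at this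
      omega
    have h2 := IsPGroup.commutative_of_card_eq_prime_sq h1 (QuotientGroup.mk ⟨g, hg⟩)
      (QuotientGroup.mk ⟨d, hd⟩)
    have h3 : (⟨g, hg⟩ * ⟨d, hd⟩ * ⟨g, hg⟩⁻¹ * ⟨d, hd⟩⁻¹ : P) ∈ Subgroup.zpowers z := by
      rw [← QuotientGroup.eq_one_iff]
      simp only [QuotientGroup.mk_mul, QuotientGroup.mk_inv]
      rw [h2]
      group
    obtain ⟨k, hk⟩ := Subgroup.mem_zpowers_iff.1 h3
    exact Subgroup.mem_zpowers_iff.2 ⟨k, by simpa using congrArg Subtype.val hk⟩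

theorem hb3_pow {g d c : S} (h : g * d * g⁻¹ = c * d) (hc : Commute g c) (n : ℕ) :
    g ^ n * d * (g ^ n)⁻¹ = c ^ n * d := by
  induction n with
  | zero => simp
  | succ n ih =>
    calc _ = g * (g ^ n * d * (g ^ n)⁻¹) * g⁻¹ := by group
      _ = c ^ n * (g * d * g⁻¹) := by rw [ih, ← mul_assoc, (hc.pow_right n).eq]; group
      _ = _ := by rw [h]; group

theorem hb3_zp {z c : S} (hz : orderOf z = 5) (hc : c ∈ Subgroup.zpowers z) (h1 : c ≠ 1) :
    Subgroup.zpowers c = Subgroup.zpowers z :=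
  hb3_mid (n := 0) (A := ⊥) (by simp) (by rw [Nat.card_zpowers, hz]; norm_num) bot_le
    (Subgroup.zpowers_le.2 hc) (Subgroup.mem_zpowers c) (by simpa using h1)

/-- an element of `P` acting as a prescribed transvection -/
theorem hb3_tv {P D : Subgroup S} (hD : Nat.card D = 25) (hDP : D ≤ P)
    (hn : ¬ ∀ g ∈ P, ∀ d ∈ D, Commute g d) {z w : S} (hz : z ∈ D) (hw : w ∈ D) (hz5 : orderOf z = 5)
    (hwz : w ∉ Subgroup.zpowers z) (h1 : ∀ g ∈ P, Commute g z)
    (h2 : ∀ g ∈ P, ∀ d ∈ P, g * d * g⁻¹ * d⁻¹ ∈ Subgroup.zpowers z) {u : S}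
    (hu : u ∈ Subgroup.zpowers z) : ∃ x ∈ P, x * w * x⁻¹ = u * w := by
  push Not at hn
  obtain ⟨g, hg, d, hd, hgd⟩ := hn
  have hc := h2 g hg w (hDP hw)
  have hc1 : g * w * g⁻¹ * w⁻¹ ≠ 1 := by
    intro e
    have e' : w * g = g * w := by
      rw [mul_inv_eq_one, mul_inv_eq_iff_eq_mul] at e
      exact e.symm
    have := hb3_mid (n := 1) (A := Subgroup.zpowers z) (K := D ⊓ Subgroup.centralizer {g})
      (by rw [Nat.card_zpowers, hz5]; norm_num) hD
      (Subgroup.zpowers_le.2 ⟨hz, Subgroup.mem_centralizer_singleton_iff.2 (h1 g hg).eq.symm⟩)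
      inf_le_left ⟨hw, Subgroup.mem_centralizer_singleton_iff.2 e'⟩ hwz
    rw [← this] at hd
    exact hgd (Subgroup.mem_centralizer_singleton_iff.1 hd.2).symm
  rw [← hb3_zp hz5 hc hc1, ← mem_powers_iff_mem_zpowers] at hu
  obtain ⟨k, rfl⟩ := hu
  refine ⟨g ^ k, pow_mem hg k, hb3_pow (by group) ?_ k⟩
  obtain ⟨j, hj⟩ := Subgroup.mem_zpowers_iff.1 hc
  rw [← hj]
  exact (h1 g hg).zpow_right j

/-- (B3) `|S| = |HS|`: two different Sylow 5-subgroups do not meet in a group `D` of order 25.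
By `HB.gen` and faithfulness some `d₁ ∈ D - 1` has `D` acting nontrivially on `C_V(d₁)`. If `P` (so `Q`) is abelian: `HB.b2`. Otherwise `D ⊴ P, Q`,
`C(D)` has odd order (`HB.b1`), order `25·3^c` (`c ≤ 2`; no 35, 55; 125 would give an abelian Sylow 5). The images of `P, Q` in
`N(D)/C(D) ≤ GL₂(5)` differ (else `P, Q ≤ P C(D)` of order dividing `125·9`, normal Sylow 5); `Z(P) ≠ Z(Q)` are lines of `D`
(two Sylow 5 of `GL₂(5)` fixing the same line and trivial on the quotient coincide), `L = ⟨P, Q⟩` induces `SL₂(5)` on `D` (Dickson / direct: matrices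
`[[1,1],[0,1]]`, `[[1,0],[c,1]]`, `c ≠ 0`), transitive on the six lines and containing `-1`. `Z₀` = elements of `N(D)` acting as `± 1`; `|Z₀| = 2|C(D)|`, `t ∈ Z₀` an involution,
Frattini `N(D) = C(D) C_{N(D)}(t)`; so `5 ∣ |C_{N(D)}(t)|` gives `x` of order 5 commuting with `t`, not in `C(D)` (a 5-element of `C(D)` lies
in `D`, inverted by `t`). Conjugate `d₁` by `L` off the line fixed by `x`, apply `HB.mod`. -/
theorem HB.b3 (h : HB S V) (hc : Nat.card S = 44352000) (P Q : Sylow 5 S) (hPQ : P ≠ Q) :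
    Nat.card ((P : Subgroup S) ⊓ Q : Subgroup S) ≠ 25 := by
  intro hD
  have : Fact (Nat.Prime 5) := ⟨by norm_num⟩
  have hDP : (P : Subgroup S) ⊓ Q ≤ P := inf_le_left
  have hDQ : (P : Subgroup S) ⊓ Q ≤ Q := inf_le_right
  generalize (P : Subgroup S) ⊓ Q = D at hD hDP hDQ
  have h5 : ∀ R : Sylow 5 S, ∀ g ∈ (R : Subgroup S), g ^ 5 = 1 := fun R g hg => hb3_five h (by
    have := pow_card_eq_one' (x := (⟨g, hg⟩ : (R : Subgroup S)))
    rw [hb3_card hc] at this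
    exact congrArg Subtype.val this)
  have hDc : ∀ a ∈ D, ∀ b ∈ D, Commute a b := fun a ha b hb => congrArg Subtype.val
    (IsPGroup.commutative_of_card_eq_prime_sq (p := 5) (G := D) hD ⟨a, ha⟩ ⟨b, hb⟩)
  obtain ⟨d₁, hd₁, hd1, v, hv, d, hd, hdv⟩ : ∃ d₁ ∈ D, d₁ ≠ 1 ∧ ∃ v : V, d₁ • v = v ∧ ∃ d ∈ D, d • v ≠ v := by
    by_contra hn
    push Not at hn
    let U : Subgroup V :=
      { carrier := {v | ∀ d ∈ D, d • v = v}
        mul_mem' := fun {a b} ha hb d hd => by rw [smul_mul', ha d hd, hb d hd]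
        one_mem' := fun d _ => smul_one d
        inv_mem' := fun {a} ha d hd => by rw [smul_inv', ha d hd] }
    have hU := h.gen D hD U hn
    have : D = ⊥ := (Subgroup.eq_bot_iff_forall _).2 fun d hd =>
      h.faith d fun v => (hU ▸ Subgroup.mem_top v : v ∈ U) d hd
    rw [this, Subgroup.card_bot] at hD
    omega
  have hv1 : v ≠ 1 := by
    rintro rfl
    exact hdv (smul_one d)
  have hb2 : ¬ ((∀ g ∈ (P : Subgroup S), Commute g d₁) ∧ ∀ g ∈ (Q : Subgroup S), Commute g d₁) :=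
    fun e => hPQ (h.b2 hc (orderOf_eq_prime (h5 P _ (hDP hd₁)) hd1) hv1 hv P Q e.1 e.2)
  have hab : ∀ R R' : Sylow 5 S, D ≤ R → D ≤ R' → (∀ g ∈ (R : Subgroup S), ∀ d ∈ D, Commute g d) →
      ∀ g ∈ (R' : Subgroup S), ∀ d ∈ D, Commute g d := by
    intro R R' hR hR' e g hg d hd
    have h1 : ∀ a ∈ (R : Subgroup S), ∀ b ∈ (R : Subgroup S), a * b = b * a := by
      intro a ha b hb
      by_cases haD : a ∈ D
      · exact (e b hb a haD).eq.symm
      · have := hb3_mid (n := 2) (K := R ⊓ Subgroup.centralizer {a}) hD (hb3_card hc R)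
          (le_inf hR fun c hc => Subgroup.mem_centralizer_singleton_iff.2 (e a ha c hc).eq.symm)
          inf_le_left ⟨ha, Subgroup.mem_centralizer_singleton_iff.2 rfl⟩ haD
        rw [← this] at hb
        exact (Subgroup.mem_centralizer_singleton_iff.1 hb.2).symm
    have h2 : ∀ a b : (R' : Subgroup S), a * b = b * a := by
      intro a b
      obtain ⟨a, rfl⟩ := (Sylow.equiv R R').surjective a
      obtain ⟨b, rfl⟩ := (Sylow.equiv R R').surjective b
      rw [← map_mul, ← map_mul]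
      exact congrArg _ (Subtype.ext (h1 a a.2 b b.2))
    exact congrArg Subtype.val (h2 ⟨g, hg⟩ ⟨d, hR' hd⟩)
  have hnP : ¬ ∀ g ∈ (P : Subgroup S), ∀ d ∈ D, Commute g d := fun e =>
    hb2 ⟨fun g hg => e g hg _ hd₁, fun g hg => hab P Q hDP hDQ e g hg _ hd₁⟩
  have hnQ : ¬ ∀ g ∈ (Q : Subgroup S), ∀ d ∈ D, Commute g d := fun e => hnP (hab Q P hDQ hDP e)
  obtain ⟨z, hz, hz5, hz1, hz2⟩ := hb3_pa (hb3_card hc P) hD hDP (h5 P) hnP
  obtain ⟨w, hw, hw5, hw1, hw2⟩ := hb3_pa (hb3_card hc Q) hD hDQ (h5 Q) hnQ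
  have hz0 : z ≠ 1 := by
    rintro rfl
    simp at hz5
  have hw0 : w ≠ 1 := by
    rintro rfl
    simp at hw5
  by_cases hwz : w ∈ Subgroup.zpowers z
  · have e := hb3_zp hz5 hwz hw0
    have cz : ∀ {g c : S}, Commute g z → c ∈ Subgroup.zpowers z → Commute g c := by
      intro g c h1 h2
      obtain ⟨j, rfl⟩ := Subgroup.mem_zpowers_iff.1 h2
      exact h1.zpow_right j
    let H : Subgroup S :=
      { carrier := {g | Commute g z ∧ ∀ d ∈ D, g * d * g⁻¹ * d⁻¹ ∈ Subgroup.zpowers z}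
        mul_mem' := fun {a b} ha hb => ⟨ha.1.mul_left hb.1, fun d hd => by
          have e1 : a * b * d * (a * b)⁻¹ * d⁻¹ =
              a * (b * d * b⁻¹ * d⁻¹) * a⁻¹ * (a * d * a⁻¹ * d⁻¹) := by group
          rw [e1, (cz ha.1 (hb.2 d hd)).eq, mul_inv_cancel_right]
          exact mul_mem (hb.2 d hd) (ha.2 d hd)⟩
        one_mem' := ⟨Commute.one_left z, fun d _ => by simp⟩
        inv_mem' := fun {a} ha => ⟨ha.1.inv_left, fun d hd => by
          have e1 : a⁻¹ * d * a⁻¹⁻¹ * d⁻¹ = a⁻¹ * (a * d * a⁻¹ * d⁻¹)⁻¹ * a := by group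
          rw [e1, (cz ha.1.inv_left (inv_mem (ha.2 d hd))).eq, inv_mul_cancel_right]
          exact inv_mem (ha.2 d hd)⟩ }
    refine hPQ (hb3_syl hc P Q H (fun g hg => ⟨hz1 g hg, fun d hd => hz2 g hg d (hDP hd)⟩)
      (fun g hg => ⟨?_, fun d hd => e ▸ hw2 g hg d (hDQ hd)⟩) fun g hg => ⟨fun h2 => ?_, fun h2 => ?_, fun h2 => ?_⟩)
    · obtain ⟨j, hj⟩ := Subgroup.mem_zpowers_iff.1 (e ▸ Subgroup.mem_zpowers z : z ∈ Subgroup.zpowers w)
      rw [← hj]
      exact (hw1 g hg).zpow_right j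
    · refine h.b1 D hD h2 fun d hd => ?_
      have h3 := hb3_pow (g := g) (d := d) (c := g * d * g⁻¹ * d⁻¹) (by group) (cz hg.1 (hg.2 d hd)) 5
      have h4 : g ^ 5 = g := by
        rw [show 5 = 2 * 2 + 1 by norm_num, pow_succ, pow_mul, ← h2, pow_orderOf_eq_one, one_pow, one_mul]
      rw [h5 P _ (Subgroup.zpowers_le.2 (hDP hz) (hg.2 d hd)), one_mul, h4, mul_inv_eq_iff_eq_mul] at h3
      exact h3
    · have := h.hw _ (Om.of_commute hg.1 (by rw [h2, hz5]; norm_num))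
      rw [h2, hz5] at this
      revert this
      unfold W62
      norm_num
    · have := h.hw _ (Om.of_commute hg.1 (by rw [h2, hz5]; norm_num))
      rw [h2, hz5] at this
      revert this
      unfold W62
      norm_num
  have hzw : z ∉ Subgroup.zpowers w := fun e => hwz (hb3_zp hw5 e hz0 ▸ Subgroup.mem_zpowers w)
  obtain ⟨x, hx, ex⟩ := hb3_tv hD hDP hnP hz hw hz5 hwz hz1 hz2 (Subgroup.mem_zpowers z)
  obtain ⟨y, hy, ey⟩ := hb3_tv hD hDQ hnQ hw hz hw5 hzw hw1 hw2 (inv_mem (Subgroup.mem_zpowers w))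
  have ex' : x * z * x⁻¹ = z := by rw [(hz1 x hx).eq, mul_inv_cancel_right]
  have ey' : y * w * y⁻¹ = w := by rw [(hw1 y hy).eq, mul_inv_cancel_right]
  have g1 : x * y * x * z * (x * y * x)⁻¹ = w⁻¹ := by
    calc _ = x * (y * (x * z * x⁻¹) * y⁻¹) * x⁻¹ := by group
      _ = (x * w * x⁻¹)⁻¹ * (x * z * x⁻¹) := by rw [ex', ey]; nth_rw 2 [← ex']; group
      _ = _ := by rw [ex, ex']; group
  have g2 : x * y * x * w * (x * y * x)⁻¹ = z := by
    calc _ = x * (y * (x * w * x⁻¹) * y⁻¹) * x⁻¹ := by group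
      _ = x * ((y * z * y⁻¹) * (y * w * y⁻¹)) * x⁻¹ := by rw [ex]; group
      _ = _ := by rw [ey, ey', mul_assoc w⁻¹, (hDc z hz w hw).eq, inv_mul_cancel_left, ex']
  generalize x * y * x = a at g1 g2
  let K : Subgroup S :=
    { carrier := {d | d ∈ D ∧ a * a * d * (a * a)⁻¹ = d⁻¹}
      mul_mem' := fun {b c} hb hc => ⟨mul_mem hb.1 hc.1, by
        calc _ = a * a * b * (a * a)⁻¹ * (a * a * c * (a * a)⁻¹) := by group
          _ = _ := by rw [hb.2, hc.2, (hDc b hb.1 c hc.1).eq, mul_inv_rev]⟩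
      one_mem' := ⟨one_mem _, by group⟩
      inv_mem' := fun {b} hb => ⟨inv_mem hb.1, by
        calc _ = (a * a * b * (a * a)⁻¹)⁻¹ := by simp only [mul_inv_rev, inv_inv, mul_assoc]
          _ = _ := by rw [hb.2]⟩ }
  have hK : K = D := by
    refine hb3_mid (n := 1) (A := Subgroup.zpowers z) (by rw [Nat.card_zpowers, hz5]; norm_num) hD
      (Subgroup.zpowers_le.2 ⟨hz, ?_⟩) (fun d hd => hd.1) ⟨hw, ?_⟩ hwz
    · calc _ = a * (a * z * a⁻¹) * a⁻¹ := by group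
        _ = (a * w * a⁻¹)⁻¹ := by rw [g1]; group
        _ = _ := by rw [g2]
    · calc _ = a * (a * w * a⁻¹) * a⁻¹ := by group
        _ = _ := by rw [g2, g1]
  have hg : ∀ d ∈ D, a * a * d * (a * a)⁻¹ = d⁻¹ := fun d hd => (hK ▸ hd : d ∈ K).2
  have hN : ∀ (R : Subgroup S) (u : S), u ∈ D → D ≤ R →
      (∀ g ∈ R, ∀ d ∈ R, g * d * g⁻¹ * d⁻¹ ∈ Subgroup.zpowers u) →
      ∀ g ∈ R, g ∈ Subgroup.normalizer (D : Set S) := by
    intro R u hu hR e g hg
    have e1 : ∀ g ∈ R, ∀ d ∈ D, g * d * g⁻¹ ∈ D := fun g hg d hd => by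
      simpa using mul_mem (Subgroup.zpowers_le.2 hu (e g hg d (hR hd))) hd
    refine Subgroup.mem_normalizer_iff.2 fun d => ⟨e1 g hg d, fun hd => ?_⟩
    simpa [mul_assoc] using e1 g⁻¹ (inv_mem hg) _ hd
  rw [not_and_or] at hb2
  push Not at hb2
  rcases hb2 with ⟨g, hg1, hg2⟩ | ⟨g, hg1, hg2⟩
  · exact hb3_fin h D hD hg (h5 P g hg1) (hN P z hz hDP hz2 g hg1) hd₁ hg2 hd hv hdv
  · exact hb3_fin h D hD hg (h5 Q g hg1) (hN Q w hw hDQ hw2 g hg1) hd₁ hg2 hd hv hdv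

end Cfsg.Agent.ISP
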