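import Cfsg.Agent.ISP.Defs
import Cfsg.Agent.ISP.HB3
import Cfsg.Agent.Solv.Coprime3

set_option autoImplicit false
set_option linter.unusedSectionVars false

namespace Cfsg.Agent.ISP

variable {S V : Type*} [Group S] [Finite S] [CommGroup V] [Finite V] [MulDistribMulAction S V]

theorem hb4_mod {H X : Type*} [Group H] [Finite X] [MulAction H X] (m : ℕ) (Y : Set X)
    (hY : ∀ g : H, ∀ x ∈ Y, g • x ∈ Y) (h : ∀ x ∈ Y, m ∣ (MulAction.stabilizer H x).index) :
    m ∣ Y.ncard := by
  induction hn : Y.ncard using Nat.strong_induction_on generalizing Y with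
  | _ n ih =>
  rcases Y.eq_empty_or_nonempty with rfl | ⟨x, hx⟩
  · rw [← hn]; simp
  have hO : MulAction.orbit H x ⊆ Y := by
    rintro _ ⟨g, rfl⟩
    exact hY g x hx
  have e := Set.ncard_sdiff_add_ncard_of_subset hO
  have hpos : 0 < (MulAction.orbit H x).ncard :=
    (Set.ncard_pos (Set.toFinite _)).2 ⟨x, MulAction.mem_orbit_self x⟩
  have h1 : m ∣ (Y \ MulAction.orbit H x).ncard := by
    refine ih _ (by omega) (Y \ MulAction.orbit H x) (fun g y hy => ?_)
      (fun y hy => h y hy.1) rfl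
    refine ⟨hY g y hy.1, fun h2 => hy.2 ?_⟩
    obtain ⟨k, hk⟩ := h2
    exact ⟨g⁻¹ * k, by simp only [mul_smul] at hk ⊢; rw [hk, inv_smul_smul]⟩
  have h2 : m ∣ (MulAction.orbit H x).ncard := by
    rw [← MulAction.index_stabilizer]; exact h x hx
  rw [← hn, ← e]
  exact dvd_add h1 h2

theorem hb4_conj (H P : Subgroup S) (hH : H ≤ Subgroup.normalizer (P : Set S)) (m : ℕ)
    (h : ∀ x ∈ P, x ≠ 1 →
      m * Nat.card (H ⊓ Subgroup.centralizer {x} : Subgroup S) ∣ Nat.card H) :
    m ∣ Nat.card P - 1 := by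
  have e : ((P : Set S) \ {1}).ncard = Nat.card P - 1 := by
    rw [Set.ncard_sdiff_singleton_of_mem (show (1 : S) ∈ (P : Set S) from P.one_mem)]
    rfl
  rw [← e]
  refine @hb4_mod H S _ _ (MulAction.compHom S ((MulAut.conj (G := S)).comp H.subtype)) m _
    (fun g x hx => ?_) (fun x hx => ?_)
  · change (g : S) * x * (g : S)⁻¹ ∈ _
    refine ⟨(Subgroup.mem_normalizer_iff.1 (hH g.2) x).1 hx.1, fun h1 => hx.2 ?_⟩
    simpa using h1
  · have h1 := h x hx.1 hx.2
    have h2 : @MulAction.stabilizer H S _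
        (MulAction.compHom S ((MulAut.conj (G := S)).comp H.subtype)) x =
        (Subgroup.centralizer {x}).subgroupOf H := by
      ext g
      rw [Subgroup.mem_subgroupOf, Subgroup.mem_centralizer_singleton_iff]
      change (g : S) * x * (g : S)⁻¹ = x ↔ _
      exact mul_inv_eq_iff_eq_mul
    rw [h2]
    have h3 : Nat.card ((Subgroup.centralizer {x}).subgroupOf H) =
        Nat.card (H ⊓ Subgroup.centralizer {x} : Subgroup S) := by
      rw [← Subgroup.inf_subgroupOf_left]
      exact Nat.card_congr (Subgroup.subgroupOfEquivOfLe inf_le_left).toEquiv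
    have h4 := ((Subgroup.centralizer {x}).subgroupOf H).card_mul_index
    rw [h3] at h4
    rw [← h4, mul_comm m] at h1
    exact Nat.dvd_of_mul_dvd_mul_left Nat.card_pos h1

theorem hb4_sylow (P : Sylow 5 S) (hP : Nat.card (P : Subgroup S) = 125)
    (h : ∀ Q : Sylow 5 S, P ≠ Q → Nat.card ((P : Subgroup S) ⊓ Q : Subgroup S) ≠ 25) :
    25 ∣ Nat.card (Sylow 5 S) - 1 := by
  haveI : Fact (Nat.Prime 5) := ⟨by norm_num⟩
  have e : ((Set.univ : Set (Sylow 5 S)) \ {P}).ncard = Nat.card (Sylow 5 S) - 1 := by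
    rw [Set.ncard_sdiff_singleton_of_mem (Set.mem_univ _), Set.ncard_univ]
  rw [← e]
  refine hb4_mod (H := (P : Subgroup S)) 25 _ (fun g Q hQ => ⟨trivial, fun h1 => hQ.2 ?_⟩)
    (fun Q hQ => ?_)
  · have h2 : (g : S) • Q = P := h1
    have h3 : (g : S)⁻¹ • P = P :=
      Sylow.smul_eq_iff_mem_normalizer.2 (Subgroup.le_normalizer (inv_mem g.2))
    exact (eq_inv_smul_iff.2 h2).trans h3
  · have hne : P ≠ Q := fun e => hQ.2 e.symm
    have h2 : MulAction.stabilizer (P : Subgroup S) Q =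
        ((P : Subgroup S) ⊓ Q : Subgroup S).subgroupOf P := by
      ext g
      rw [Subgroup.mem_subgroupOf, MulAction.mem_stabilizer_iff]
      change (g : S) • Q = Q ↔ _
      rw [Sylow.smul_eq_iff_mem_normalizer, ← IsPGroup.inf_normalizer_sylow P.isPGroup' Q]
      exact ⟨fun h => ⟨g.2, h⟩, fun h => h.2⟩
    have h3 : Nat.card (((P : Subgroup S) ⊓ Q : Subgroup S).subgroupOf P) =
        Nat.card ((P : Subgroup S) ⊓ Q : Subgroup S) :=
      Nat.card_congr (Subgroup.subgroupOfEquivOfLe inf_le_left).toEquiv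
    have h4 := (((P : Subgroup S) ⊓ Q : Subgroup S).subgroupOf P).card_mul_index
    rw [h3, hP] at h4
    rw [h2]
    have h5 := h Q hne
    have h6 : Nat.card ((P : Subgroup S) ⊓ Q : Subgroup S) ≠ 125 := by
      intro h6
      have h7 : ((P : Subgroup S) ⊓ Q : Subgroup S) = P :=
        Subgroup.eq_of_le_of_card_ge inf_le_left (by rw [h6, hP])
      have h8 : (P : Subgroup S) ≤ Q := h7 ▸ inf_le_right
      exact hne (Sylow.ext (P.is_maximal' Q.isPGroup' h8).symm)
    have h7 : Nat.card ((P : Subgroup S) ⊓ Q : Subgroup S) ∣ 5 ^ 3 := ⟨_, h4.symm⟩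
    obtain ⟨k, hk, hk2⟩ := (Nat.dvd_prime_pow (by norm_num)).1 h7
    rw [hk2] at h4 h5 h6
    interval_cases k
    all_goals omega

theorem hb4_ord (h : HB S V) {P : Subgroup S} (hP : Nat.card P = 125) {x : S} (hx : x ∈ P)
    (hx1 : x ≠ 1) : orderOf x = 5 := by
  have h1 : orderOf x ∣ 5 ^ 3 := by
    have := Subgroup.orderOf_dvd_natCard P hx
    rwa [hP] at this
  obtain ⟨k, hk, hk2⟩ := (Nat.dvd_prime_pow (by norm_num)).1 h1
  have h2 := h.hw _ ⟨x, rfl⟩
  have h3 : orderOf x ≠ 1 := fun e => hx1 (orderOf_eq_one_iff.1 e)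
  rw [hk2] at h2 h3 ⊢
  unfold W62 at h2
  interval_cases k
  all_goals omega

theorem hb4_nd (h : HB S V) {P : Subgroup S} (hP : Nat.card P = 125) {r : ℕ}
    (hr : r = 7 ∨ r = 11) : ¬ r ∣ Nat.card (Subgroup.normalizer (P : Set S)) := by
  intro hd
  have hp : r.Prime := by rcases hr with rfl | rfl <;> norm_num
  haveI := Fact.mk hp
  obtain ⟨g, hg⟩ := exists_prime_orderOf_dvd_card' r hd
  have hg' : orderOf (g : S) = r := by rw [Subgroup.orderOf_coe, hg]
  have hz : Nat.card (Subgroup.zpowers (g : S)) = r := by rw [Nat.card_zpowers, hg']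
  have h1 := hb4_conj (Subgroup.zpowers (g : S)) P (Subgroup.zpowers_le.2 g.2) r (fun x hx hx1 => by
    have h2 : Nat.card (Subgroup.zpowers (g : S) ⊓ Subgroup.centralizer {x} : Subgroup S) ∣ r := by
      rw [← hz]; exact Subgroup.card_dvd_of_le inf_le_left
    rcases (Nat.dvd_prime hp).1 h2 with h3 | h3
    · rw [h3, hz, mul_one]
    · exfalso
      have h4 : (Subgroup.zpowers (g : S) ⊓ Subgroup.centralizer {x} : Subgroup S) =
          Subgroup.zpowers (g : S) :=
        Subgroup.eq_of_le_of_card_ge inf_le_left (by rw [h3, hz])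
      have h5 : (g : S) ∈ Subgroup.centralizer ({x} : Set S) :=
        (h4.ge (Subgroup.mem_zpowers _)).2
      have h6 : Commute (g : S) x := Subgroup.mem_centralizer_singleton_iff.1 h5
      have h7 := hb4_ord h hP hx hx1
      have h8 := h.hw _ (Om.of_commute h6 (by
        rw [hg', h7]; rcases hr with rfl | rfl <;> norm_num))
      rw [hg', h7] at h8
      unfold W62 at h8
      rcases hr with rfl | rfl <;> omega)
  rw [hP] at h1
  rcases hr with rfl | rfl <;> omega

/-- (B4) By `HB.b3`, `n₅ ≡ 1 (25)` (`P` acts on the other Sylow 5-subgroups `Q` with stabiliser `P ∩ Q` of order `≤ 5`).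
`e = |N(P):P|`, `n₅ e = 354816 = 2⁹·3²·7·11 ≡ 16 (25)`; `7, 11 ∤ e` (they do not divide 124; no 35, 55); `2^a 3^b ≡ 16 (25)`, `a ≤ 9`, `b ≤ 2`
forces `e = 16`. A Sylow 2 `T` of `N(P)` (order 16) acts on the subgroups of order 5 of `Z(P)` (exponent 5: 1, 6 or 31 of them; 6 is
impossible since `|Z(P)| ≠ 25`), an odd number, so normalises `⟨x₀⟩ ≤ Z(P)`; `C_T(x₀)` has order `≥ 4`, exponent 2 (no 20), so contains a four-group
`E`; some involution `t ∈ E` has a nontrivial fixed point on `P/⟨x₀⟩` (else `a, b, ab` all invert the abelian group of order 25), so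
`|C_P(t)| ≥ 25` (coprime action) and `t` centralises a subgroup of order 25: `HB.b1`. -/
theorem HB.hs (h : HB S V) (hc : Nat.card S = 44352000) : False := by
  haveI : Fact (Nat.Prime 5) := ⟨by norm_num⟩
  haveI : Fact (Nat.Prime 2) := ⟨Nat.prime_two⟩
  obtain ⟨P⟩ : Nonempty (Sylow 5 S) := inferInstance
  have hP : Nat.card (P : Subgroup S) = 125 := by
    rw [P.card_eq_multiplicity, hc, show 44352000 = 5 ^ 3 * 354816 by norm_num,
      Nat.factorization_mul (by norm_num) (by norm_num), Nat.Prime.factorization_pow (by norm_num),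
      Finsupp.add_apply, Finsupp.single_eq_same, Nat.factorization_eq_zero_of_not_dvd (by norm_num)]
    norm_num
  have h1 := hb4_sylow P hP (fun Q hQ => h.b3 hc P Q hQ)
  set N := Subgroup.normalizer ((P : Subgroup S) : Set S) with hN
  have h2 : Nat.card N * Nat.card (Sylow 5 S) = 44352000 := by
    rw [P.card_eq_index_normalizer, ← hc]; exact N.card_mul_index
  obtain ⟨e, he⟩ : 125 ∣ Nat.card N := hP ▸ Subgroup.card_dvd_of_le Subgroup.le_normalizer
  have h7 : ¬ 7 ∣ e := fun h7 => hb4_nd h hP (Or.inl rfl) (he ▸ Dvd.dvd.mul_left h7 _)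
  have h11 : ¬ 11 ∣ e := fun h7 => hb4_nd h hP (Or.inr rfl) (he ▸ Dvd.dvd.mul_left h7 _)
  have hpos : 0 < Nat.card (Sylow 5 S) := Nat.card_pos
  obtain ⟨k, hk⟩ := h1
  have hk' : Nat.card (Sylow 5 S) = 25 * k + 1 := by omega
  have h3 : e * (25 * k + 1) = 4608 * 7 * 11 := by
    rw [he, hk'] at h2
    linarith
  have h4 : e ∣ 4608 := by
    have h5 : e ∣ 4608 * 7 * 11 := ⟨_, h3.symm⟩
    have h6 := Nat.Coprime.dvd_of_dvd_mul_right
      ((Nat.Prime.coprime_iff_not_dvd (by norm_num)).2 h11).symm h5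
    exact Nat.Coprime.dvd_of_dvd_mul_right
      ((Nat.Prime.coprime_iff_not_dvd (by norm_num)).2 h7).symm h6
  have h5 : e % 25 = 16 := by
    have : e * (25 * k + 1) = 25 * (e * k) + e := by ring
    omega
  have h6 : e = 16 := by
    obtain ⟨a, b, ha, hb, rfl⟩ := exists_dvd_and_dvd_of_dvd_mul
      (show e ∣ 2 ^ 9 * 3 ^ 2 from h4)
    obtain ⟨i, hi, rfl⟩ := (Nat.dvd_prime_pow (by norm_num)).1 ha
    obtain ⟨j, hj, rfl⟩ := (Nat.dvd_prime_pow (by norm_num)).1 hb
    interval_cases i <;> interval_cases j <;> simp_all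
  obtain ⟨T0, hT0⟩ := Sylow.exists_subgroup_card_pow_prime (G := N) 2 (n := 4)
    (by rw [he, h6]; norm_num)
  set T := T0.map N.subtype with hT
  have hTc : Nat.card T = 16 := by
    rw [hT, Subgroup.card_map_of_injective N.subtype_injective, hT0]; norm_num
  have hTN : T ≤ N := Subgroup.map_subtype_le _
  obtain ⟨x, hx, hx1, hx2⟩ : ∃ x ∈ (P : Subgroup S), x ≠ 1 ∧
      ¬ 8 * Nat.card (T ⊓ Subgroup.centralizer {x} : Subgroup S) ∣ Nat.card T := by
    by_contra hn
    push Not at hn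
    have := hb4_conj T P hTN 8 hn
    rw [hP] at this
    omega
  set A := (T ⊓ Subgroup.centralizer {x} : Subgroup S) with hA
  have hAd : Nat.card A ∣ 2 ^ 4 := by
    have := Subgroup.card_dvd_of_le (inf_le_left : A ≤ T)
    rwa [hTc] at this
  have hA4 : 4 ≤ Nat.card A := by
    obtain ⟨i, hi, hi2⟩ := (Nat.dvd_prime_pow (by norm_num)).1 hAd
    rw [hi2, hTc] at hx2
    rw [hi2]
    interval_cases i
    all_goals omega
  have hx5 := hb4_ord h hP hx hx1
  have hA2 : ∀ a ∈ A, a ≠ 1 → orderOf a = 2 := fun a ha ha1 => by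
    have h8 : orderOf a ∣ 2 ^ 4 := (Subgroup.orderOf_dvd_natCard A ha).trans hAd
    obtain ⟨i, hi, hi2⟩ := (Nat.dvd_prime_pow (by norm_num)).1 h8
    have h9 : Commute a x := Subgroup.mem_centralizer_singleton_iff.1 ha.2
    have h10 := h.hw _ (Om.of_commute h9 (by
      rw [hi2, hx5]; exact Nat.Coprime.pow_left _ (by norm_num)))
    have h12 : orderOf a ≠ 1 := fun e => ha1 (orderOf_eq_one_iff.1 e)
    rw [hi2, hx5] at h10
    rw [hi2] at h12 ⊢
    unfold W62 at h10
    interval_cases i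
    all_goals omega
  have hsq : ∀ a ∈ A, a * a = 1 := fun a ha => by
    by_cases ha1 : a = 1
    · rw [ha1, one_mul]
    · rw [← pow_two, ← hA2 a ha ha1, pow_orderOf_eq_one]
  haveI : IsMulCommutative A := ⟨⟨fun a b => Subtype.ext (by
    have e1 := hsq _ a.2
    have e2 := hsq _ b.2
    have e3 := hsq _ (mul_mem a.2 b.2)
    change (a : S) * b = b * a
    calc (a : S) * b = (a : S) * ((a : S) * b * (a * b)) * b := by rw [e3, mul_one]
      _ = ((a : S) * a) * (b * a) * (b * b) := by simp only [mul_assoc]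
      _ = b * a := by rw [e1, e2, one_mul, mul_one])⟩⟩
  have hnc : ¬ IsCyclic A := fun hcy => by
    obtain ⟨g, hg⟩ := IsCyclic.exists_ofOrder_eq_natCard (α := A)
    have h8 : orderOf g ∣ 2 := orderOf_dvd_of_pow_eq_one (Subtype.ext (by
      rw [pow_two]; exact hsq _ g.2))
    have := Nat.le_of_dvd two_pos h8
    omega
  have hle := Solv.le_of_centralizers_le A P hnc (inf_le_left.trans hTN)
    (by rw [hP]; exact Nat.Coprime.coprime_dvd_left hAd (by norm_num)) (Subgroup.zpowers x)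
    (fun a ha ha1 => by
      set C := ((P : Subgroup S) ⊓ Subgroup.centralizer {a} : Subgroup S) with hC
      have hxC : x ∈ C := ⟨hx, Subgroup.mem_centralizer_singleton_iff.2
        (Subgroup.mem_centralizer_singleton_iff.1 ha.2).symm⟩
      have hCd : Nat.card C ∣ 5 ^ 3 := by
        have := Subgroup.card_dvd_of_le (inf_le_left : C ≤ P)
        rwa [hP] at this
      obtain ⟨i, hi, hi2⟩ := (Nat.dvd_prime_pow (by norm_num)).1 hCd
      by_cases hi3 : 2 ≤ i
      · exfalso
        obtain ⟨D0, hD0⟩ := Sylow.exists_subgroup_card_pow_prime (G := C) 5 (n := 2)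
          (by rw [hi2]; exact pow_dvd_pow _ hi3)
        refine h.b1 (D0.map C.subtype) ?_ (hA2 a ha ha1) fun d hd => ?_
        · rw [Subgroup.card_map_of_injective C.subtype_injective, hD0]; norm_num
        · exact (Subgroup.mem_centralizer_singleton_iff.1
            (Subgroup.map_subtype_le D0 hd).2).symm
      · refine (Subgroup.eq_of_le_of_card_ge (Subgroup.zpowers_le.2 hxC) ?_).ge
        rw [Nat.card_zpowers, hx5, hi2]
        interval_cases i <;> omega)
  have := Subgroup.card_le_of_le hle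
  rw [Nat.card_zpowers, hx5, hP] at this
  omega

end Cfsg.Agent.ISP
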