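import Cfsg.Agent.ISP.Defs


set_option autoImplicit false

namespace Cfsg.Agent.ISP

open Subgroup

section

variable {H : Type*} [Group H] [Finite H]

omit [Finite H] in
theorem hsa_cop (C : Subgroup H) {x : H} {a b : ℕ} (h : a.Coprime b) (ha : x ^ a ∈ C) (hb : x ^ b ∈ C) : x ∈ C := by
  obtain ⟨u, v, e⟩ := Nat.isCoprime_iff_coprime.2 h
  rw [← zpow_one x, ← e, zpow_add, mul_comm u, mul_comm v, zpow_mul, zpow_mul, zpow_natCast, zpow_natCast]
  exact mul_mem (zpow_mem ha u) (zpow_mem hb v)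

theorem hsa_nz {x u : H} (h : x ∈ normalizer (zpowers u : Set H)) : ∃ i : ℕ, x * u * x⁻¹ = u ^ i :=
  (mem_powers_iff_mem_zpowers.2 ((mem_normalizer_iff.1 h u).1 (mem_zpowers u))).imp fun _ => Eq.symm

omit [Finite H] in
theorem hsa_cj {x u : H} {i : ℕ} (h : x * u * x⁻¹ = u ^ i) (k : ℕ) (e : i ^ k ≡ 1 [MOD orderOf u]) :
    x ^ k ∈ centralizer {u} := by
  have : ∀ k : ℕ, x ^ k * u * (x ^ k)⁻¹ = u ^ i ^ k := fun k => by
    induction k with
    | zero => simp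
    | succ k ih =>
      rw [pow_succ', mul_inv_rev, mul_assoc x, mul_assoc x, ← mul_assoc _ _ x⁻¹, ih, ← mul_assoc, ← conj_pow, h,
        ← pow_mul, pow_succ']
  rw [mem_centralizer_singleton_iff, ← mul_inv_eq_iff_eq_mul, this, pow_eq_pow_iff_modEq.2 e, pow_one]

theorem hsa_45 (h45 : ¬ Om H 45) {u t : H} (hu : orderOf u = 9) {k : ℕ} (ht : t ^ 5 ^ k = 1) (h : Commute u t) :
    t = 1 := by
  obtain ⟨j, -, hj⟩ := (Nat.dvd_prime_pow Nat.prime_five).1 (orderOf_dvd_of_pow_eq_one ht)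
  have := Om.of_commute h (by rw [hu, hj]; exact Nat.Coprime.pow_right _ (by norm_num))
  cases j with
  | zero => exact orderOf_eq_one_iff.1 hj
  | succ j => exact absurd (this.of_dvd ⟨5 ^ j, by rw [hu, hj]; ring⟩) h45

theorem hsa_fix (h45 : ¬ Om H 45) {u : H} (hu : orderOf u = 9) {T : Subgroup H} (hT : IsPGroup 5 T)
    (h : u ∈ normalizer (T : Set H)) : Nat.card T % 3 = 1 := by
  classical
  have := Fintype.ofFinite T
  have := Fact.mk Nat.prime_three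
  let f : normalizer (T : Set H) →* Function.End T := (MulAction.toEndHom).comp T.normalizerMonoidHom
  have h1 := Equiv.Perm.card_fixedPoints_modEq (p := 3) (n := 2) (f := f ⟨u, h⟩) (by
    rw [← map_pow, show (⟨u, h⟩ : normalizer (T : Set H)) ^ 3 ^ 2 = 1 from
      Subtype.ext (orderOf_dvd_iff_pow_eq_one.1 hu.dvd), map_one])
  simp only [← Nat.card_eq_fintype_card] at h1
  rw [(Nat.card_eq_one_iff_exists (α := (f ⟨u, h⟩).fixedPoints)).2
    ⟨⟨1, map_one (T.normalizerMonoidHom ⟨u, h⟩)⟩, fun t => by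
    obtain ⟨k, hk⟩ := hT t.1
    exact Subtype.ext (Subtype.ext (hsa_45 h45 hu (congrArg Subtype.val hk)
      (mul_inv_eq_iff_eq_mul.1 (congrArg Subtype.val t.2))))⟩] at h1
  exact h1

omit [Finite H] in
theorem hsa_syl {p n : ℕ} [Fact p.Prime] (h : ¬ p ^ (n + 1) ∣ Nat.card H) {u : H} (hu : orderOf u = p ^ n) :
    ∃ P : Sylow p H, (P : Subgroup H) = zpowers u :=
  ⟨(IsPGroup.of_card ((Nat.card_zpowers u).trans hu)).toSylow fun e => h (by
    rw [← (zpowers u).card_mul_index, Nat.card_zpowers, hu, pow_succ]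
    exact mul_dvd_mul_left _ e), rfl⟩

theorem hsa_D (h27 : ¬ 27 ∣ Nat.card H) {u v : H} (hu : orderOf u = 9) {a : ℕ} (hv : v ^ 3 ^ a = 1) :
    ∃ (h : H) (i : ℕ), v = h * u ^ i * h⁻¹ := by
  have := Fact.mk Nat.prime_three
  obtain ⟨P, hP⟩ := hsa_syl (p := 3) (n := 2) h27 hu
  obtain ⟨j, -, hj⟩ := (Nat.dvd_prime_pow Nat.prime_three).1 (orderOf_dvd_of_pow_eq_one hv)
  obtain ⟨Q, hQ⟩ := (IsPGroup.of_card ((Nat.card_zpowers v).trans hj)).exists_le_sylow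
  obtain ⟨h, rfl⟩ := MulAction.exists_smul_eq H P Q
  obtain ⟨x, hx, e⟩ := hQ (mem_zpowers v)
  obtain ⟨i, rfl⟩ := mem_powers_iff_mem_zpowers.2 (hP.le hx)
  exact ⟨h, i, e.symm⟩

theorem hsa_D' (h27 : ¬ 27 ∣ Nat.card H) {u v : H} (hu : orderOf u = 9) (hv : v ^ 3 = 1) :
    ∃ (h : H) (j : ℕ), v = h * (u ^ 3) ^ j * h⁻¹ := by
  obtain ⟨h, i, rfl⟩ := hsa_D h27 hu (a := 1) hv
  rw [conj_pow, mul_inv_eq_one, mul_eq_left, ← pow_mul, ← orderOf_dvd_iff_pow_eq_one, hu] at hv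
  obtain ⟨j, rfl⟩ : 3 ∣ i := by omega
  exact ⟨h, j, by rw [pow_mul]⟩

theorem hsa_J {p : ℕ} (hp : p.Prime) {N K : Subgroup H} [K.Normal] (h : N ⊔ K = ⊤) {t : H} {e : ℕ}
    (h1 : t ^ p ^ e ∈ K) (h2 : t ∉ K) : ∃ v ∈ N, v ∉ K ∧ ∃ a, v ^ p ^ a = 1 := by
  obtain ⟨n, hn, k, hk, rfl⟩ := mem_sup_of_normal_right.1 (h.ge (mem_top t))
  obtain ⟨a, m, hm, e'⟩ := Nat.exists_eq_pow_mul_and_not_dvd (orderOf_pos n).ne' p hp.ne_one
  refine ⟨n ^ m, pow_mem hn m, fun c => h2 (hsa_cop K (((Nat.Prime.coprime_iff_not_dvd hp).2 hm).pow_left e) h1 ?_),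
    a, by rw [← pow_mul, mul_comm, ← e', pow_orderOf_eq_one]⟩
  rw [← QuotientGroup.eq_one_iff] at c hk ⊢
  rwa [QuotientGroup.mk_pow, QuotientGroup.mk_mul, hk, mul_one, ← QuotientGroup.mk_pow]

theorem hsa_B (h27 : ¬ 27 ∣ Nat.card H) {u : H} (hu : orderOf u = 9) {N K : Subgroup H} [hK : K.Normal]
    (h : N ⊔ K = ⊤) (h1 : u ^ 3 ∈ K) (h2 : u ∉ K) : ∃ v ∈ N, orderOf v = 9 := by
  have := Fact.mk Nat.prime_three
  obtain ⟨v, hv, h3, a, ha⟩ := hsa_J Nat.prime_three h (e := 1) h1 h2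
  refine ⟨v, hv, orderOf_eq_prime_pow (p := 3) (n := 1) (fun c => h3 ?_) ?_⟩
  · obtain ⟨h, j, rfl⟩ := hsa_D' h27 hu c
    exact hK.conj_mem _ (pow_mem h1 j) h
  · obtain ⟨h, i, rfl⟩ := hsa_D h27 hu ha
    rw [conj_pow, pow_right_comm, show u ^ 3 ^ (1 + 1) = 1 from orderOf_dvd_iff_pow_eq_one.1 hu.dvd, one_pow, mul_one,
      mul_inv_cancel]

open scoped IsMulCommutative in
theorem hsa_E (h27 : ¬ 27 ∣ Nat.card H) {u : H} (hu : orderOf u = 9) (hz : ∀ x, x * u ^ 3 = u ^ 3 * x) :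
    ∃ K : Subgroup H, K.Normal ∧ u ∉ K ∧ ∀ x, x ^ 3 ∈ K := by
  have := Fact.mk Nat.prime_three
  obtain ⟨P, hP⟩ := hsa_syl (p := 3) (n := 2) h27 hu
  have k : ∀ n ∈ centralizer {u}, n ∈ centralizer (P : Set H) := fun n hn x hx => by
    obtain ⟨i, rfl⟩ := hP.le hx
    exact ((show Commute n u from mem_centralizer_singleton_iff.1 hn).zpow_right i).symm
  have hN : normalizer (P : Set H) ≤ centralizer (P : Set H) := fun n hn => by
    obtain ⟨i, hi⟩ := hsa_nz (x := n) (u := u) (hP ▸ hn)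
    have h1 : (u ^ i) ^ 3 = u ^ 3 := by rw [← hi, conj_pow, hz, mul_inv_cancel_right]
    rw [← pow_mul, pow_eq_pow_iff_modEq, hu, Nat.ModEq] at h1
    obtain ⟨a, rfl⟩ : ∃ a, i = 3 * a + 1 := ⟨i / 3, by omega⟩
    refine k n (hsa_cop _ ((Nat.Prime.coprime_iff_not_dvd Nat.prime_three).2 fun c => P.not_dvd_index
      (c.trans (relIndex_dvd_index_of_le (le_normalizer (H := (P : Subgroup H)))))) (hsa_cj hi 3 ?_) ?_)
    · rw [hu, show (3 * a + 1) ^ 3 = 9 * (3 * a ^ 3 + 3 * a ^ 2 + a) + 1 by ring]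
      exact Nat.mul_add_mod _ _ _
    · obtain ⟨j, hj⟩ := hP.le (pow_index_mem ((P : Subgroup H).subgroupOf (normalizer ((P : Subgroup H) : Set H))) ⟨n, hn⟩)
      exact mem_centralizer_singleton_iff.2 ((show u ^ j = n ^ _ from hj) ▸ (Commute.refl u).zpow_left j)
  have : IsMulCommutative P := ⟨⟨fun a b => Subtype.ext (hN (le_normalizer b.2) a a.2)⟩⟩
  refine ⟨((powMonoidHom 3 : P →* P).comp (MonoidHom.transferSylow P hN)).ker, inferInstance, fun c => ?_, fun x => ?_⟩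
  · have h1 : (MonoidHom.transferSylow P hN u) ^ 3 = 1 := c
    rw [MonoidHom.transferSylow_eq_pow P hN u (hP.ge (mem_zpowers u))] at h1
    have h2 : (u ^ (P : Subgroup H).index) ^ 3 = 1 := congrArg Subtype.val h1
    rw [← pow_mul, ← orderOf_dvd_iff_pow_eq_one, hu] at h2
    exact P.not_dvd_index (by omega)
  · change (MonoidHom.transferSylow P hN (x ^ 3)) ^ 3 = 1
    rw [map_pow, ← pow_mul, show 3 * 3 = Nat.card P by rw [hP, Nat.card_zpowers, hu], pow_card_eq_one']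

theorem hsa_card {p : ℕ} [hp : Fact p.Prime] (P : Sylow p H) {n : ℕ} (h1 : p ^ n ∣ Nat.card H)
    (h2 : ¬ p ^ (n + 1) ∣ Nat.card H) : Nat.card P = p ^ n := by
  obtain ⟨k, hk⟩ := IsPGroup.iff_card.1 P.isPGroup'
  have h3 := P.pow_dvd_card_of_pow_dvd_card h1
  rw [hk, Nat.pow_dvd_pow_iff_le_right hp.1.one_lt] at h3
  rw [hk, le_antisymm h3 (not_lt.1 fun c => h2 ((pow_dvd_pow p c).trans (hk ▸ card_subgroup_dvd_card _)))]

theorem hsa_one (h27 : ¬ 27 ∣ Nat.card H) (h625 : ¬ 625 ∣ Nat.card H) (h5 : 5 ∣ Nat.card H) (h45 : ¬ Om H 45)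
    {u : H} (hu : orderOf u = 9) (hz : ∀ x, x * u ^ 3 = u ^ 3 * x) : ¬ 125 ∣ Nat.card H ∧
      ∃ (R : Subgroup H) (v : H), Nat.card R = 25 ∧ orderOf v = 9 ∧ v ∈ normalizer (R : Set H) ∧
        ∃ j, v ^ 3 = (u ^ 3) ^ j := by
  have := Fact.mk Nat.prime_five
  obtain ⟨K, hK, h1, h2⟩ := hsa_E h27 hu hz
  obtain ⟨P⟩ : Nonempty (Sylow 5 H) := inferInstance
  obtain ⟨v, hv, ho⟩ := hsa_B h27 hu (P.normalizer_sup_eq_top' (N := K) fun x hx => by
    obtain ⟨k, hk⟩ := P.isPGroup' ⟨x, hx⟩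
    exact hsa_cop K (Nat.Coprime.pow_right k (by norm_num : Nat.Coprime 3 5)) (h2 x)
      ((show x ^ 5 ^ k = 1 from congrArg Subtype.val hk) ▸ one_mem K)) (h2 u) h1
  have h3 := hsa_fix h45 ho P.isPGroup' hv
  have h4 : ¬ 125 ∣ Nat.card H := fun c => by
    rw [hsa_card P (n := 3) c h625] at h3
    omega
  have h6 : 25 ∣ Nat.card H := by_contra fun c => by
    rw [hsa_card P (n := 1) h5 c] at h3
    omega
  obtain ⟨h, j, e⟩ := hsa_D' h27 hu (v := v ^ 3) (by rw [← pow_mul]; exact orderOf_dvd_iff_pow_eq_one.1 ho.dvd)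
  exact ⟨h4, P, v, hsa_card P (n := 2) h6 h4, ho, hv, j, by
    rw [e, (show Commute h (u ^ 3) from hz h).pow_right j, mul_inv_cancel_right]⟩

theorem hsa_two (h27 : ¬ 27 ∣ Nat.card H) (h625 : ¬ 625 ∣ Nat.card H) (h125 : 125 ∣ Nat.card H) (h45 : ¬ Om H 45)
    {R : Subgroup H} [R.Normal] (hR : Nat.card R = 25) {v w : H} (hv : orderOf v = 9) (hw : orderOf w = 3)
    (h1 : w ∈ centralizer (R : Set H)) (h2 : v ^ 3 ∈ centralizer (R : Set H))
    (h3 : ¬ 125 ∣ Nat.card (centralizer ({w} : Set H))) : False := by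
  have := Fact.mk Nat.prime_five
  have := Fact.mk Nat.prime_three
  have hp : IsPGroup 5 R := IsPGroup.of_card (n := 2) hR
  have h4 : v ∉ centralizer (R : Set H) := fun c => by
    rw [(eq_bot_iff_forall R).2 fun x hx => by
      obtain ⟨k, hk⟩ := hp ⟨x, hx⟩
      exact hsa_45 h45 hv (congrArg Subtype.val hk) (c x hx).symm, card_bot] at hR
    omega
  have h5 : ¬ 3 ^ (1 + 1) ∣ Nat.card (centralizer (R : Set H)) := fun c => h27 (by
    rw [← (centralizer (R : Set H)).card_mul_index]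
    refine mul_dvd_mul c (by_contra fun n => h4 ?_ : 3 ∣ _)
    exact hsa_cop _ ((Nat.Prime.coprime_iff_not_dvd Nat.prime_three).2 n) h2 (pow_index_mem _ v))
  obtain ⟨W, hW⟩ := hsa_syl h5 (u := ⟨w, h1⟩) ((orderOf_mk _ _).trans hw)
  have h6 := W.normalizer_sup_eq_top
  rw [hW, MonoidHom.map_zpowers] at h6
  obtain ⟨P⟩ : Nonempty (Sylow 5 H) := inferInstance
  have h7 : (P : Subgroup H) ≤ centralizer (R : Set H) := fun t ht => by_contra fun n => by
    obtain ⟨k, hk⟩ := P.isPGroup' ⟨t, ht⟩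
    obtain ⟨x, hx, h8, a, ha⟩ := hsa_J Nat.prime_five h6 (e := k)
      ((show t ^ 5 ^ k = 1 from congrArg Subtype.val hk) ▸ one_mem _) n
    obtain ⟨i, hi⟩ := hsa_nz (u := w) hx
    have h9 : ¬ 3 ∣ i := fun c => by
      rw [orderOf_dvd_iff_pow_eq_one.1 (hw ▸ c), mul_inv_eq_one, mul_eq_left] at hi
      simp [hi] at hw
    have h10 : x ∈ centralizer {w} := hsa_cop _ (Nat.Coprime.pow_right a (by norm_num : Nat.Coprime 2 5))
      (hsa_cj hi 2 (by
        rw [hw, Nat.ModEq, Nat.pow_mod]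
        rcases (by omega : i % 3 = 1 ∨ i % 3 = 2) with e | e <;> rw [e])) (ha ▸ one_mem _)
    obtain ⟨j, -, hj⟩ := (Nat.dvd_prime_pow Nat.prime_five).1 (orderOf_dvd_of_pow_eq_one ha)
    obtain ⟨n, hn⟩ := IsPGroup.iff_card.1
      (hp.to_sup_of_normal_left (IsPGroup.of_card ((Nat.card_zpowers x).trans hj)))
    have h11 := card_dvd_of_le (sup_le (fun y hy => mem_centralizer_singleton_iff.2 (h1 y hy))
      ((zpowers_le_of_mem h10)) : R ⊔ zpowers x ≤ centralizer {w})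
    refine h3 (Dvd.dvd.trans (pow_dvd_pow 5 (not_lt.1 fun c => h8 ?_) : 5 ^ 3 ∣ 5 ^ n) (hn ▸ h11))
    have h12 := eq_of_le_of_card_ge (le_sup_left : R ≤ R ⊔ zpowers x) (by
      rw [hn, hR]
      exact Nat.pow_le_pow_right (n := 5) (by norm_num) (show n ≤ 2 by omega))
    have h13 : x ∈ R := h12.ge (mem_sup_right (mem_zpowers x))
    exact fun y hy => congrArg Subtype.val
      ((IsPGroup.isMulCommutative_of_card_eq_prime_sq (p := 5) hR).is_comm.comm ⟨y, hy⟩ ⟨x, h13⟩)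
  obtain ⟨u, hu, ho⟩ := hsa_B h27 hv (P.normalizer_sup_eq_top' h7) h2 h4
  have := hsa_fix h45 ho P.isPGroup' hu
  rw [hsa_card P (n := 3) h125 h625] at this
  omega

end

/-- `|S| = |HS| = 2⁹·3²·5³·7·11`, elements of order 9 and 15, none of order 45: impossible (no simplicity needed).
`⟨g⟩` cyclic Sylow 3, `w = g³` (conjugate so that the element of order 15 centralises `w`). In `C(w)`, `N(⟨g⟩)` centralises
`⟨g⟩` (a `3'`-automorphism of `Z₉` fixing `w` is trivial), Burnside: `C(w) = O ⋊ ⟨g⟩`. `R` a `g`-invariant Sylow 5 of `O`, `R ≠ 1`;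
`g` acts with `g³` trivial and no fixed points (45), so `|R| ≡ 1 (3)`, `|R| = 25`. `C = C(R) ⊴ H = N(R)`, `w ∈ C`,
`⟨w⟩` is Sylow 3 in `C` (else an element of order 9 centralises `R`). Frattini `H = C N_H(⟨w⟩)`, and `|N(⟨w⟩)|₅ = 25` with
`R ≤ C ∩ N_H⟨w⟩` (`R` abelian), so `5 ∤ |H : C|`; `125 ∣ |H|` (normaliser grows), so `125 ∣ |C|`.
`H₁ = C⟨g⟩`: `N_C(⟨g⟩)` acts on `⟨g⟩` with `[⟨g⟩, u] ≤ C ∩ ⟨g⟩ = ⟨w⟩`, so trivially (`N/C` is a `3'`-group, inversion has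
`[g,u] = g^{-2}`); Burnside gives a normal 3-complement `M` of `H₁`. A `w`-invariant Sylow 5 `P'` of `M ≤ C` has order 125,
contains `R`; `w` is trivial on `R` and on `P'/R` (`3 ∤ 4`; or count fixed points: `125 ≡ |C_{P'}(w)| (mod 3)`
and `25 ≢ 125`), so centralises `P'`: `125 ∣ |C(w)|`, contradiction. -/
theorem hsA {S : Type*} [Group S] [Finite S] (hc : Nat.card S = 44352000)
    (h9 : Om S 9) (h15 : Om S 15) (h45 : ¬ Om S 45) : False := by
  have := Fact.mk Nat.prime_five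
  have := Fact.mk Nat.prime_three
  obtain ⟨g, hg⟩ := h9
  obtain ⟨z, hz⟩ := h15
  have k : ∀ (X : Subgroup S) n, ¬ n ∣ 44352000 → ¬ n ∣ Nat.card X := fun X n h c =>
    h (c.trans (hc ▸ card_subgroup_dvd_card X))
  have hw : orderOf (z ^ 5) = 3 := by rw [orderOf_pow_of_dvd (by norm_num) (by rw [hz]; norm_num), hz]
  obtain ⟨h, j, e⟩ := hsa_D' (by rw [hc]; norm_num) hg (orderOf_dvd_iff_pow_eq_one.1 hw.dvd)
  obtain ⟨u, hu⟩ : ∃ u, u ^ 3 = z ^ 5 := ⟨h * g ^ j * h⁻¹, by rw [e, conj_pow, pow_right_comm]⟩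
  have ho : orderOf u = 9 := orderOf_eq_prime_pow (p := 3) (n := 1)
    (fun c => by simp [← hu, show u ^ 3 = 1 from c] at hw)
    (by rw [show 3 ^ (1 + 1) = 3 * 3 from rfl, pow_mul, hu]; exact orderOf_dvd_iff_pow_eq_one.1 hw.dvd)
  have h1 : u ∈ centralizer {z ^ 5} := mem_centralizer_singleton_iff.2 (hu ▸ (Commute.refl u).pow_right 3)
  have h2 : 5 ∣ Nat.card (centralizer ({z ^ 5} : Set S)) := Om.dvd_card (Om.of_dvd
    ⟨⟨z, mem_centralizer_singleton_iff.2 ((Commute.refl z).pow_right 5)⟩, (orderOf_mk _ _).trans hz⟩ (by norm_num))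
  obtain ⟨h3, R, v, hR, hv, h4, i, hi⟩ := hsa_one (k _ _ (by norm_num)) (k _ _ (by norm_num)) h2
    (fun c => h45 (c.of_sub _)) (u := ⟨u, h1⟩) ((orderOf_mk _ _).trans ho)
    fun x => Subtype.ext (by simpa [hu] using mem_centralizer_singleton_iff.1 x.2)
  have hR' := (card_map_of_injective (K := R) (subtype_injective _)).trans hR
  have h5 : z ^ 5 ∈ centralizer (R.map (centralizer ({z ^ 5} : Set S)).subtype : Set S) := by
    rintro _ ⟨x, -, rfl⟩
    exact mem_centralizer_singleton_iff.1 x.2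
  have h6 : (v : S) ^ 3 = (z ^ 5) ^ i := (congrArg Subtype.val hi).trans (congrArg (· ^ i) hu)
  have h7 := le_normalizer_map (centralizer ({z ^ 5} : Set S)).subtype ⟨v, h4, rfl⟩
  generalize R.map (centralizer ({z ^ 5} : Set S)).subtype = T at hR' h5 h7
  refine hsa_two (H := normalizer (T : Set S)) (k _ _ (by norm_num)) (k _ _ (by norm_num))
    (Sylow.prime_pow_dvd_card_normalizer (p := 5) (n := 2) (by rw [hc]; norm_num) hR') (fun c => h45 (c.of_sub _))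
    (R := T.subgroupOf _) ((Nat.card_congr (subgroupOfEquivOfLe le_normalizer).toEquiv).trans hR')
    (v := ⟨v, h7⟩) (w := ⟨z ^ 5, centralizer_le_normalizer _ h5⟩) ((orderOf_mk _ _).trans ((orderOf_coe v).trans hv))
    ((orderOf_mk _ _).trans hw) (fun x hx => Subtype.ext (h5 x hx))
    (fun x hx => Subtype.ext ((h6 ▸ pow_mem h5 i : (v : S) ^ 3 ∈ centralizer (T : Set S)) x hx)) fun c => h3 (c.trans ?_)
  rw [← card_map_of_injective (subtype_injective _)]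
  refine card_dvd_of_le ?_
  rintro _ ⟨x, hx, rfl⟩
  exact mem_centralizer_singleton_iff.2 (congrArg Subtype.val (mem_centralizer_singleton_iff.1 hx))

end Cfsg.Agent.ISP
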