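import Cfsg.Agent.ISP.NTDefs
import Cfsg.Agent.Misc.Zsigmondy

/-!
Signed Zsigmondy (`nz_od`), the valid indices `i ∈ {n, n - 1}` (`nz_top`, `nz_sub`, `nz_p`) and an odd
prime of the spectrum that is not adjacent to `2` (`exists_nonadj'`).
-/

set_option autoImplicit false

namespace Cfsg.Agent.ISP

open Cfsg.Agent.Misc.Zsig

/-- A primitive prime divisor gives the order of `a`. -/
theorem nz_od_of_ppd {a k r : ℕ} (ha : 1 < a) (hk : 0 < k) (h : IsPPD a k r) : Od (a : ℤ) r k := by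
  obtain ⟨-, h1, h2⟩ := h
  have cast : ∀ j : ℕ, (r : ℤ) ∣ (a : ℤ) ^ j - 1 ↔ r ∣ a ^ j - 1 := fun j => by
    rw [← Int.natCast_dvd_natCast, Nat.cast_sub (Nat.one_le_pow _ _ (by omega))]
    push_cast
    rfl
  intro j
  constructor
  · intro hj
    by_contra hn
    have hpos : 0 < j % k := Nat.pos_of_ne_zero fun e => hn (Nat.dvd_of_mod_eq_zero e)
    refine h2 (j % k) hpos (Nat.mod_lt _ hk) ((cast _).1 ?_)
    have e1 : (r : ℤ) ∣ ((a : ℤ) ^ k) ^ (j / k) - 1 := by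
      have := sub_dvd_pow_sub_pow ((a : ℤ) ^ k) 1 (j / k)
      rw [one_pow] at this
      exact ((cast k).2 h1).trans this
    have e2 : (a : ℤ) ^ (j % k) - 1 =
        ((a : ℤ) ^ j - 1) - (a : ℤ) ^ (j % k) * (((a : ℤ) ^ k) ^ (j / k) - 1) := by
      conv_rhs => rw [← Nat.mod_add_div j k]
      rw [Nat.mod_add_div j k, ← pow_mul]
      have : (a : ℤ) ^ j = (a : ℤ) ^ (j % k) * (a : ℤ) ^ (k * (j / k)) := by
        rw [← pow_add, Nat.mod_add_div]
      rw [this]; ring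
    rw [e2]
    exact dvd_sub hj (e1.mul_left _)
  · rintro ⟨c, rfl⟩
    have := sub_dvd_pow_sub_pow ((a : ℤ) ^ k) 1 c
    rw [one_pow, ← pow_mul] at this
    exact ((cast k).2 h1).trans this

/-- From the order `k ≥ 3` of `Q` to the order of `-Q`. -/
theorem nz_od_neg {Q : ℤ} {r k i : ℕ} (hr : r.Prime) (h : Od Q r k) (hk : 3 ≤ k)
    (he : ∀ j, Even j → (k ∣ j ↔ i ∣ j)) (ho : ∀ j, Odd j → ((k ∣ 2 * j ∧ ¬ k ∣ j) ↔ i ∣ j)) :
    Od (-Q) r i := by
  have hp : Prime (r : ℤ) := Nat.prime_iff_prime_int.1 hr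
  have h2 : ¬ (r : ℤ) ∣ 2 := fun e => by
    have hr2 : r = 2 := (Nat.prime_dvd_prime_iff_eq hr Nat.prime_two).1 (by exact_mod_cast e)
    subst hr2
    have a := (h k).2 dvd_rfl
    have b : ((2 : ℕ) : ℤ) ∣ Q ^ 1 - 1 := by
      rcases Int.even_or_odd Q with q | q
      · exfalso
        have : Even (Q ^ k) := (Int.even_pow.2 ⟨q, by omega⟩)
        obtain ⟨c, hc⟩ := this
        obtain ⟨d, hd⟩ := a
        push_cast at hd
        omega
      · obtain ⟨c, hc⟩ := q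
        exact ⟨c, by rw [hc]; push_cast; ring⟩
    have := Nat.le_of_dvd one_pos ((h 1).1 b)
    omega
  intro j
  rcases Nat.even_or_odd j with e | e
  · rw [e.neg_pow, h j, he j e]
  · rw [e.neg_pow, ← ho j e, ← h, ← h, show -Q ^ j - 1 = -(Q ^ j + 1) by ring, dvd_neg,
      show Q ^ (2 * j) - 1 = (Q ^ j + 1) * (Q ^ j - 1) by ring]
    constructor
    · intro a
      refine ⟨a.mul_right _, fun b => h2 ?_⟩
      have := dvd_sub a b
      rwa [show Q ^ j + 1 - (Q ^ j - 1) = 2 by ring] at this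
    · rintro ⟨a, b⟩
      exact (hp.dvd_or_dvd a).resolve_right b

/-- Signed Zsigmondy. -/
theorem nz_od {Q : ℤ} {i : ℕ} (hQ : 2 ≤ Q.natAbs) (hi : 3 ≤ i) (h1 : ¬ (Q = 2 ∧ i = 6))
    (h2 : ¬ (Q = -2 ∧ i = 3)) : ∃ r : ℕ, r.Prime ∧ Od Q r i := by
  obtain ⟨a, rfl | rfl⟩ := Int.eq_nat_or_neg Q
  · simp only [Int.natAbs_natCast] at hQ
    obtain ⟨r, hr⟩ := zsigmondy (a := a) (n := i) (by omega) (by omega)
      (fun e => h1 ⟨by rw [e.1]; rfl, e.2⟩) (fun e => by omega)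
    exact ⟨r, hr.1, nz_od_of_ppd (by omega) (by omega) hr⟩
  · simp only [Int.natAbs_neg, Int.natAbs_natCast] at hQ
    have key : ∀ k, 3 ≤ k → ¬ (a = 2 ∧ k = 6) → (∀ j, Even j → (k ∣ j ↔ i ∣ j)) →
        (∀ j, Odd j → ((k ∣ 2 * j ∧ ¬ k ∣ j) ↔ i ∣ j)) → ∃ r : ℕ, r.Prime ∧ Od (-(a : ℤ)) r i :=
      fun k hk h6 he ho => by
        obtain ⟨r, hr⟩ := zsigmondy (a := a) (n := k) (by omega) (by omega) h6 (fun e => by omega)
        exact ⟨r, hr.1, nz_od_neg hr.1 (nz_od_of_ppd (by omega) (by omega) hr) hk he ho⟩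
    rcases Nat.even_or_odd i with ⟨c, hc⟩ | hodd
    · rcases Nat.even_or_odd c with ⟨d, hd⟩ | hc'
      · refine key i hi (fun e => by omega) (fun j _ => Iff.rfl) fun j hj => ?_
        obtain ⟨u, hu⟩ := hj
        constructor
        · rintro ⟨⟨v, hv⟩, -⟩
          exfalso
          have : 2 * j = 4 * (d * v) := by rw [hv, hc, hd]; ring
          omega
        · rintro ⟨v, hv⟩
          exfalso
          have : j = 4 * (d * v) := by rw [hv, hc, hd]; ring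
          omega
      · have hco : Nat.Coprime c 2 := Nat.coprime_two_right.2 hc'
        have h3 : 3 ≤ c := by obtain ⟨u, hu⟩ := hc'; omega
        refine key c h3 (fun e => by obtain ⟨u, hu⟩ := hc'; omega) (fun j hj => ?_) fun j hj => ?_
        · constructor
          · intro e
            rw [hc, ← mul_two]
            exact hco.mul_dvd_of_dvd_of_dvd e hj.two_dvd
          · exact fun e => (Dvd.intro 2 (by omega)).trans e
        · constructor
          · rintro ⟨e, e'⟩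
            exact absurd (hco.dvd_of_dvd_mul_left e) e'
          · rintro ⟨v, hv⟩
            exfalso
            obtain ⟨u, hu⟩ := hj
            have : j = 2 * (c * v) := by rw [hv, hc]; ring
            omega
    · have hco : Nat.Coprime 2 i := Nat.coprime_two_left.2 hodd
      refine key (2 * i) (by omega) (fun e => h2 ⟨by rw [e.1]; rfl, by omega⟩) (fun j hj => ?_)
        fun j hj => ?_
      · exact ⟨fun e => (Dvd.intro_left 2 rfl).trans e,
          fun e => hco.mul_dvd_of_dvd_of_dvd hj.two_dvd e⟩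
      · constructor
        · exact fun e => Nat.dvd_of_mul_dvd_mul_left two_pos e.1
        · refine fun e => ⟨Nat.mul_dvd_mul_left 2 e, fun e' => ?_⟩
          obtain ⟨u, hu⟩ := hj
          have := (Dvd.intro i rfl : 2 ∣ 2 * i).trans e'
          omega

variable {W : ℕ → Prop} {p n : ℕ} {Q : ℤ}

theorem LS.nz_two_le (hL : LS W p n Q) : 2 ≤ Q.natAbs := by
  obtain ⟨f, hf, e⟩ := hL.hQ
  rw [e]
  exact hL.pp.two_le.trans (Nat.le_self_pow hf.ne' p)

theorem LS.nz_sub_ne (hL : LS W p n Q) : Q - 1 ≠ 0 := by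
  have := hL.nz_two_le
  omega

theorem LS.nz_p_dvd (hL : LS W p n Q) : (p : ℤ) ∣ Q := by
  obtain ⟨f, hf, e⟩ := hL.hQ
  rw [Int.natCast_dvd, e]
  exact dvd_pow_self p hf.ne'

/-- A prime dividing `Q` is `p`. -/
theorem LS.nz_eq_p (hL : LS W p n Q) {t : ℕ} (ht : t.Prime) (h : (t : ℤ) ∣ Q) : t = p := by
  obtain ⟨f, -, e⟩ := hL.hQ
  rw [Int.natCast_dvd, e] at h
  exact (Nat.prime_dvd_prime_iff_eq ht hL.pp).1 (ht.dvd_of_dvd_pow h)

theorem Od.nz_not_dvd {r k : ℕ} (h : Od Q r k) (hk : 2 ≤ k) : ¬ (r : ℤ) ∣ Q - 1 := fun e => by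
  have := Nat.le_of_dvd one_pos ((h 1).1 (by rwa [pow_one]))
  omega

theorem Od.nz_not_dvd_Q {r k : ℕ} (h : Od Q r k) (hr : r.Prime) (hk : 0 < k) : ¬ (r : ℤ) ∣ Q :=
  fun e => by
    have a := dvd_sub (dvd_pow e hk.ne') ((h k).2 dvd_rfl)
    rw [sub_sub_cancel] at a
    exact hr.one_lt.ne' (Nat.dvd_one.1 (by exact_mod_cast a))

theorem LS.nz_ne_p (hL : LS W p n Q) {r k : ℕ} (h : Od Q r k) (hr : r.Prime) (hk : 0 < k) :
    r ≠ p := fun e => h.nz_not_dvd_Q hr hk (e ▸ hL.nz_p_dvd)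

theorem Od.nz_ne_two {r k : ℕ} (h : Od Q r k) (hr : r.Prime) (hk : 2 ≤ k) : r ≠ 2 := by
  rintro rfl
  have a := h.nz_not_dvd hk
  have b := h.nz_not_dvd_Q hr (by omega)
  push_cast at a b
  omega

/-- Powers of a prime of order `2 ≤ k ≤ n` dividing `Q ^ k - 1` lie in the spectrum. -/
theorem LS.nz_W (hL : LS W p n Q) {r k c : ℕ} (h : Od Q r k) (hr : r.Prime) (hk : 2 ≤ k)
    (hkn : k ≤ n) (hc : (r : ℤ) ^ c ∣ Q ^ k - 1) : W (r ^ c) :=
  hL.low _ k (by omega) hkn (by exact_mod_cast hc)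
    (Nat.Coprime.pow_left c ((Nat.Prime.coprime_iff_not_dvd hr).2 fun e =>
      h.nz_not_dvd hk (Int.natCast_dvd.2 e)))

/-- Primes of order `n - 1` or `n` are not adjacent to `p`. -/
theorem LS.nz_p (hL : LS W p n Q) {r k : ℕ} (h : Od Q r k) (hr : r.Prime) (hk : n ≤ k + 1) :
    ¬ W (r * p) := fun w => by
  have := hL.hn
  obtain ⟨d, h0, h1, h2⟩ := hL.adjp r hr (hL.nz_ne_p h hr (by omega)) (h.nz_not_dvd (by omega)) w
  have := Nat.le_of_dvd h0 ((h d).1 h2)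
  omega

theorem nz_geom (Q : ℤ) (k : ℕ) : ∃ S : ℤ, Q ^ k - 1 = S * (Q - 1) ∧ Q - 1 ∣ S - k := by
  induction k with
  | zero => exact ⟨0, by simp, by simp⟩
  | succ k ih =>
    obtain ⟨S, h1, c, h2⟩ := ih
    refine ⟨S + Q ^ k, by rw [pow_succ]; linear_combination h1, c + S, ?_⟩
    push_cast
    linear_combination h1 + h2

theorem nz_dvd_gcd {t b : ℕ} (h1 : t ^ b ∣ n) (h2 : (t : ℤ) ^ b ∣ Q - 1) :
    (t : ℤ) ^ b ∣ ((Int.gcd n (Q - 1) : ℕ) : ℤ) :=
  Int.dvd_coe_gcd (by exact_mod_cast h1) h2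

/-- `i = n` is valid for `t` if `t ^ a ∣ Q - 1`, `t ^ a ∤ n`. -/
theorem LS.nz_top (hL : LS W p n Q) {t a r m : ℕ} (ha : (t : ℤ) ^ a ∣ Q - 1) (hn : ¬ t ^ a ∣ n)
    (hr : r.Prime) (h : Od Q r n) (hm : r ∣ m) (ht : t ∣ m) : ¬ W m := fun w => by
  have d := hL.top r m hr h hm w
  obtain ⟨S, e1, e2⟩ := nz_geom Q n
  rw [e1, mul_dvd_mul_iff_right hL.nz_sub_ne] at d
  have key : ∀ b, b ≤ a → t ^ b ∣ n := fun b => by
    induction b with
    | zero => simp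
    | succ b ih =>
      intro hb
      have q1 : (t : ℤ) ^ (b + 1) ∣ Q - 1 := (pow_dvd_pow _ hb).trans ha
      have q2 : (t : ℤ) ^ (b + 1) ∣ S := by
        rw [pow_succ']
        exact (mul_dvd_mul (Int.natCast_dvd_natCast.2 ht)
          (nz_dvd_gcd (ih (by omega)) ((pow_dvd_pow _ (by omega)).trans ha))).trans d
      have q3 := dvd_sub q2 (q1.trans e2)
      rw [sub_sub_cancel] at q3
      exact_mod_cast q3
  exact hn (key a le_rfl)

/-- `i = n - 1` is valid for `t ∣ Q - 1` if `v_t (Q - 1) ≤ v_t n`. -/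
theorem LS.nz_sub (hL : LS W p n Q) {t r m : ℕ} (htp : t.Prime) (h1 : (t : ℤ) ∣ Q - 1)
    (ha : ∀ a, (t : ℤ) ^ a ∣ Q - 1 → t ^ a ∣ n) (hr : r.Prime) (h : Od Q r (n - 1)) (hm : r ∣ m)
    (ht : t ∣ m) : ¬ W m := fun w => by
  have d := hL.sub r m hr h hm w
  have hn := hL.hn
  obtain ⟨S, e1, e2⟩ := nz_geom Q (n - 1)
  have hp : Prime (t : ℤ) := Nat.prime_iff_prime_int.1 htp
  have hS : ¬ (t : ℤ) ∣ S := fun e => by
    have q3 := dvd_sub e (h1.trans e2)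
    rw [sub_sub_cancel] at q3
    have q4 : t ∣ n - 1 := by exact_mod_cast q3
    have q5 : t ∣ n := by simpa using ha 1 (by simpa using h1)
    have := Nat.dvd_sub q5 q4
    rw [show n - (n - 1) = 1 by omega] at this
    exact htp.one_lt.ne' (Nat.dvd_one.1 this)
  have key : ∀ b, (t : ℤ) ^ b ∣ Q - 1 := fun b => by
    induction b with
    | zero => simp
    | succ b ih =>
      refine hp.pow_dvd_of_dvd_mul_left _ hS ?_
      rw [← e1, pow_succ']
      exact (mul_dvd_mul (Int.natCast_dvd_natCast.2 ht) (nz_dvd_gcd (ha b ih) ih)).trans d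
  have := Nat.le_of_dvd (by omega) (ha n (key n))
  exact absurd (Nat.lt_pow_self htp.one_lt : n < t ^ n) (by omega)

/-- A valid index for the prime `2`. -/
theorem LS.nz_valid (hL : LS W p n Q) : ∃ i, (i = n ∨ i = n - 1) ∧ ¬ (Q = 2 ∧ i = 6) ∧
    ¬ (Q = -2 ∧ i = 3) ∧ ∀ r : ℕ, r.Prime → Od Q r i → ¬ W (2 * r) := by
  have hn := hL.hn
  by_cases h2 : ((2 : ℕ) : ℤ) ∣ Q
  · have e := hL.nz_eq_p Nat.prime_two h2
    subst e
    by_cases h6 : Q = 2 ∧ n = 6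
    · exact ⟨n - 1, Or.inr rfl, fun e => by omega, fun e => by omega,
        fun r hr h => mul_comm r 2 ▸ hL.nz_p h hr (by omega)⟩
    · exact ⟨n, Or.inl rfl, h6, fun e => by omega,
        fun r hr h => mul_comm r 2 ▸ hL.nz_p h hr (by omega)⟩
  · have h1 : ((2 : ℕ) : ℤ) ∣ Q - 1 := by push_cast at h2 ⊢; omega
    have q1 : Q ≠ 2 := fun e => h2 (by rw [e]; rfl)
    have q2 : Q ≠ -2 := fun e => h2 (by rw [e]; decide)
    by_cases ha : ∀ a, ((2 : ℕ) : ℤ) ^ a ∣ Q - 1 → 2 ^ a ∣ n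
    · exact ⟨n - 1, Or.inr rfl, fun e => q1 e.1, fun e => q2 e.1, fun r hr h =>
        hL.nz_sub Nat.prime_two h1 ha hr h (Dvd.intro_left 2 rfl) (Dvd.intro r rfl)⟩
    · push_neg at ha
      obtain ⟨a, a1, a2⟩ := ha
      exact ⟨n, Or.inl rfl, fun e => q1 e.1, fun e => q2 e.1, fun r hr h =>
        hL.nz_top a1 a2 hr h (Dvd.intro_left 2 rfl) (Dvd.intro r rfl)⟩

/-- An odd prime of the spectrum not adjacent to 2. -/
theorem exists_nonadj' (hL : LS W p n Q) : ∃ r : ℕ, r.Prime ∧ r ≠ 2 ∧ W r ∧ ¬ W (2 * r) := by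
  have hn := hL.hn
  obtain ⟨i, hi, h1, h2, h3⟩ := hL.nz_valid
  obtain ⟨r, hr, h⟩ := nz_od hL.nz_two_le (by omega : 3 ≤ i) h1 h2
  refine ⟨r, hr, h.nz_ne_two hr (by omega), ?_, h3 r hr h⟩
  have := hL.nz_W (c := 1) h hr (by omega) (by omega) (by rw [pow_one]; exact (h i).2 dvd_rfl)
  rwa [pow_one] at this

end Cfsg.Agent.ISP
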