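import Cfsg.Agent.ISP.NTDefs
import Cfsg.Agent.ISP.NumZ

/-! # A Boolean checker `kill n Q m` with `LS W p n Q → NT W m → kill n Q m = true → False`. -/

set_option autoImplicit false

namespace Cfsg.Agent.ISP

def kdv (a x : ℤ) : Bool := x % a == 0

theorem kdv_iff {a x : ℤ} : kdv a x = true ↔ a ∣ x := by
  rw [kdv, beq_iff_eq, Int.dvd_iff_emod_eq_zero]

theorem kdv_false {a x : ℤ} : kdv a x = false ↔ ¬ a ∣ x := by
  rw [← kdv_iff]; simp

def kT : List ℕ := [2, 3, 5, 7, 11, 13, 17, 19, 23, 29, 31, 37, 41, 43, 47, 59, 61, 67, 71]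
def kP : List ℕ := kT ++ [191, 307, 13421]

theorem kP_prime {s : ℕ} (h : s ∈ kP) : s.Prime := by
  simp only [kP, kT, List.cons_append, List.nil_append, List.mem_cons, List.not_mem_nil,
    or_false] at h
  rcases h with h | h | h | h | h | h | h | h | h | h | h | h | h | h | h | h | h | h | h | h | h |
    h <;> subst h <;> norm_num

theorem kT_prime {s : ℕ} (h : s ∈ kT) : s.Prime := kP_prime (List.mem_append_left _ h)

theorem k_od {Q : ℤ} {r k : ℕ} (hk : 0 < k) (h1 : (r : ℤ) ∣ Q ^ k - 1)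
    (h2 : ∀ j, 0 < j → j < k → ¬ (r : ℤ) ∣ Q ^ j - 1) : Od Q r k := fun j => by
  have key : ∀ a : ℕ, (r : ℤ) ∣ Q ^ (k * a) - 1 := fun a => by
    rw [pow_mul]; exact h1.trans (by simpa using sub_dvd_pow_sub_pow (Q ^ k) 1 a)
  refine ⟨fun h => ?_, fun ⟨a, ha⟩ => ha ▸ key a⟩
  by_contra hn
  refine h2 (j % k) (Nat.pos_of_ne_zero fun e => hn (Nat.dvd_of_mod_eq_zero e)) (Nat.mod_lt _ hk) ?_
  have e : Q ^ (j % k) - 1 = (Q ^ j - 1) - Q ^ (j % k) * (Q ^ (k * (j / k)) - 1) := by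
    rw [mul_sub, ← pow_add, Nat.mod_add_div]; ring
  rw [e]
  exact dvd_sub h ((key _).mul_left _)

def kord (Q : ℤ) (r k : ℕ) : Bool :=
  decide (0 < k) && kdv r (Q ^ k - 1) && (List.range' 1 (k - 1)).all fun j => !kdv r (Q ^ j - 1)

theorem kord_sound {Q : ℤ} {r k : ℕ} (h : kord Q r k = true) : Od Q r k := by
  simp only [kord, Bool.and_eq_true, decide_eq_true_eq, kdv_iff, List.all_eq_true, List.mem_range'_1,
    Bool.not_eq_true', kdv_false] at h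
  exact k_od h.1.1 h.1.2 fun j h0 h1 => h.2 j ⟨h0, by omega⟩

def kF (Q : ℤ) (n r : ℕ) : ℕ := ((List.range' 1 n).find? fun j => kdv r (Q ^ j - 1)).getD 0

def kna1 (n : ℕ) (Q : ℤ) (s t : ℕ) : Bool :=
  (kdv t Q && !kdv s Q && !kdv s (Q - 1) && (List.range' 1 (n - 2)).all fun d => !kdv s (Q ^ d - 1)) ||
  (kord Q s n && !kdv (((s * t : ℕ) : ℤ) * (Int.gcd n (Q - 1) : ℕ) * (Q - 1)) (Q ^ n - 1)) ||
  (kord Q s (n - 1) && !kdv (((s * t : ℕ) : ℤ) * (Int.gcd n (Q - 1) : ℕ)) (Q ^ (n - 1) - 1)) ||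
  (!kdv s Q && !kdv t Q && s != t && kord Q s (kF Q n s) && kord Q t (kF Q n t) &&
    decide (2 ≤ kF Q n s) && decide (kF Q n s ≤ kF Q n t) && decide (kF Q n t ≤ n) &&
    decide (n < kF Q n s + kF Q n t) && kF Q n t % kF Q n s != 0)

def kna (n : ℕ) (Q : ℤ) (s t : ℕ) : Bool := kna1 n Q s t || kna1 n Q t s

variable {W : ℕ → Prop} {p n m : ℕ} {Q : ℤ}

theorem LS.k_ne (hL : LS W p n Q) {s : ℕ} (h : ¬ (s : ℤ) ∣ Q) : s ≠ p := fun e => h (e ▸ hL.nz_p_dvd)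

theorem kna1_sound (hL : LS W p n Q) {s t : ℕ} (hs : s.Prime) (ht : t.Prime)
    (h : kna1 n Q s t = true) : ¬ W (s * t) := fun w => by
  simp only [kna1, Bool.or_eq_true, Bool.and_eq_true, kdv_iff, Bool.not_eq_true', kdv_false,
    List.all_eq_true, List.mem_range'_1, decide_eq_true_eq, bne_iff_ne, ne_eq] at h
  rcases h with ((⟨⟨⟨h1, h2⟩, h3⟩, h4⟩ | ⟨h1, h2⟩) | ⟨h1, h2⟩) |
    ⟨⟨⟨⟨⟨⟨⟨⟨⟨h1, h2⟩, h3⟩, h4⟩, h5⟩, h6⟩, h7⟩, h8⟩, h9⟩, h10⟩
  · obtain rfl := hL.nz_eq_p ht h1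
    obtain ⟨d, d0, d1, d2⟩ := hL.adjp s hs (hL.k_ne h2) h3 w
    exact h4 d ⟨d0, by omega⟩ d2
  · exact h2 (hL.top s _ hs (kord_sound h1) (dvd_mul_right _ _) w)
  · exact h2 (hL.sub s _ hs (kord_sound h1) (dvd_mul_right _ _) w)
  · rcases (hL.adj s t _ _ hs ht (hL.k_ne h1) (hL.k_ne h2) h3 (kord_sound h4) (kord_sound h5) h6 h7
      h8).1 w with e | e
    · omega
    · exact h10 (Nat.mod_eq_zero_of_dvd e)

theorem kna_sound (hL : LS W p n Q) {s t : ℕ} (hs : s.Prime) (ht : t.Prime)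
    (h : kna n Q s t = true) : ¬ W (s * t) := by
  rcases Bool.or_eq_true _ _ ▸ h with h | h
  · exact kna1_sound hL hs ht h
  · rw [mul_comm]; exact kna1_sound hL ht hs h

def kin (n : ℕ) (Q : ℤ) (s : ℕ) : Bool :=
  kdv s Q || (!kdv s (Q - 1) && (List.range' 1 n).any fun i => kdv s (Q ^ i - 1))

theorem kin_sound (hL : LS W p n Q) {s : ℕ} (hs : s.Prime) (h : kin n Q s = true) : W s := by
  simp only [kin, Bool.or_eq_true, Bool.and_eq_true, kdv_iff, Bool.not_eq_true', kdv_false,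
    List.any_eq_true, List.mem_range'_1] at h
  rcases h with h | ⟨h1, i, ⟨i0, i1⟩, h2⟩
  · exact hL.nz_eq_p hs h ▸ hL.lowp
  · exact hL.low s i i0 (by omega) h2
      ((Nat.Prime.coprime_iff_not_dvd hs).2 fun e => h1 (Int.natCast_dvd.2 e))

def kout (n : ℕ) (Q : ℤ) (t b : ℕ) : Bool :=
  (!kdv t Q && (List.range' 1 n).all fun j => !kdv ((t : ℤ) ^ b) (Q ^ j - 1)) ||
  (kdv t Q && decide (0 < b) && decide (n ≤ t ^ (b - 1)))

theorem kout_sound (hL : LS W p n Q) {t b : ℕ} (ht : t.Prime) (h : kout n Q t b = true) :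
    ¬ W (t ^ b) := fun w => by
  simp only [kout, Bool.or_eq_true, Bool.and_eq_true, kdv_iff, Bool.not_eq_true', kdv_false,
    List.all_eq_true, List.mem_range'_1, decide_eq_true_eq] at h
  rcases h with ⟨h1, h2⟩ | ⟨⟨h1, h2⟩, h3⟩
  · obtain ⟨j, j0, j1, j2⟩ := hL.pow t b ht (hL.k_ne h1) w
    exact h2 j ⟨j0, by omega⟩ j2
  · obtain rfl := hL.nz_eq_p ht h1
    obtain ⟨c, rfl⟩ : ∃ c, b = c + 1 := ⟨b - 1, by omega⟩
    have := hL.powp c w
    simp only [Nat.add_sub_cancel] at h3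
    omega

/-- Valuation with fuel. -/
def kvl (t : ℕ) : ℕ → ℕ → ℕ
  | 0, _ => 0
  | f + 1, m => if m % t = 0 then kvl t f (m / t) + 1 else 0

def kv (t m : ℕ) : ℕ := kvl t 60 m

def kex (t m : ℕ) : Bool :=
  decide (0 < kv t m) && m % t ^ kv t m == 0 && m % t ^ (kv t m + 1) != 0

theorem kex_sound {t : ℕ} (h : kex t m = true) : Ex t (kv t m) m := by
  simp only [kex, Bool.and_eq_true, decide_eq_true_eq, beq_iff_eq, bne_iff_ne, ne_eq] at h
  exact ⟨h.1.1, Nat.dvd_of_mod_eq_zero h.1.2, fun e => h.2 (Nat.mod_eq_zero_of_dvd e)⟩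

/-- Remove from `N` the primes dividing `M` (fuel). -/
def kstrip (M : ℕ) : ℕ → ℕ → ℕ
  | 0, N => N
  | f + 1, N => if Nat.gcd N M = 1 then N else kstrip M f (N / Nat.gcd N M)

def kprim (Q : ℤ) (i : ℕ) : ℕ :=
  (List.range' 1 (i - 1)).foldl (fun N j => kstrip (Q ^ j - 1).natAbs 60 N) (Q ^ i - 1).natAbs

def kval (n : ℕ) (Q : ℤ) (i : ℕ) : Bool :=
  kdv 2 Q || (i == n && !kdv (2 * (Int.gcd n (Q - 1) : ℕ) * (Q - 1)) (Q ^ n - 1)) ||
  (i == n - 1 && !kdv (2 * (Int.gcd n (Q - 1) : ℕ)) (Q ^ (n - 1) - 1))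

def kB' (Q : ℤ) (m i N N' : ℕ) : Bool :=
  kdv N (Q ^ i - 1) && ((List.range' 1 (i - 1)).all fun j => Nat.gcd N (Q ^ j - 1).natAbs == 1) &&
  ((kex 2 m && (m * (2 ^ kv 2 m - 1)) % N != 0) ||
    (decide (1 < N') && N % N' == 0 && Nat.gcd N' m == 1))

def kB (n : ℕ) (Q : ℤ) (m i : ℕ) : Bool :=
  kval n Q i && kB' Q m i (kprim Q i) (kstrip m 60 (kprim Q i))

theorem kval_sound (hL : LS W p n Q) {i r : ℕ} (hi : i = n ∨ i = n - 1) (h : kval n Q i = true)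
    (hr : r.Prime) (ho : Od Q r i) : ¬ W (2 * r) := fun w => by
  simp only [kval, Bool.or_eq_true, Bool.and_eq_true, kdv_iff, Bool.not_eq_true', kdv_false,
    beq_iff_eq] at h
  rcases h with (h | ⟨rfl, h⟩) | ⟨rfl, h⟩
  · obtain rfl := hL.nz_eq_p Nat.prime_two (by exact_mod_cast h)
    exact hL.nz_p ho hr (by omega) (mul_comm 2 r ▸ w)
  · refine h (Dvd.dvd.trans ?_ (hL.top r _ hr ho (dvd_mul_left _ _) w))
    exact mul_dvd_mul_right (mul_dvd_mul_right (by push_cast; exact dvd_mul_right _ _) _) _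
  · refine h (Dvd.dvd.trans ?_ (hL.sub r _ hr ho (dvd_mul_left _ _) w))
    exact mul_dvd_mul_right (by push_cast; exact dvd_mul_right _ _) _

theorem kB'_sound (hL : LS W p n Q) (hN : NT W m) {i N N' : ℕ} (hi : i = n ∨ i = n - 1)
    (hv : ∀ r : ℕ, r.Prime → Od Q r i → ¬ W (2 * r)) (h : kB' Q m i N N' = true) : False := by
  have hn := hL.hn
  simp only [kB', Bool.or_eq_true, Bool.and_eq_true, kdv_iff, List.all_eq_true, List.mem_range'_1,
    beq_iff_eq, bne_iff_ne, ne_eq, decide_eq_true_eq] at h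
  obtain ⟨⟨h1, h2⟩, h3⟩ := h
  have od : ∀ r : ℕ, r.Prime → r ∣ N → Od Q r i := fun r hr hd =>
    k_od (by omega) ((Int.natCast_dvd_natCast.2 hd).trans h1) fun j j0 j1 e => by
      have := Nat.dvd_gcd hd (Int.natCast_dvd.1 e)
      rw [h2 j ⟨j0, by omega⟩] at this
      exact hr.one_lt.ne' (Nat.dvd_one.1 this)
  have ww : ∀ r c : ℕ, r.Prime → r ∣ N → r ^ c ∣ N → W (r ^ c) := fun r c hr hd hc =>
    hL.nz_W (od r hr hd) hr (by omega) (by omega)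
      (by exact_mod_cast (Int.natCast_dvd_natCast.2 hc).trans h1)
  rcases h3 with ⟨h3, h4⟩ | ⟨⟨h3, h4⟩, h5⟩
  · refine h4 (Nat.mod_eq_zero_of_dvd ((Nat.dvd_iff_prime_pow_dvd_dvd _ _).2 fun r c hr hc => ?_))
    rcases Nat.eq_zero_or_pos c with rfl | c0
    · simp
    · have hd : r ∣ N := (dvd_pow_self r c0.ne').trans hc
      exact hN.toolB' r c _ hr ((od r hr hd).nz_ne_two hr (by omega)) (ww r c hr hd hc)
        (hv r hr (od r hr hd)) (kex_sound h3)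
  · have hr := Nat.minFac_prime h3.ne'
    have hd : N'.minFac ∣ N := (Nat.minFac_dvd N').trans (Nat.dvd_of_mod_eq_zero h4)
    have := hN.toolB _ hr ((od _ hr hd).nz_ne_two hr (by omega))
      (by simpa using ww _ 1 hr hd (by simpa using hd)) (hv _ hr (od _ hr hd))
    have h6 := Nat.dvd_gcd (Nat.minFac_dvd N') this
    rw [h5] at h6
    exact hr.one_lt.ne' (Nat.dvd_one.1 h6)

theorem kB_sound (hL : LS W p n Q) (hN : NT W m) {i : ℕ} (hi : i = n ∨ i = n - 1)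
    (h : kB n Q m i = true) : False := by
  simp only [kB, Bool.and_eq_true] at h
  exact kB'_sound hL hN hi (fun r hr ho => kval_sound hL hi h.1 hr ho) h.2

def kA (n : ℕ) (Q : ℤ) (m : ℕ) : Bool := kT.any fun t => m % t == 0 && kout n Q t 1

theorem kA_sound (hL : LS W p n Q) (hN : NT W m) (h : kA n Q m = true) : False := by
  simp only [kA, List.any_eq_true, Bool.and_eq_true, beq_iff_eq] at h
  obtain ⟨t, ht, h1, h2⟩ := h
  exact kout_sound hL (kT_prime ht) h2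
    (by simpa using hN.toolA t (kT_prime ht) (Nat.dvd_of_mod_eq_zero h1))

def kC (n : ℕ) (Q : ℤ) (m : ℕ) : Bool := kP.any fun s => kin n Q s && m % s != 0 &&
  kT.any fun t => t != 2 && kex t m && kna n Q s t && kout n Q t (kv t m) && (t ^ kv t m - 1) % s != 0

theorem kC_sound (hL : LS W p n Q) (hN : NT W m) (h : kC n Q m = true) : False := by
  simp only [kC, List.any_eq_true, Bool.and_eq_true, bne_iff_ne, ne_eq] at h
  obtain ⟨s, hs, ⟨h1, h2⟩, t, ht, ⟨⟨⟨h3, h4⟩, h5⟩, h6⟩, h7⟩ := h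
  have ps := kP_prime hs
  have pt := kT_prime ht
  rcases hN.toolC s t _ ps pt h3 (kin_sound hL ps h1) (fun e => h2 (Nat.mod_eq_zero_of_dvd e))
    (kex_sound h4) (kna_sound hL ps pt h5) with e | e
  · exact kout_sound hL pt h6 e
  · exact h7 (Nat.mod_eq_zero_of_dvd e)

def kfo (n : ℕ) (Q : ℤ) (m s : ℕ) : Bool := kin n Q s && m % s != 0 &&
  kT.any fun l => kex l m && kna n Q s l && (l ^ kv l m - 1) % s != 0

def kG (n : ℕ) (Q : ℤ) (m : ℕ) : Bool := kP.any fun s₁ => kfo n Q m s₁ &&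
  kP.any fun s₂ => s₁ != s₂ && kfo n Q m s₂ && kna n Q s₁ s₂ &&
    kP.any fun t => s₁ != t && s₂ != t && kin n Q t && kna n Q s₁ t && kna n Q s₂ t

theorem kG_sound (hL : LS W p n Q) (hN : NT W m) (h : kG n Q m = true) : False := by
  simp only [kG, kfo, List.any_eq_true, Bool.and_eq_true, bne_iff_ne, ne_eq] at h
  obtain ⟨s₁, hs₁, ⟨⟨a1, a2⟩, l₁, hl₁, ⟨a3, a4⟩, a5⟩, s₂, hs₂,
    ⟨⟨b0, ⟨b1, b2⟩, l₂, hl₂, ⟨b3, b4⟩, b5⟩, b6⟩, t, ht, ⟨⟨⟨c1, c2⟩, c3⟩, c4⟩, c5⟩ := h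
  have p1 := kP_prime hs₁
  have p2 := kP_prime hs₂
  have pt := kP_prime ht
  have q1 := kT_prime hl₁
  have q2 := kT_prime hl₂
  exact hN.toolG s₁ s₂ t l₁ _ l₂ _ p1 p2 pt q1 q2 b0 c1 c2 (kin_sound hL p1 a1) (kin_sound hL p2 b1)
    (kin_sound hL pt c3) (fun e => a2 (Nat.mod_eq_zero_of_dvd e))
    (fun e => b2 (Nat.mod_eq_zero_of_dvd e)) (kna_sound hL p1 p2 b6) (kna_sound hL p1 pt c4)
    (kna_sound hL p2 pt c5) (kex_sound a3) (kex_sound b3) (kna_sound hL p1 q1 a4)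
    (kna_sound hL p2 q2 b4) (fun e => a5 (Nat.mod_eq_zero_of_dvd e))
    (fun e => b5 (Nat.mod_eq_zero_of_dvd e))

instance (n : ℕ) (Q : ℤ) (m : ℕ) : Decidable (Fin8 n Q m) := by unfold Fin8; infer_instance

/-- The complete check of one triple. -/
def kill (n : ℕ) (Q : ℤ) (m : ℕ) : Bool :=
  kA n Q m || kB n Q m n || kB n Q m (n - 1) || decide (Fin8 n Q m) || decide (n = 5 ∧ Q = -2) ||
    kC n Q m || kG n Q m

theorem kill_sound (hL : LS W p n Q) (hN : NT W m) (h : kill n Q m = true) : Fin8 n Q m := by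
  simp only [kill, Bool.or_eq_true, decide_eq_true_eq] at h
  rcases h with (((((h | h) | h) | h) | h) | h) | h
  · exact (kA_sound hL hN h).elim
  · exact (kB_sound hL hN (Or.inl rfl) h).elim
  · exact (kB_sound hL hN (Or.inr rfl) h).elim
  · exact h
  · exact absurd h hL.ne
  · exact (kC_sound hL hN h).elim
  · exact (kG_sound hL hN h).elim

end Cfsg.Agent.ISP
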