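import Mathlib
import Cfsg.Agent.Class.Spec.Adj
import Cfsg.Agent.ISP.Defs

/-!
Spectrum facts `LS` for linear and unitary groups (Jordan-data models).
-/

set_option autoImplicit false
set_option linter.unusedSectionVars false

namespace Cfsg.Agent.ISP

open Cfsg.Agent.Class.Spec

variable {M : Type*} [CommGroup M] {p r t n : ℕ} {Q : ℤ}

theorem lside_pow_lcm (ht : t.Prime) {c : ℕ} (hc : 0 < c) (f : ℕ → ℕ) (s : Finset ℕ)
    (hf : ∀ i ∈ s, f i ≠ 0) (h : t ^ c ∣ s.lcm f) : ∃ i ∈ s, t ^ c ∣ f i := by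
  induction s using Finset.induction_on with
  | empty =>
    simp only [Finset.lcm_empty, Nat.dvd_one] at h
    exact absurd (Nat.pow_eq_one.1 h) (by have := ht.one_lt; omega)
  | insert a s ha ih =>
    rw [Finset.lcm_insert] at h
    have h0 : s.lcm f ≠ 0 := fun e => by
      obtain ⟨i, hi, e⟩ := Finset.lcm_eq_zero_iff.1 e
      exact hf i (Finset.mem_insert_of_mem hi) e
    have h1 := hf a (Finset.mem_insert_self _ _)
    change t ^ c ∣ Nat.lcm (f a) (s.lcm f) at h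
    rw [ht.pow_dvd_iff_le_factorization (Nat.lcm_ne_zero h1 h0), Nat.factorization_lcm h1 h0,
      Finsupp.sup_apply, le_sup_iff] at h
    rcases h with h | h
    · exact ⟨a, Finset.mem_insert_self _ _, (ht.pow_dvd_iff_le_factorization h1).2 h⟩
    · obtain ⟨i, hi, e⟩ := ih (fun i hi => hf i (Finset.mem_insert_of_mem hi))
        ((ht.pow_dvd_iff_le_factorization h0).2 h)
      exact ⟨i, Finset.mem_insert_of_mem hi, e⟩

/-- `lcm_{1 ≤ d ≤ n} |Q ^ d - 1|`. -/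
def lsideL (Q : ℤ) (n : ℕ) : ℕ := (Finset.Icc 1 n).lcm fun d => (Q ^ d - 1).natAbs

theorem lside_of_pow_dvd (hQ : IsQ M p Q) (ht : t.Prime) {c : ℕ} (hc : 0 < c)
    (h : t ^ c ∣ lsideL Q n) : ∃ d, 0 < d ∧ d ≤ n ∧ (t : ℤ) ^ c ∣ Q ^ d - 1 := by
  obtain ⟨d, h2, h3⟩ := lside_pow_lcm ht hc (fun d => (Q ^ d - 1).natAbs) _
    (fun i hi e => hQ.not_dvd (Finset.mem_Icc.1 hi).1
      (by rw [Int.natAbs_eq_zero.1 e]; exact dvd_zero _)) h
  exact ⟨d, (Finset.mem_Icc.1 h2).1, (Finset.mem_Icc.1 h2).2,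
    by exact_mod_cast Int.natCast_dvd.2 h3⟩

theorem lside_cop (hQ : IsQ M p Q) : p.Coprime (lsideL Q n) := by
  rw [hQ.prime.coprime_iff_not_dvd]
  intro e
  obtain ⟨d, h1, -, h3⟩ := lside_of_pow_dvd (n := n) hQ hQ.prime one_pos (by simpa using e)
  exact hQ.not_dvd h1 (by simpa using h3)

theorem lside_PK (hQ : IsQ M p Q) {J : Multiset (M × ℕ)} (hJ : Valid Q n J) {B : ℕ}
    (hB : ∀ x ∈ J, x.2 ≤ B) : PK p J (p ^ Nat.clog p B * lsideL Q n) := by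
  refine ⟨1, fun ⟨α, a⟩ hx => ⟨?_, (pow_clog_dvd dvd_rfl (hB _ hx)).mul_right _⟩⟩
  obtain ⟨d, J', e1, e2, -, -, e3, -⟩ := hQ.exists_blk hJ hx
  have e4 : d ≤ d * a := Nat.le_mul_of_pos_right d (hJ.pos _ hx)
  rw [← zpow_natCast]
  refine zpow_eq_one_of_dvd (zpow_eq_self_iff.1 ((e2 d).2 dvd_rfl)) ?_
  rw [← Int.natAbs_dvd_natAbs, Int.natAbs_natCast]
  exact (Finset.dvd_lcm (f := fun d => (Q ^ d - 1).natAbs)
    (Finset.mem_Icc.2 ⟨e1, by omega⟩)).mul_left _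

/-- A big Jordan block. -/
theorem lside_big (hQ : IsQ M p Q) {J : Multiset (M × ℕ)} (hJ : Valid Q n J) {m c : ℕ}
    (h : ∀ N, PK p J N ↔ m ∣ N) (hm : p ^ (c + 1) ∣ m) : ∃ β b, (β, b) ∈ J ∧ p ^ c < b := by
  by_contra! H
  have h1 := hm.trans ((h _).1 (lside_PK hQ hJ (B := p ^ c) fun x hx => H x.1 x.2 hx))
  rw [Nat.clog_pow _ _ hQ.prime.one_lt, pow_succ] at h1
  exact (hQ.prime.coprime_iff_not_dvd.1 (lside_cop hQ))
    (Nat.dvd_of_mul_dvd_mul_left (pow_pos hQ.prime.pos c) h1)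

theorem lside_ne (hQ : IsQ M p Q) {j : ℕ} (hj : 0 < j) (h : Od Q r j) : r ≠ p := by
  rintro rfl
  exact hQ.not_dvd hj ((h j).2 dvd_rfl)

theorem lside_nd {j : ℕ} (hj : 2 ≤ j) (h : Od Q r j) : ¬ (r : ℤ) ∣ Q - 1 := by
  simpa using (h 1).not.2 (by simp; omega)

/-- Data of size one. -/
theorem lside_one (hQ : IsQ M p Q) {J : Multiset (M × ℕ)} (hJ : Valid Q 1 J) :
    ∃ β, β ^ Q = β ∧ J = {(β, 1)} := by
  obtain ⟨β, c, hy⟩ := hJ.exists_mem one_pos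
  obtain ⟨e, J'', f1, f2, -, rfl, f3, f4⟩ := hQ.exists_blk hJ hy
  have hc := hJ.pos _ hy
  obtain rfl : e = 1 := by nlinarith
  obtain rfl : c = 1 := by omega
  obtain rfl := f4.eq_zero
  exact ⟨β, by simpa using (f2 1).2 dvd_rfl, by rw [add_zero, blk_one]⟩

/-- The block detected by a prime of large order. -/
theorem lside_blk (hQ : IsQ M p Q) {J : Multiset (M × ℕ)} (hJ : Valid Q n J) {m j : ℕ}
    (h : ∀ N, PK p J N ↔ m ∣ N) (hm : m ≠ 0) (hr : r.Prime) (hk : Od Q r j) (hj : 2 ≤ j)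
    (hn : n < 2 * j) (hrm : r ∣ m) : ∃ α J', α ^ Q ^ j = α ∧ J = blk Q j α 1 + J' ∧ j ≤ n ∧
      Valid Q (n - j) J' := by
  obtain ⟨s, rfl⟩ := hrm
  obtain ⟨α, b, d, J', e1, e2, e3, e4, rfl, e5, e6⟩ := hQ.exists_blk_prime hJ h hr
    (right_ne_zero_of_mul hm) (lside_ne hQ (by omega) hk) (lside_nd hj hk)
  obtain ⟨u, rfl⟩ := (hk d).1 e4
  have e8 : j * u ≤ j * u * b := Nat.le_mul_of_pos_right _ e1
  obtain rfl : u = 1 := by
    rcases u with _ | _ | u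
    · omega
    · rfl
    · nlinarith
  rw [mul_one] at *
  obtain rfl : b = 1 := by nlinarith
  rw [mul_one] at e5 e6
  exact ⟨α, J', e3, rfl, e5, e6⟩

theorem lside_pow_natAbs {α : M} {k : ℤ} (h : α ^ k = 1) : α ^ k.natAbs = 1 := by
  rw [← zpow_natCast]
  exact zpow_eq_one_of_dvd h (Int.dvd_natAbs.2 dvd_rfl)

variable {G : Type*} [Group G] [Finite G]
  (hG : Models G p fun J : Multiset (M × ℕ) => Valid Q n J ∧ jdet J = 1) (hQ : IsQ M p Q)
include hG hQ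

omit hG hQ in
theorem lside_ne_zero {m : ℕ} (h : Om G m) : m ≠ 0 := by
  obtain ⟨g, rfl⟩ := h
  exact (orderOf_pos g).ne'

theorem lside_top (hn : 2 ≤ n) {m : ℕ} (hr : r.Prime) (hk : Od Q r n) (hrm : r ∣ m) (h : Om G m) :
    (m : ℤ) * (Int.gcd n (Q - 1) : ℕ) * (Q - 1) ∣ Q ^ n - 1 := by
  obtain ⟨J, ⟨hJ, hd⟩, h3⟩ := (hG.mem_range_iff _).1 h
  obtain ⟨α, J', e3, rfl, -, e6⟩ := lside_blk hQ hJ h3 (lside_ne_zero h) hr hk hn (by omega) hrm
  obtain rfl := (e6.cast (by omega)).eq_zero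
  rw [add_zero] at h3 hd
  rw [jdet_blk, pow_one] at hd
  have g1 : ((Int.gcd n (Q - 1) : ℕ) : ℤ) ∣ Q - 1 := Int.gcd_dvd_right _ _
  obtain ⟨w, hw⟩ : ((Int.gcd n (Q - 1) : ℕ) : ℤ) ∣ gs Q n := by
    have := dvd_add (g1.trans (sub_one_dvd_gs_sub Q n)) (Int.gcd_dvd_left (n : ℤ) (Q - 1))
    simpa using this
  have g6 := (h3 w.natAbs).1 ((PK_blk_iff (by omega) e3).2 ⟨zpow_eq_one_of_dvd hd (by
    rw [hw]
    exact mul_dvd_mul g1 (Int.dvd_natAbs.2 dvd_rfl)), by simp⟩)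
  rw [← gs_mul, hw, mul_comm _ w]
  exact mul_dvd_mul_right (mul_dvd_mul_right (Int.natCast_dvd.2 g6) _) _

theorem lside_sub (hn : 3 ≤ n) {m : ℕ} (hr : r.Prime) (hk : Od Q r (n - 1)) (hrm : r ∣ m)
    (h : Om G m) : (m : ℤ) * (Int.gcd n (Q - 1) : ℕ) ∣ Q ^ (n - 1) - 1 := by
  obtain ⟨J, ⟨hJ, hd⟩, h3⟩ := (hG.mem_range_iff _).1 h
  obtain ⟨α, J', e3, rfl, -, e6⟩ := lside_blk hQ hJ h3 (lside_ne_zero h) hr hk (by omega)
    (by omega) hrm
  obtain ⟨k, rfl⟩ : ∃ k, n = k + 1 := ⟨n - 1, by omega⟩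
  rw [Nat.add_sub_cancel] at *
  obtain ⟨β, hβ, rfl⟩ := lside_one hQ (e6.cast (by omega))
  rw [jdet_add, jdet_blk, jdet_single, pow_one, pow_one] at hd
  obtain ⟨w, hw⟩ : ((Int.gcd ((k + 1 : ℕ) : ℤ) (Q - 1) : ℕ) : ℤ) ∣ Q - 1 := Int.gcd_dvd_right _ _
  obtain ⟨z, hz⟩ := Int.gcd_dvd_left ((k + 1 : ℕ) : ℤ) (Q - 1)
  have g3 : β ^ (((k + 1 : ℕ) : ℤ) * w) = 1 := by
    refine zpow_eq_one_of_dvd (zpow_eq_self_iff.1 hβ) ⟨z, ?_⟩
    generalize ((Int.gcd ((k + 1 : ℕ) : ℤ) (Q - 1) : ℕ) : ℤ) = g at hw hz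
    rw [hw, hz]; ring
  have g4 : (α / β) ^ (gs Q k * w) = 1 := by
    rw [zpow_mul, div_zpow, zpow_gs_of_fixed hβ, eq_inv_of_mul_eq_one_left hd, ← inv_inj, inv_one,
      ← inv_zpow, inv_div, div_inv_eq_mul, ← pow_succ, ← zpow_natCast, ← zpow_mul, g3]
  have g5 : α ^ (gs Q k * w).natAbs = β ^ (gs Q k * w).natAbs := by
    rw [← div_eq_one, ← div_pow]
    exact lside_pow_natAbs g4
  have g6 := (h3 (gs Q k * w).natAbs).1 ⟨β ^ (gs Q k * w).natAbs, KB_add.2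
    ⟨(KB_blk_iff (by omega) e3).2 ⟨g5, by
      rw [← zpow_natCast, ← zpow_mul, mul_comm, zpow_mul, hβ, zpow_natCast], by simp⟩,
      KB_single.2 ⟨rfl, by simp⟩⟩⟩
  rw [← gs_mul]
  generalize ((Int.gcd ((k + 1 : ℕ) : ℤ) (Q - 1) : ℕ) : ℤ) = g at hw
  rw [hw, mul_comm g w, ← mul_assoc]
  exact mul_dvd_mul_right (Int.natCast_dvd.2 g6) _

/-- The exponent bound. -/
theorem lside_exp {m : ℕ} (h : Om G m) : m ∣ p ^ Nat.clog p n * lsideL Q n := by
  obtain ⟨J, ⟨hJ, -⟩, h1⟩ := (hG.mem_range_iff _).1 h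
  exact (h1 _).1 (lside_PK hQ hJ fun x hx => hJ.le hx)

/-- Torus elements. -/
theorem lside_tor {m d : ℕ} (hd : 0 < d) (hdn : d ≤ n) (h : (m : ℤ) ∣ Q ^ d - 1)
    (hc : IsCoprime (m : ℤ) (Q - 1)) : Om G m := by
  obtain ⟨J, h1, h3, h4, -⟩ := hQ.exists_tor hd (m := m)
    (hc.dvd_of_dvd_mul_right (gs_mul Q d ▸ h))
  exact hG.mem_of_dvd (J := J + idb M (n - d))
    ⟨(h1.add (valid_idb _)).cast (by omega), by simp [jdet_add, jdet_idb, h3]⟩
    fun N hN => Int.natCast_dvd_natCast.1 (hc.dvd_of_dvd_mul_left ((h4 N).1 hN.left))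

/-- Torus elements with room for the determinant. -/
theorem lside_tor' {m d : ℕ} (hd : 0 < d) (hdn : d + 2 ≤ n) (h : (m : ℤ) ∣ Q ^ d - 1) :
    Om G m := by
  obtain ⟨γ, hγ⟩ := hQ.ex_int (m := m) fun e => hQ.not_dvd hd (e.trans h)
  have h1 : γ ^ Q ^ d = γ := zpow_eq_self_iff.2 ((hγ _).2 h)
  have h2 : ((γ ^ gs Q d)⁻¹) ^ Q = (γ ^ gs Q d)⁻¹ := by
    rw [inv_zpow, inv_inj, zpow_eq_self_iff, ← zpow_mul, gs_mul]
    exact (hγ _).2 h
  refine hG.mem_of_dvd (J := blk Q d γ 1 + {((γ ^ gs Q d)⁻¹, 1)} + idb M (n - (d + 1)))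
    ⟨(((valid_blk h1 one_pos).add (valid_single h2 one_pos)).add (valid_idb _)).cast (by omega),
      by rw [jdet_add, jdet_add, jdet_idb, jdet_single, jdet_blk]; simp⟩ ?_
  rintro N ⟨c, hc⟩
  rw [KB_add, KB_add, KB_idb, KB_blk_iff hd h1] at hc
  obtain rfl : c = 1 := hc.2.resolve_left (by omega)
  exact Int.natCast_dvd_natCast.1 ((hγ N).1 (by rw [zpow_natCast]; exact hc.1.1.1))

/-- Unipotent elements. -/
theorem lside_unip (hn : 0 < n) {c : ℕ} (hc : c ≤ Nat.clog p n) : Om G (p ^ c) :=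
  hG.mem_of_dvd (J := {(1, n)}) ⟨valid_single (by simp) hn, by simp [jdet_single]⟩
    fun _ hN => (pow_dvd_pow _ hc).trans (KB_single.1 hN.choose_spec).2

theorem lside_mix (hn : 2 ≤ n) {j c : ℕ} (hr : r.Prime) (hk : Od Q r j) (hj : n < 2 * j)
    (h : Om G (r * p ^ (c + 1))) : p ^ c + j < n := by
  obtain ⟨J, ⟨hJ, -⟩, h3⟩ := (hG.mem_range_iff _).1 h
  obtain ⟨β, b, hy, hb⟩ := lside_big hQ hJ h3 (dvd_mul_left _ _)
  obtain ⟨α, J', e3, rfl, e5, e6⟩ := lside_blk hQ hJ h3 (lside_ne_zero h) hr hk (by omega) hj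
    (dvd_mul_right _ _)
  have := pow_pos hQ.prime.pos c
  rcases Multiset.mem_add.1 hy with hy | hy
  · obtain ⟨i, -, e⟩ := mem_blk.1 hy
    obtain ⟨-, rfl⟩ := Prod.ext_iff.1 e
    omega
  · have := e6.le hy
    simp only at this
    omega

omit hG hQ [Finite G] in
/-- For `Q = -2` small orbits consist of cube roots of unity. -/
theorem lside_cube {α : M} {d : ℕ} (h : α ^ (-2 : ℤ) ^ d = α) (h0 : 0 < d) (hd : d ≤ 2) :
    α ^ 3 = 1 := by
  have h1 := zpow_eq_self_iff.1 h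
  rw [← zpow_natCast]
  refine zpow_eq_one_of_dvd h1 ?_
  interval_cases d <;> norm_num

end Cfsg.Agent.ISP

namespace Cfsg.Agent.ISP

open Cfsg.Agent.Class.Spec

variable {M : Type*} [CommGroup M] {G : Type*} [Group G] [Finite G]

theorem lside_od {Q : ℤ} {r k : ℕ} [NeZero r] (h : orderOf (Q : ZMod r) = k) : Od Q r k := fun j => by
  rw [← h, orderOf_dvd_iff_pow_eq_one, ← ZMod.intCast_zmod_eq_zero_iff_dvd]
  push_cast
  exact sub_eq_zero

theorem lside_u62 (hG : Models G 2 fun J : Multiset (M × ℕ) => Valid (-2) 6 J ∧ jdet J = 1)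
    (hQ : IsQ M 2 (-2)) {m : ℕ} (h : Om G m) : W62 m := by
  have o7 : Od (-2) 7 6 := lside_od (by rw [orderOf_eq_iff (by norm_num)]; decide)
  have o11 : Od (-2) 11 5 := lside_od (by rw [orderOf_eq_iff (by norm_num)]; decide)
  have o5 : Od (-2) 5 4 := lside_od (by rw [orderOf_eq_iff (by norm_num)]; decide)
  unfold W62
  by_cases h7 : 7 ∣ m
  · have := lside_top hG hQ (by norm_num) (by norm_num) o7 h7 h
    rw [show ((Int.gcd (6 : ℕ) (-2 - 1) : ℕ) : ℤ) = 3 by norm_num, show ((-2 : ℤ) ^ 6 - 1) =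
      (7 : ℕ) * 3 * (-2 - 1) * (-1) by norm_num, mul_neg, dvd_neg, mul_one,
      mul_dvd_mul_iff_right (by norm_num), mul_dvd_mul_iff_right (by norm_num)] at this
    exact Or.inl (Int.natCast_dvd_natCast.1 this)
  by_cases h11 : 11 ∣ m
  · have := lside_sub hG hQ (by norm_num) (by norm_num) o11 h11 h
    rw [show ((Int.gcd (6 : ℕ) (-2 - 1) : ℕ) : ℤ) = 3 by norm_num, show ((-2 : ℤ) ^ (6 - 1) - 1) =
      -((11 : ℕ) * 3) by norm_num, dvd_neg, mul_dvd_mul_iff_right (by norm_num)] at this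
    exact Or.inr (Or.inr (Or.inr (Or.inl (Int.natCast_dvd_natCast.1 this))))
  obtain ⟨J, ⟨hJ, hd⟩, h3⟩ := (hG.mem_range_iff _).1 h
  have c3 : ∀ {k} {J : Multiset (M × ℕ)}, Valid (-2) k J → k ≤ 2 → ∀ x ∈ J, x.1 ^ 3 = 1 := by
    intro k J hJ hk ⟨γ, c⟩ hx
    obtain ⟨e, J'', f1, f2, -, -, f3, -⟩ := hQ.exists_blk hJ hx
    have := Nat.le_mul_of_pos_right e (hJ.pos _ hx)
    exact lside_cube ((f2 e).2 dvd_rfl) f1 (by simp only at this; omega)
  by_cases h5 : 5 ∣ m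
  · obtain ⟨α, J', e3, rfl, -, e6⟩ := lside_blk hQ hJ h3 (lside_ne_zero h) (by norm_num) o5
      (by norm_num) (by norm_num) h5
    have e7 : α ^ 15 = 1 := by
      rw [← zpow_natCast]
      exact zpow_eq_one_of_dvd (zpow_eq_self_iff.1 e3) (by norm_num)
    by_cases hb : ∃ x ∈ J', 2 ≤ x.2
    · obtain ⟨⟨β, b⟩, hy, hb⟩ := hb
      obtain ⟨e, J'', f1, f2, -, rfl, f3, f4⟩ := hQ.exists_blk e6 hy
      simp only at hb
      obtain rfl : e = 1 := by nlinarith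
      obtain rfl : b = 2 := by omega
      obtain rfl := f4.eq_zero
      have hβ := c3 e6 le_rfl _ hy
      simp only at hβ
      rw [add_zero, blk_one] at h3 hd
      rw [jdet_add, jdet_blk, jdet_single, pow_one, show gs (-2) 4 = -(5 : ℕ) by
        simp [gs, Finset.sum_range_succ], zpow_neg, zpow_natCast, inv_mul_eq_one] at hd
      have g1 : β ^ 10 = β := by rw [show 10 = 3 * 3 + 1 by rfl, pow_succ, pow_mul, hβ]; simp
      have g2 : α ^ 10 = β := by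
        rw [show 10 = 5 * 2 by rfl, pow_mul, hd, ← pow_mul, show 2 * 2 = 3 + 1 by rfl, pow_succ, hβ,
          one_mul]
      refine Or.inr (Or.inr (Or.inl ((h3 10).1 ⟨β, KB_add.2 ⟨(KB_blk_iff (by norm_num) e3).2
        ⟨g2, by simpa using (f2 1).2 dvd_rfl, by simp⟩, KB_single.2 ⟨g1, by norm_num⟩⟩⟩)))
    · push Not at hb
      refine Or.inr (Or.inr (Or.inr (Or.inr (Or.inr (Or.inl ((h3 15).1 ⟨1, KB_add.2
        ⟨(KB_blk_iff (by norm_num) e3).2 ⟨e7, by simp, by simp⟩, fun x hx => ⟨?_, ?_⟩⟩⟩))))))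
      · rw [show 15 = 3 * 5 by rfl, pow_mul, c3 e6 le_rfl x hx, one_pow]
      · rw [Nat.clog_of_right_le_one (by have := hb x hx; omega)]; simp
  by_cases h8 : 8 ∣ m
  · obtain ⟨β, b, hy, hb⟩ := lside_big (c := 2) hQ hJ h3 h8
    obtain ⟨e, J', f1, f2, -, rfl, f3, f4⟩ := hQ.exists_blk hJ hy
    obtain rfl : e = 1 := by nlinarith
    have hβ := lside_cube ((f2 1).2 dvd_rfl) one_pos (by norm_num)
    rw [blk_one] at h3 hd
    refine Or.inr (Or.inl ((h3 8).1 ⟨β ^ 8, KB_add.2 ⟨KB_single.2 ⟨rfl,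
      pow_clog_dvd (b := 6) (by norm_num) (by omega)⟩, ?_⟩⟩))
    obtain rfl | rfl : b = 5 ∨ b = 6 := by omega
    · obtain ⟨γ, hγ, rfl⟩ := lside_one hQ f4
      rw [jdet_add, jdet_single, jdet_single, pow_one] at hd
      have : γ = β := by
        rw [eq_inv_of_mul_eq_one_right hd, inv_eq_iff_mul_eq_one, ← pow_succ,
          show 5 + 1 = 3 * 2 by rfl, pow_mul, hβ, one_pow]
      exact KB_single.2 ⟨by rw [this], by simp⟩
    · obtain rfl := f4.eq_zero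
      exact KB_zero
  by_cases h4 : 4 ∣ m
  · obtain ⟨β, b, hy, hb⟩ := lside_big (c := 1) hQ hJ h3 h4
    obtain ⟨e, J', f1, f2, -, rfl, f3, f4⟩ := hQ.exists_blk hJ hy
    have hb' : 3 ≤ b := hb
    have hβ := lside_cube ((f2 e).2 dvd_rfl) f1 (by nlinarith)
    have g1 : ∀ x ∈ J', x.1 ^ 3 = 1 := by
      intro ⟨γ, c⟩ hx
      obtain ⟨d, J'', k1, k2, -, rfl, k3, k4⟩ := hQ.exists_blk f4 hx
      have k5 := f4.pos _ hx
      simp only at k5
      have k6 := Nat.le_mul_of_pos_right d k5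
      have k7 := Nat.le_mul_of_pos_left b f1
      by_cases hd2 : d ≤ 2
      · exact lside_cube ((k2 d).2 dvd_rfl) k1 hd2
      obtain rfl : d = 3 := by omega
      obtain rfl : c = 1 := by omega
      obtain rfl : b = 3 := by omega
      obtain rfl : e = 1 := by omega
      obtain rfl := k4.eq_zero
      rw [add_zero, jdet_add, blk_one, jdet_single, hβ, one_mul, jdet_blk, pow_one,
        show gs (-2) 3 = (3 : ℕ) by simp [gs, Finset.sum_range_succ], zpow_natCast] at hd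
      exact hd
    have g2 := (h3 24).1 ⟨1, KB_add.2 ⟨KB_blk (by
      rw [show 24 = 3 * 8 by rfl, pow_mul, hβ, one_pow]) (by simp)
        (pow_clog_dvd (b := 6) (by norm_num) (hJ.le hy)), fun x hx =>
      ⟨by rw [show 24 = 3 * 8 by rfl, pow_mul, g1 x hx, one_pow],
        pow_clog_dvd (b := 6) (by norm_num) (hJ.le (Multiset.mem_add.2 (Or.inr hx)))⟩⟩⟩
    have := Nat.le_of_dvd (by norm_num) g2
    interval_cases m <;> simp_all
  have g := lside_exp hG hQ h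
  rw [show 2 ^ Nat.clog 2 6 * lsideL (-2) 6 = 27720 by decide +kernel] at g
  have key : ∀ m ∈ Nat.divisors 27720, ¬ 7 ∣ m → ¬ 11 ∣ m → ¬ 5 ∣ m → ¬ 4 ∣ m → m ∣ 18 := by
    decide +kernel
  exact Or.inr (Or.inr (Or.inr (Or.inr (Or.inr (Or.inr
    (key m (Nat.mem_divisors.2 ⟨g, by norm_num⟩) h7 h11 h5 h4))))))

theorem lside_l43 (hG : Models G 3 fun J : Multiset (M × ℕ) => Valid 3 4 J ∧ jdet J = 1)
    (hQ : IsQ M 3 3) : ¬ Om G 16 := by
  intro h
  obtain ⟨J, ⟨hJ, hd⟩, h3⟩ := (hG.mem_range_iff _).1 h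
  by_cases H : ∀ x ∈ J, x.1 ^ 936 = 1
  · exact absurd ((h3 936).1 ⟨1, fun x hx => ⟨H x hx,
      pow_clog_dvd (b := 4) (by norm_num) (hJ.le hx)⟩⟩) (by norm_num)
  push Not at H
  obtain ⟨⟨α, a⟩, hx, H⟩ := H
  obtain ⟨d, J', k1, k2, -, rfl, k3, k4⟩ := hQ.exists_blk hJ hx
  have k5 := hJ.pos _ hx
  simp only at k5 H
  have k6 := Nat.le_mul_of_pos_right d k5
  have k7 := (k2 d).2 dvd_rfl
  by_cases hd4 : d ≤ 3
  · refine H ?_
    rw [← zpow_natCast]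
    refine zpow_eq_one_of_dvd (zpow_eq_self_iff.1 k7) ?_
    interval_cases d <;> norm_num
  obtain rfl : d = 4 := by omega
  obtain rfl : a = 1 := by omega
  obtain rfl := k4.eq_zero
  rw [add_zero] at h3 hd
  rw [jdet_blk, pow_one, show gs 3 4 = 40 by simp [gs, Finset.sum_range_succ]] at hd
  exact absurd ((h3 20).1 ((PK_blk_iff k1 k7).2 ⟨by rw [← hd]; norm_num, by simp⟩)) (by norm_num)

theorem ls_of_models {p n : ℕ} {Q : ℤ}
    (hG : Models G p fun J : Multiset (M × ℕ) => Valid Q n J ∧ jdet J = 1) (hQ : IsQ M p Q)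
    (hn : 4 ≤ n) (hne : ¬ (n = 5 ∧ Q = -2)) : LS (Om G) p n Q where
  pp := hQ.prime
  hQ := hQ.abs
  hn := hn
  ne := hne
  adj := fun _ _ _ _ hr hs hrp hsp hrs hk hl h2 hkl hln =>
    hG.adj_lin hQ hr hs hrp hsp hrs hk hl h2 hkl hln
  adjp := fun _ hr hrp h1 h => hG.exists_of_adj_char hQ hr hrp h1 h
  top := fun _ _ hr hk hrm h => lside_top hG hQ (by omega) hr hk hrm h
  sub := fun _ _ hr hk hrm h => lside_sub hG hQ (by omega) hr hk hrm h
  low := fun m _ h0 hi h hc => lside_tor hG hQ h0 hi h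
    (Int.isCoprime_iff_nat_coprime.2 (by simpa using hc))
  lowp := by
    simpa using lside_unip hG hQ (c := 1) (by omega) (Nat.clog_pos hQ.prime.one_lt (by omega))
  pow := fun t c ht htp h => by
    rcases Nat.eq_zero_or_pos c with rfl | hc
    · exact ⟨1, one_pos, by omega, by simp⟩
    exact lside_of_pow_dvd hQ ht hc ((((Nat.coprime_primes ht hQ.prime).2 htp).pow c _).dvd_of_dvd_mul_left
      (lside_exp hG hQ h))
  powp := fun c h => Nat.pow_lt_of_lt_clog ((Nat.pow_dvd_pow_iff_le_right hQ.prime.one_lt).1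
    (((lside_cop hQ).pow_left _).dvd_of_dvd_mul_right (lside_exp hG hQ h)))
  mix := fun _ _ _ hr hk hj h => lside_mix hG hQ (by omega) hr hk hj h
  u62 := by
    rintro rfl rfl
    obtain rfl : p = 2 := (Nat.prime_dvd_prime_iff_eq hQ.prime Nat.prime_two).1
      (by have := hQ.dvd; rwa [dvd_neg, ← Nat.cast_ofNat, Int.natCast_dvd_natCast] at this)
    exact ⟨fun m h => lside_u62 hG hQ h, lside_tor' hG hQ (d := 3) (by norm_num) (by norm_num)
      (by norm_num), hG.adj_char_of_le hQ (r := 5) (by norm_num) (by norm_num) (by norm_num)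
      (d := 4) (by norm_num) (by norm_num) (by norm_num), lside_tor' hG hQ (d := 4) (by norm_num)
      (by norm_num) (by norm_num)⟩
  l43 := by
    rintro rfl rfl
    obtain rfl : p = 3 := (Nat.prime_dvd_prime_iff_eq hQ.prime Nat.prime_three).1
      (by have := hQ.dvd; rwa [← Nat.cast_ofNat, Int.natCast_dvd_natCast] at this)
    exact lside_l43 hG hQ

/-- The hypothesis of S3586 gives the spectrum facts. -/
theorem ls_of_hL {F : Type*} [Field F] [Fintype F] {n : ℕ} (hn : 4 ≤ n)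
    {L : Type*} [Group L]
    (hL : Nonempty (L ≃* Matrix.ProjectiveSpecialLinearGroup (Fin n) F) ∨
      (∃ q : ℕ, ¬ (n = 5 ∧ q = 2) ∧ Fintype.card F = q ^ 2 ∧ Nonempty (L ≃* Cfsg.PSU n F q)))
    {G : Type*} [Group G] (h : Set.range (orderOf : G → ℕ) = Set.range (orderOf : L → ℕ)) :
    ∃ (p : ℕ) (Q : ℤ), LS (Om G) p n Q := by
  have key : ∀ {T : Type _} [Group T], Nonempty (L ≃* T) → Om G = Om T := by
    intro T _ ⟨e⟩
    funext m
    refine propext ((show m ∈ Set.range (orderOf : G → ℕ) ↔ m ∈ Set.range (orderOf : L → ℕ) by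
      rw [h]).trans ⟨fun h => Om.of_inj e.toMonoidHom e.injective h,
        fun h => Om.of_inj e.symm.toMonoidHom e.symm.injective h⟩)
  rcases hL with e | ⟨q, h5, hq, e⟩
  · obtain ⟨p, hc, k, hp, -⟩ := FiniteField.card' F
    refine ⟨p, Fintype.card F, ?_⟩
    rw [key e]
    exact ls_of_models (models_PSL F (AlgebraicClosure F) p hp n)
      (isQ_card F (AlgebraicClosure F) hp) hn (by omega)
  · have := Cfsg.Agent.Class.U.UF.of_card hq
    obtain ⟨p, k, hp, hc, hk, h0⟩ := Cfsg.Agent.Class.U.exists_prime_pow F q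
    refine ⟨p, -q, ?_⟩
    rw [key e]
    exact ls_of_models (models_PSU F (AlgebraicClosure F) p hp q (by omega))
      (isQ_units (AlgebraicClosure F) hp ⟨k, h0, by simp [hk]⟩) hn (by omega)

end Cfsg.Agent.ISP
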