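import Cfsg.Agent.ISP.Defs
import Cfsg.Agent.S1663
import Cfsg.Agent.J4.AutM22

set_option autoImplicit false

namespace Cfsg.Agent.ISP

section M22FAux

open Subgroup

theorem m22f_pow_closure {G : Type*} [Group G] {s : Set G} {p : ℕ}
    (hc : ∀ x ∈ s, ∀ y ∈ s, x * y = y * x) (hp : ∀ x ∈ s, x ^ p = 1) :
    ∀ x ∈ closure s, x ^ p = 1 := by
  have h1 : closure s ≤ centralizer s :=
    (closure_le _).2 fun x hx => mem_centralizer_iff.2 fun y hy => hc y hy x hx
  intro x hx
  induction hx using closure_induction with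
  | mem x hx => exact hp x hx
  | one => exact one_pow _
  | mul x y hx hy ihx ihy =>
    have : Commute y x :=
      mem_centralizer_iff.1 (closure_le_centralizer_centralizer s hx) y (h1 hy)
    rw [this.symm.mul_pow, ihx, ihy, one_mul]
  | inv x hx ih => rw [inv_pow, ih, inv_one]

theorem m22f_isPGroup {G : Type*} [Group G] {s : Set G} {p : ℕ}
    (hc : ∀ x ∈ s, ∀ y ∈ s, x * y = y * x) (hp : ∀ x ∈ s, x ^ p = 1) :
    IsPGroup p (closure s) := fun x =>
  ⟨1, Subtype.ext (by
    rw [pow_one]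
    exact m22f_pow_closure hc hp x x.2)⟩

theorem m22f_no9 {G : Type*} [Group G] [Finite G] (hc : Nat.card G = 443520) {a b : G}
    (ha : a ^ 3 = 1) (hb : b ^ 3 = 1) (hab : a * b = b * a) (h1 : a ≠ 1) (h2 : b ≠ 1) (h3 : a ≠ b)
    (h4 : a * b ≠ 1) (h5 : a * b ≠ a) (h6 : a * b ≠ b) : ¬ Om G 9 := by
  classical
  have : Fact (Nat.Prime 3) := ⟨by norm_num⟩
  rintro ⟨g, hg⟩
  have hP : IsPGroup 3 (closure ({a, b} : Set G)) := by
    refine m22f_isPGroup ?_ ?_
    · rintro x (rfl | rfl) y (rfl | rfl)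
      exacts [rfl, hab, hab.symm, rfl]
    · rintro x (rfl | rfl)
      exacts [ha, hb]
  obtain ⟨P, hP⟩ := hP.exists_le_sylow
  have hz : Nat.card (zpowers g) = 3 ^ 2 := by rw [Nat.card_zpowers, hg]; norm_num
  obtain ⟨Q, hQ⟩ := (IsPGroup.of_card hz).exists_le_sylow
  have hQc : Nat.card Q = 3 ^ 2 := by
    rw [Sylow.card_eq_multiplicity, hc]
    congr 1
    have : (443520 : ℕ) = 3 ^ 2 * 49280 := by norm_num
    rw [this, Nat.factorization_mul (by norm_num) (by norm_num), Nat.Prime.factorization_pow (by norm_num)]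
    simp [Nat.factorization_eq_zero_of_not_dvd (show ¬ 3 ∣ 49280 by norm_num)]
  have hQe : zpowers g = (Q : Subgroup G) := eq_of_le_of_card_ge hQ (by rw [hz]; exact hQc.le)
  have hcyc : IsCyclic (Q : Subgroup G) := hQe ▸ inferInstance
  have hcyc' : IsCyclic (P : Subgroup G) := (Sylow.equiv P Q).isCyclic.2 hcyc
  have := Fintype.ofFinite (P : Subgroup G)
  have hle := IsCyclic.card_pow_eq_one_le (α := (P : Subgroup G)) (n := 3) (by norm_num)
  have ha' : a ∈ (P : Subgroup G) := hP (subset_closure (by simp))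
  have hb' : b ∈ (P : Subgroup G) := hP (subset_closure (by simp))
  have hsub : ({1, ⟨a, ha'⟩, ⟨b, hb'⟩, ⟨a * b, mul_mem ha' hb'⟩} : Finset (P : Subgroup G)) ⊆
      Finset.univ.filter fun x => x ^ 3 = 1 := by
    intro x hx
    simp only [Finset.mem_insert, Finset.mem_singleton] at hx
    simp only [Finset.mem_filter, Finset.mem_univ, true_and]
    rcases hx with rfl | rfl | rfl | rfl
    · exact one_pow _
    · exact Subtype.ext ha
    · exact Subtype.ext hb
    · refine Subtype.ext ?_
      change (a * b) ^ 3 = 1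
      rw [Commute.mul_pow hab, ha, hb, one_mul]
  have h7 := (Finset.card_le_card hsub).trans hle
  rw [Finset.card_insert_of_notMem, Finset.card_insert_of_notMem, Finset.card_pair] at h7
  · omega
  · exact fun h => h6 (congrArg Subtype.val h).symm
  · simp only [Finset.mem_insert, Finset.mem_singleton, not_or]
    exact ⟨fun h => h3 (congrArg Subtype.val h), fun h => h5 (congrArg Subtype.val h).symm⟩
  · simp only [Finset.mem_insert, Finset.mem_singleton, not_or]
    exact ⟨fun h => h1 (congrArg Subtype.val h).symm, fun h => h2 (congrArg Subtype.val h).symm,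
      fun h => h4 (congrArg Subtype.val h).symm⟩

theorem m22f_frob {G : Type*} [Group G] [Finite G] {y t0 t1 t2 : G} (h0 : t0 ≠ 1)
    (s0 : t0 ^ 2 = 1) (s1 : t1 ^ 2 = 1) (s2 : t2 ^ 2 = 1)
    (c01 : t0 * t1 = t1 * t0) (c02 : t0 * t2 = t2 * t0) (c12 : t1 * t2 = t2 * t1)
    (e0 : y * t0 * y⁻¹ = t1) (e1 : y * t1 * y⁻¹ = t2) (e2 : y * t2 * y⁻¹ = t0 * t1) :
    ∃ T : Subgroup G, IsPGroup 2 T ∧ T ≠ ⊥ ∧ y ∈ normalizer (T : Set G) := by
  have m0 : t0 ∈ closure ({t0, t1, t2} : Set G) := subset_closure (by simp)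
  have m1 : t1 ∈ closure ({t0, t1, t2} : Set G) := subset_closure (by simp)
  have m2 : t2 ∈ closure ({t0, t1, t2} : Set G) := subset_closure (by simp)
  refine ⟨closure {t0, t1, t2}, m22f_isPGroup ?_ ?_, fun h => h0 ?_, ?_⟩
  · rintro x (rfl | rfl | rfl) z (rfl | rfl | rfl)
    exacts [rfl, c01, c02, c01.symm, rfl, c12, c02.symm, c12.symm, rfl]
  · rintro x (rfl | rfl | rfl)
    exacts [s0, s1, s2]
  · rwa [h, mem_bot] at m0
  · refine mem_normalizer_fintype fun x hx => ?_
    rw [SetLike.mem_coe] at hx ⊢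
    induction hx using closure_induction with
    | mem x hx =>
      rcases hx with rfl | rfl | rfl
      · rw [e0]; exact m1
      · rw [e1]; exact m2
      · rw [e2]; exact mul_mem m0 m1
    | one => simpa using one_mem _
    | mul x z hx hz ihx ihz =>
      have : y * (x * z) * y⁻¹ = y * x * y⁻¹ * (y * z * y⁻¹) := by group
      rw [this]; exact mul_mem ihx ihz
    | inv x hx ih =>
      have : y * x⁻¹ * y⁻¹ = (y * x * y⁻¹)⁻¹ := by group
      rw [this]; exact inv_mem ih

open Cfsg.Agent.J4 Cfsg.Agent.Spor Cfsg.Agent.Spor.M24C Cfsg.Agent.Comp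

/-- An element of `M22'` given by its code. -/
noncomputable def m22fE (c : ℕ)
    (h : and' (okM c) (Nat.beq (Nat.land 8388609 (fixC c)) 8388609) = true) : M22' :=
  ⟨mc c, mc_mem_M22' h⟩

theorem m22f_code {c : ℕ} (h) : code (((m22fE c h : M22') : M24) : Equiv.Perm GolayPt) = c :=
  code_mc ((and'_eq_true _ _).1 h).1

theorem m22f_eq {x z : M22'} :
    x = z ↔ code ((x : M24) : Equiv.Perm GolayPt) = code ((z : M24) : Equiv.Perm GolayPt) := by
  rw [← eq_iff_code, Subtype.ext_iff]

noncomputable def m22fA : M22' := m22fE 976531636853126291160407323722221600 (by decide +kernel)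
noncomputable def m22fB : M22' := m22fE 974428684320632006772068527414316064 (by decide +kernel)
noncomputable def m22fY : M22' := m22fE 977946142385489797270112026068388896 (by decide +kernel)
noncomputable def m22fT0 : M22' := m22fE 984330238668445353307680420861740096 (by decide +kernel)
noncomputable def m22fT1 : M22' := m22fE 976543013996775556519395725514151008 (by decide +kernel)
noncomputable def m22fT2 : M22' := m22fE 984331459161572916189794756069799040 (by decide +kernel)

theorem m22f_facts [Finite M22'] (hc : Nat.card M22' = 443520) :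
    ¬ Om M22' 9 ∧ ∃ (T : Subgroup M22') (y : M22'), IsPGroup 2 T ∧ T ≠ ⊥ ∧ orderOf y = 7 ∧
      y ∈ normalizer (T : Set M22') := by
  refine ⟨m22f_no9 hc (a := m22fA) (b := m22fB) ?_ ?_ ?_ ?_ ?_ ?_ ?_ ?_ ?_, ?_⟩
  rotate_right
  · have h7 : orderOf m22fY = 7 := by
      have : Fact (Nat.Prime 7) := ⟨by norm_num⟩
      refine orderOf_eq_prime ?_ ?_
      all_goals
        simp only [Ne, m22f_eq, coe_pow (H := M22'), coe_one (H := M22'), code_pow', code_one',
          m22fY, m22f_code]
        decide +kernel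
    refine (m22f_frob (y := m22fY) (t0 := m22fT0) (t1 := m22fT1) (t2 := m22fT2)
      ?_ ?_ ?_ ?_ ?_ ?_ ?_ ?_ ?_ ?_).elim fun T h => ⟨T, m22fY, h.1, h.2.1, h7, h.2.2⟩
    all_goals
      simp only [Ne, mul_inv_eq_iff_eq_mul, m22f_eq, coe_mul (H := M22'), coe_pow (H := M22'),
        coe_one (H := M22'), code_mul', code_pow', code_one', m22fY, m22fT0, m22fT1,
        m22fT2, m22f_code]
      decide +kernel
  all_goals
    simp only [Ne, m22f_eq, coe_mul (H := M22'), coe_pow (H := M22'),
      coe_one (H := M22'), code_mul', code_pow', code_one', m22fA, m22fB, m22f_code]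
    decide +kernel

end M22FAux

/-- Two facts on `M₂₂` (`Cfsg.Agent.S1663.result`: a simple group of order 443520 is the concrete `M₂₂`; explicit
tools in `J4/AutM22`, `Pat/HMM`, ...): the Sylow 3-subgroup (order 9) is not cyclic (exhibit `3 × 3`), and an
element of order 7 normalises a nontrivial 2-subgroup (`2³ : 7 ≤ 2³ : L₃(2)`, the stabiliser of an octad missing both
points). Any proof is fine (explicit permutations + `decide`). -/
theorem m22_facts {S : Type*} [Group S] [Finite S] [IsSimpleGroup S] (hc : Nat.card S = 443520) :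
    ¬ Om S 9 ∧ ∃ (T : Subgroup S) (y : S), IsPGroup 2 T ∧ T ≠ ⊥ ∧ orderOf y = 7 ∧
      y ∈ Subgroup.normalizer (T : Set S) := by
  obtain ⟨e0⟩ := Cfsg.Agent.S1663.result (G := S) ⟨inferInstance, by rw [hc]⟩
  have e : S ≃* Cfsg.Agent.J4.M22' := e0.trans Cfsg.Agent.J4.m22Equiv
  obtain ⟨h1, T, y, h2, h3, h4, h5⟩ := m22f_facts (by rw [← Nat.card_congr e.toEquiv, hc])
  refine ⟨fun ⟨g, hg⟩ => h1 ⟨e g, by rw [MulEquiv.orderOf_eq, hg]⟩,
    T.map e.symm.toMonoidHom, e.symm y, h2.map _, ?_, by rw [MulEquiv.orderOf_eq, h4], ?_⟩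
  · exact fun h => h3 ((Subgroup.map_eq_bot_iff_of_injective _ e.symm.injective).1 h)
  · exact Subgroup.le_normalizer_map e.symm.toMonoidHom ⟨y, h5, rfl⟩

end Cfsg.Agent.ISP
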