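import Cfsg.Agent.ISP.Defs

set_option autoImplicit false

namespace Cfsg.Agent.ISP

/-- `t ^ b` is the exact `t`-part of `m`, `b > 0`. -/
def Ex (t b m : ℕ) : Prop := 0 < b ∧ t ^ b ∣ m ∧ ¬ t ^ (b + 1) ∣ m

/-- The group-theoretic tools in arithmetic form (`W` = spectrum of `G`, `m = |S|`). -/
structure NT (W : ℕ → Prop) (m : ℕ) : Prop where
  dvd : ∀ a b : ℕ, W a → b ∣ a → W b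
  toolA : ∀ s : ℕ, s.Prime → s ∣ m → W s
  toolB : ∀ r : ℕ, r.Prime → r ≠ 2 → W r → ¬ W (2 * r) → r ∣ m
  toolB' : ∀ r c a : ℕ, r.Prime → r ≠ 2 → W (r ^ c) → ¬ W (2 * r) → Ex 2 a m →
    r ^ c ∣ m * (2 ^ a - 1)
  toolC : ∀ s t b : ℕ, s.Prime → t.Prime → t ≠ 2 → W s → ¬ s ∣ m → Ex t b m → ¬ W (s * t) →
    W (t ^ b) ∨ s ∣ t ^ b - 1
  toolG : ∀ s₁ s₂ t l₁ b₁ l₂ b₂ : ℕ, s₁.Prime → s₂.Prime → t.Prime → l₁.Prime → l₂.Prime →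
    s₁ ≠ s₂ → s₁ ≠ t → s₂ ≠ t → W s₁ → W s₂ → W t → ¬ s₁ ∣ m → ¬ s₂ ∣ m →
    ¬ W (s₁ * s₂) → ¬ W (s₁ * t) → ¬ W (s₂ * t) → Ex l₁ b₁ m → Ex l₂ b₂ m →
    ¬ W (s₁ * l₁) → ¬ W (s₂ * l₂) → ¬ s₁ ∣ l₁ ^ b₁ - 1 → ¬ s₂ ∣ l₂ ^ b₂ - 1 → False

/-- The cases left to group theory: `U₆(2)` with `M₂₂, HS, McL`; `L₄(4)`/`He`; `L₄(11)`/`J₁`;
`U₄(3), L₄(2)`/`J₂`; `L₄(3)`/Tits. -/
def Fin8 (n : ℕ) (Q : ℤ) (m : ℕ) : Prop :=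
  (n = 6 ∧ Q = -2 ∧ (m = 443520 ∨ m = 44352000 ∨ m = 898128000)) ∨
  (n = 4 ∧ Q = 4 ∧ m = 4030387200) ∨ (n = 4 ∧ Q = 11 ∧ m = 175560) ∨
  (n = 4 ∧ (Q = -3 ∨ Q = 2) ∧ m = 604800) ∨ (n = 4 ∧ Q = 3 ∧ m = 17971200)

end Cfsg.Agent.ISP
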