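import Cfsg.Agent.ISP.Enum

set_option autoImplicit false

namespace Cfsg.Agent.ISP

/-- An odd prime of the spectrum not adjacent to 2 (a primitive prime divisor for `i ∈ {n, n-1}`; Zsigmondy). -/
theorem exists_nonadj {W : ℕ → Prop} {p n : ℕ} {Q : ℤ} (hL : LS W p n Q) :
    ∃ r : ℕ, r.Prime ∧ r ≠ 2 ∧ W r ∧ ¬ W (2 * r) := exists_nonadj' hL

theorem num_enum : spoL.all enum = true := by decide +kernel

/-- The arithmetic reduction to eight cases. -/
theorem num {W : ℕ → Prop} {p n m : ℕ} {Q : ℤ} (hL : LS W p n Q) (hm : Spo m) (hN : NT W m) :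
    Fin8 n Q m := enum_sound hL hN (List.all_eq_true.1 num_enum m hm)

end Cfsg.Agent.ISP
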