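import Cfsg.Agent.ISP.Defs
import Cfsg.Agent.Small.PrimeSylow


set_option autoImplicit false

namespace Cfsg.Agent.ISP

open Subgroup

theorem sma_notcomm {S : Type*} [Group S] [Finite S] [IsSimpleGroup S]
    (h : ¬ (Nat.card S).Prime) : ¬ IsMulCommutative S := by
  intro hc
  letI : CommGroup S := { (inferInstance : Group S) with mul_comm := fun a b => hc.is_comm.comm a b }
  exact h IsSimpleGroup.prime_card

/-- A prime `r ≠ p` dividing `|C(P)|`, `P ≠ 1` of order `p`, gives an element of order `p r`. -/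
theorem sma_om {S : Type*} [Group S] [Finite S] {p r : ℕ} (hp : p.Prime) (hr : r.Prime) (hne : p ≠ r)
    (P : Subgroup S) (hP : Nat.card P = p) (hd : r ∣ Nat.card (centralizer (P : Set S))) :
    Om S (p * r) := by
  haveI := Fact.mk hp
  haveI := Fact.mk hr
  obtain ⟨x, hx⟩ := exists_prime_orderOf_dvd_card' (G := P) p (by rw [hP])
  obtain ⟨y, hy⟩ := exists_prime_orderOf_dvd_card' (G := centralizer (P : Set S)) r hd
  have hx' : orderOf (x : S) = p := by rw [orderOf_coe, hx]
  have hy' : orderOf (y : S) = r := by rw [orderOf_coe, hy]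
  have hc : Commute (x : S) (y : S) := (mem_centralizer_iff.1 y.2) x x.2
  have := Om.of_commute hc (by rw [hx', hy']; exact (Nat.coprime_primes hp hr).2 hne)
  rwa [hx', hy'] at this

/-- An element of order `p r` gives a Sylow `p`-subgroup (of order `p`) with `r ∣ |C(P)|`. -/
theorem sma_cent {S : Type*} [Group S] [Finite S] {p r : ℕ} [hp : Fact p.Prime] (hr : 0 < r)
    (h : Om S (p * r)) :
    ∃ P : Sylow p S, Nat.card (P : Subgroup S) = p →
      r ∣ Nat.card (centralizer ((P : Subgroup S) : Set S)) := by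
  obtain ⟨g, hg⟩ := h
  have hx : orderOf (g ^ r) = p := by
    rw [orderOf_pow_of_dvd hr.ne' (by rw [hg]; exact Dvd.intro_left _ rfl), hg,
      Nat.mul_div_cancel _ hr]
  have hy : orderOf (g ^ p) = r := by
    rw [orderOf_pow_of_dvd hp.out.ne_zero (by rw [hg]; exact Dvd.intro _ rfl), hg,
      Nat.mul_div_cancel_left _ hp.out.pos]
  have hZ : IsPGroup p (zpowers (g ^ r)) :=
    IsPGroup.of_card (n := 1) (by rw [Nat.card_zpowers, hx, pow_one])
  obtain ⟨P, hle⟩ := hZ.exists_le_sylow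
  refine ⟨P, fun hP => ?_⟩
  have heq : zpowers (g ^ r) = (P : Subgroup S) :=
    eq_of_le_of_card_ge hle (by rw [hP, Nat.card_zpowers, hx])
  have hm : g ^ p ∈ centralizer ((P : Subgroup S) : Set S) := by
    rw [← heq, mem_centralizer_iff]
    rintro _ ⟨k, rfl⟩
    exact (((Commute.refl g).pow_pow r p).zpow_left k).eq
  have := orderOf_dvd_natCard (⟨g ^ p, hm⟩ : centralizer ((P : Subgroup S) : Set S))
  rwa [orderOf_mk, hy] at this

/-- `|S| = |J₁| = 2³·3·5·7·11·19`, `S` simple, an element of order `133`, none of order `209`: impossible.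
`P` Sylow 19, `k = |N(P) : P|`, `7 ∣ k` (the element of order 133 centralises a Sylow 19),
`n₁₉ = 9240 / k ≡ 1 (19)`, `9240 ≡ 6`, so `k = 7k'`, `k' ∣ 1320`, `k' ≡ 9 (19)`: `k' = 66` or `1320`; `1320` makes `P`
normal; `k' = 66`: `11 ∣ |N(P)|`, `|N/C| ∣ 18`, so `11 ∣ |C(P)|`: order `209`. -/
theorem sJ1 {S : Type*} [Group S] [Finite S] [IsSimpleGroup S] (hc : Nat.card S = 175560)
    (h1 : Om S 133) (h2 : ¬ Om S 209) : False := by
  haveI : Fact (Nat.Prime 19) := ⟨by norm_num⟩
  obtain ⟨P, hP⟩ := sma_cent (p := 19) (r := 7) (by norm_num) h1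
  obtain ⟨n, e, c, hm, hn, hn1, he1, he, -, hPc, -, hC, -, -⟩ :=
    Small.prime_sylow_data (p := 19) (m := 9240) (sma_notcomm (by rw [hc]; norm_num))
      (by rw [hc]) (by norm_num) P
  have h7 := hP hPc
  rw [hC] at h7
  have h7c : 7 ∣ c := (Nat.Coprime.dvd_mul_left (by norm_num)).1 h7
  have h11 : ¬ 11 ∣ c := fun h =>
    h2 (sma_om (p := 19) (r := 11) (by norm_num) (by norm_num) (by norm_num) _ hPc
      (by rw [hC]; exact Dvd.dvd.mul_left h _))
  obtain ⟨c', rfl⟩ := h7c
  have hm' : n * (e * c') = 1320 := by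
    have : 7 * (n * (e * c')) = 7 * 1320 := by rw [show 7 * 1320 = 9240 by norm_num, ← hm]; ring
    exact Nat.eq_of_mul_eq_mul_left (by norm_num) this
  have h11n : 11 ∣ n := by
    have hd : 11 ∣ n * (e * c') := by rw [hm']; norm_num
    have p11 : Nat.Prime 11 := by norm_num
    rcases (p11.dvd_mul).1 hd with h | h
    · exact h
    · rcases (p11.dvd_mul).1 h with h | h
      · have := h.trans he
        norm_num at this
      · exact absurd (Dvd.dvd.mul_left h 7) h11
  obtain ⟨k, rfl⟩ := h11n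
  have hk : k ∣ 120 := by
    have : 11 * (k * (e * c')) = 11 * 120 := by rw [show 11 * 120 = 1320 by norm_num, ← hm']; ring
    exact Dvd.intro _ (Nat.eq_of_mul_eq_mul_left (by norm_num) this)
  have hk' : k ≤ 120 := Nat.le_of_dvd (by norm_num) hk
  have : k = 7 ∨ k = 26 ∨ k = 45 ∨ k = 64 ∨ k = 83 ∨ k = 102 := by omega
  rcases this with h | h | h | h | h | h <;> subst h <;> norm_num at hk

/-- `|S| = |He| = 2¹⁰·3³·5²·7³·17`, `S` simple, an element of order `85`, every order divisible by 17 divides 85.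
`P` Sylow 17, `|C(P)| = 17·5^j`, `j ∈ {1,2}`, `e = |N/C| ∣ 16`, `n₁₇ = 237081600/(5^j e) ≡ 1 (17)`, `237081600 ≡ 8`:
`5e ≡ 8` has no solution `e ∣ 16`; `25 e ≡ 8` gives `e = 1`, `N(P) = C(P)`, Burnside's transfer theorem
(`MonoidHom.ker_transferSylow_isComplement'`) contradicts simplicity. -/
theorem sHe {S : Type*} [Group S] [Finite S] [IsSimpleGroup S] (hc : Nat.card S = 4030387200)
    (h1 : Om S 85) (h2 : ∀ m, 17 ∣ m → Om S m → m ∣ 85) : False := by
  haveI : Fact (Nat.Prime 17) := ⟨by norm_num⟩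
  obtain ⟨P, hP⟩ := sma_cent (p := 17) (r := 5) (by norm_num) h1
  obtain ⟨n, e, c, hm, hn, hn1, he1, he, -, hPc, -, hC, -, -⟩ :=
    Small.prime_sylow_data (p := 17) (m := 237081600)
      (sma_notcomm (by rw [hc]; exact Nat.not_prime_of_dvd_of_lt (m := 2) (by norm_num) le_rfl (by norm_num)))
      (by rw [hc]) (by norm_num) P
  have h5 := hP hPc
  rw [hC] at h5
  have h5c : 5 ∣ c := (Nat.Coprime.dvd_mul_left (by norm_num)).1 h5
  have hcd : c ∣ 237081600 := Dvd.intro_left _ hm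
  have hno : ∀ r : ℕ, r.Prime → 17 ≠ r → ¬ 17 * r ∣ 85 → ¬ r ∣ c := fun r hr hne h85 h =>
    h85 (h2 _ (Dvd.intro _ rfl) (sma_om (p := 17) (r := r) (by norm_num) hr hne _ hPc
      (by rw [hC]; exact Dvd.dvd.mul_left h _)))
  have c2 : Nat.Coprime c (2 ^ 10) := Nat.Coprime.pow_right _
    ((Nat.Prime.coprime_iff_not_dvd (by norm_num)).2 (hno 2 (by norm_num) (by norm_num) (by norm_num))).symm
  have c3 : Nat.Coprime c (3 ^ 3) := Nat.Coprime.pow_right _
    ((Nat.Prime.coprime_iff_not_dvd (by norm_num)).2 (hno 3 (by norm_num) (by norm_num) (by norm_num))).symm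
  have c7 : Nat.Coprime c (7 ^ 3) := Nat.Coprime.pow_right _
    ((Nat.Prime.coprime_iff_not_dvd (by norm_num)).2 (hno 7 (by norm_num) (by norm_num) (by norm_num))).symm
  have h25 : c ∣ 25 := by
    have e1 : (237081600 : ℕ) = 2 ^ 10 * (3 ^ 3 * (7 ^ 3 * 25)) := by norm_num
    rw [e1] at hcd
    exact c7.dvd_of_dvd_mul_left (c3.dvd_of_dvd_mul_left (c2.dvd_of_dvd_mul_left hcd))
  have hc25 : c ≤ 25 := Nat.le_of_dvd (by norm_num) h25
  have he16 : e ≤ 16 := Nat.le_of_dvd (by norm_num) he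
  have hcc : c = 5 ∨ c = 25 := by
    interval_cases c <;> simp_all
  have hee : e = 2 ∨ e = 4 ∨ e = 8 ∨ e = 16 := by
    interval_cases e <;> simp_all
  rcases hcc with rfl | rfl <;> rcases hee with rfl | rfl | rfl | rfl <;> omega

end Cfsg.Agent.ISP
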