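import Cfsg.Agent.ISP.Defs
import Cfsg.Agent.Small.AbSylow
import Cfsg.Agent.Solv.Frobenius


set_option autoImplicit false

namespace Cfsg.Agent.ISP

open Subgroup in
/-- `P × P` acts freely on the complement of `N(P)` when `P` is TI -/
theorem smb_ti {S : Type*} [Group S] [Finite S] (P : Subgroup S)
    (h : ∀ g, ∀ a ∈ P, a ≠ 1 → g⁻¹ * a * g ∈ P → g ∈ normalizer (P : Set S)) :
    Nat.card P * Nat.card P ∣ Nat.card S - Nat.card (normalizer (P : Set S)) := by
  let _ : MulAction (P × P) ((normalizer (P : Set S) : Set S)ᶜ : Set S) :=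
    { smul := fun a s => ⟨a.1 * s * (a.2 : S)⁻¹, fun k => s.2 (by
        simpa [mul_assoc] using mul_mem (mul_mem (inv_mem (le_normalizer a.1.2)) k) (le_normalizer a.2.2))⟩
      one_smul := fun s => Subtype.ext (by
        show ((1 : P) : S) * s * ((1 : P) : S)⁻¹ = s
        simp)
      mul_smul := fun a b s => Subtype.ext (by
        show ((a.1 * b.1 : P) : S) * s * ((a.2 * b.2 : P) : S)⁻¹ = a.1 * (b.1 * s * (b.2 : S)⁻¹) * (a.2 : S)⁻¹
        simp [mul_assoc]) }
  have e := MulAction.selfEquivOrbitsQuotientProd (G := P × P)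
    (X := ((normalizer (P : Set S) : Set S)ᶜ : Set S)) (fun s => by
    rw [eq_bot_iff]
    intro a ha
    have h1 : (a.1 : S) * s * (a.2 : S)⁻¹ = s := congrArg Subtype.val ha
    have h2 : (s : S)⁻¹ * a.1 * s = a.2 := by rw [mul_assoc, mul_inv_eq_iff_eq_mul.1 h1]; group
    have h3 : (a.1 : S) = 1 := by
      by_contra c
      exact s.2 (h s _ a.1.2 c (h2 ▸ a.2.2))
    exact Prod.ext (Subtype.ext h3) (Subtype.ext (by simpa [h3] using h2.symm)))
  have h1 := Set.ncard_add_ncard_compl (normalizer (P : Set S) : Set S)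
  rw [← Nat.card_coe_set_eq, ← Nat.card_coe_set_eq, Nat.card_congr e, Nat.card_prod, Nat.card_prod] at h1
  rw [← h1]
  exact (dvd_mul_left _ _).trans (Nat.add_sub_cancel_left ..).symm.dvd

open Subgroup in
/-- `|S| = |J₂| = 2⁷·3³·5²·7` and every element order divisible by 5 divides 15: impossible.
`P` Sylow 5 (order 25, exponent 5, abelian). For `x` of order 5, `C(x)` has order `25·3^b`, `b ≤ 3`, so its
Sylow 5 is normal (`n₅ ∣ 27`, `≡ 1 (5)`); hence distinct Sylow 5-subgroups meet trivially and `n₅ ≡ 1 (25)`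
(`P` acts on the other Sylows freely). `e = |N(P) : P|`, `n₅ e = 24192 ≡ 17 (25)`. `7 ∤ e` (an element of order 7 would act
without fixed points on `P - 1`, 24 elements), a Sylow 2 of `N(P)` acts semiregularly on `P - 1` so has order dividing `24`, i.e. `8`.
`e = 2^a 3^b`, `a, b ≤ 3` is never `≡ 17 (25)`. -/
theorem sJ2 {S : Type*} [Group S] [Finite S] (hc : Nat.card S = 604800)
    (h : ∀ m, 5 ∣ m → Om S m → m ∣ 15) : False := by
  have f5 : Fact (Nat.Prime 5) := ⟨by norm_num⟩
  have k0 : ∀ x y : S, orderOf x = 5 → Commute x y → Nat.Coprime 5 (orderOf y) → orderOf y ∣ 3 :=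
    fun x y hx c hy => by
      have := h _ (hx ▸ dvd_mul_right _ _) (Om.of_commute c (hx ▸ hy))
      rw [hx] at this
      exact Nat.dvd_of_mul_dvd_mul_left (by norm_num : 0 < 5) this
  have cP : ∀ P : Sylow 5 S, Nat.card (P : Subgroup S) = 5 ^ 2 := fun P => by
    rw [P.card_eq_multiplicity, hc, show 604800 = 5 ^ 2 * 24192 from rfl, Nat.factorization_eq_of_coprime_left (a := 5 ^ 2) (b := 24192)
      (by norm_num) (by simp), Nat.Prime.factorization_pow (by norm_num)]
    simp
  have ord : ∀ P : Sylow 5 S, ∀ x ∈ (P : Subgroup S), x ≠ 1 → orderOf x = 5 := fun P x hx x1 => by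
    obtain ⟨i, hi, e⟩ := (Nat.dvd_prime_pow f5.out).1 (cP P ▸ orderOf_dvd_natCard (P : Subgroup S) hx)
    interval_cases i
    · exact absurd (orderOf_eq_one_iff.1 e) x1
    · exact e
    · exact absurd (h _ (by norm_num) ⟨x, e⟩) (by norm_num)
  have ab : ∀ P : Sylow 5 S, ∀ x ∈ (P : Subgroup S), (P : Subgroup S) ≤ centralizer {x} := fun P x hx y hy =>
    mem_centralizer_singleton_iff.2 (congrArg Subtype.val
      ((IsPGroup.isMulCommutative_of_card_eq_prime_sq (cP P)).is_comm.comm ⟨y, hy⟩ ⟨x, hx⟩))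
  have ti : ∀ P Q : Sylow 5 S, ∀ x ∈ (P : Subgroup S), x ∈ (Q : Subgroup S) → x ≠ 1 → P = Q := by
    intro P Q x hP hQ x1
    by_contra ne
    obtain ⟨n, h1, h2, -, h3⟩ := Small.exists_dvd_card_of_two_sylow ne (ab P x hP) (ab Q x hQ)
    have h4 := h3.trans (card_subgroup_dvd_card _)
    rw [cP, hc] at h4
    have h5 : ∀ r, r.Prime → Nat.Coprime 5 r → r ∣ n → r ∣ 3 := fun r hr c hn => by
      have := Fact.mk hr
      obtain ⟨y, hy⟩ := exists_prime_orderOf_dvd_card' r ((hn.mul_left _).trans h3)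
      rw [← orderOf_coe] at hy
      exact hy ▸ k0 x y (ord P x hP x1) (mem_centralizer_singleton_iff.1 y.2).symm (hy ▸ c)
    exact (by decide +kernel : ∀ n ∈ Nat.divisors 24192, n % 5 = 1 → 1 < n → 2 ∣ n ∨ 7 ∣ n) n
      (Nat.mem_divisors.2 ⟨Nat.dvd_of_mul_dvd_mul_left (by norm_num : 0 < 5 ^ 2) h4, by norm_num⟩) h1 h2 |>.elim
      (fun e => absurd (h5 2 (by norm_num) (by norm_num) e) (by norm_num))
      fun e => absurd (h5 7 (by norm_num) (by norm_num) e) (by norm_num)
  obtain ⟨P⟩ : Nonempty (Sylow 5 S) := inferInstance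
  have h1 := smb_ti (P : Subgroup S) fun g a ha a1 k => by
    have := ti P (g • P) a ha (by
      rw [Sylow.coe_subgroup_smul, mem_pointwise_smul_iff_inv_smul_mem]
      simpa using k) a1
    exact Sylow.smul_eq_iff_mem_normalizer.1 this.symm
  have h2 : ∀ r i, r.Prime → Nat.Coprime 5 r → Nat.Coprime r 3 →
      r ^ i ∣ Nat.card (normalizer ((P : Subgroup S) : Set S)) → r ^ i ∣ 24 := fun r i hr c c3 hd => by
    have := Fact.mk hr
    obtain ⟨K, hK⟩ := Sylow.exists_subgroup_card_pow_prime r hd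
    rw [← card_map_of_injective (subtype_injective _)] at hK
    have := Solv.Frob.card_dvd_card_sub_one (A := K.map (Subgroup.subtype _)) (K := (P : Subgroup S))
      (map_subtype_le K) fun a ha a1 => eq_bot_iff.2 fun x hx => by
        by_contra x1
        have o := hK ▸ orderOf_dvd_natCard _ ha
        exact a1 (orderOf_eq_one_iff.1 (Nat.eq_one_of_dvd_coprimes (c3.pow_left i) o (k0 x a (ord P x hx.1 x1)
          (mem_centralizer_singleton_iff.1 hx.2) ((c.pow_right i).coprime_dvd_right o))))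
    rwa [hK, cP] at this
  obtain ⟨e, he⟩ := card_dvd_of_le (le_normalizer (H := (P : Subgroup S)))
  have h3 := card_subgroup_dvd_card (normalizer ((P : Subgroup S) : Set S))
  rw [he, cP] at h1 h2 h3
  rw [hc] at h1 h3
  exact (by decide +kernel : ∀ e ∈ Nat.divisors 24192, 5 ^ 2 * 5 ^ 2 ∣ 604800 - 5 ^ 2 * e →
      2 ^ 4 ∣ e ∨ 7 ^ 1 ∣ e) e
    (Nat.mem_divisors.2 ⟨Nat.dvd_of_mul_dvd_mul_left (by norm_num : 0 < 5 ^ 2) h3, by norm_num⟩) h1 |>.elim
    (fun k => absurd (h2 2 4 (by norm_num) (by norm_num) (by norm_num) (k.mul_left _)) (by norm_num))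
    fun k => absurd (h2 7 1 (by norm_num) (by norm_num) (by norm_num) (k.mul_left _)) (by norm_num)

end Cfsg.Agent.ISP
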